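import Mathlib

/-!
# Counting pairs of involutions of `A₅` with a product of odd order
-/

set_option autoImplicit false
set_option linter.unusedSimpArgs false
set_option linter.unusedSectionVars false
set_option linter.unusedVariables false
set_option synthInstance.maxHeartbeats 400000
set_option synthInstance.maxSize 4000
set_option maxRecDepth 100000

namespace Cfsg.Agent.Lib.HallJanko

open Equiv Subgroup

/-- The number of pairs of involutions of `H` with a product of odd order. -/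
noncomputable def oddPairs (H : Type*) [Group H] : ℕ :=
  Nat.card {q : H × H // q.1 * q.1 = 1 ∧ q.2 * q.2 = 1 ∧ q.1 ≠ 1 ∧ q.2 ≠ 1 ∧ Odd (orderOf (q.1 * q.2))}

theorem oddPairs_congr {H K : Type*} [Group H] [Group K] (e : H ≃* K) : oddPairs H = oddPairs K := by
  unfold oddPairs
  refine Nat.card_congr (Equiv.subtypeEquiv (Equiv.prodCongr e.toEquiv e.toEquiv) ?_)
  rintro ⟨a, b⟩
  simp only [Equiv.prodCongr_apply, Prod.map, MulEquiv.toEquiv_eq_coe, MulEquiv.coe_toEquiv]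
  have h1 : ∀ x : H, e x * e x = 1 ↔ x * x = 1 := fun x => by
    rw [← map_mul, map_eq_one_iff _ e.injective]
  have h2 : ∀ x : H, e x ≠ 1 ↔ x ≠ 1 := fun x => by
    rw [Ne, map_eq_one_iff _ e.injective]
  rw [h1, h1, h2, h2, ← map_mul, MulEquiv.orderOf_eq]

theorem a5_count : (Finset.univ.filter (fun p : Perm (Fin 5) × Perm (Fin 5) =>
    p.1 * p.1 = 1 ∧ p.2 * p.2 = 1 ∧ p.1 ≠ 1 ∧ p.2 ≠ 1 ∧ Perm.sign p.1 = 1 ∧ Perm.sign p.2 = 1 ∧
      (p.1 * p.2) ^ 15 = 1)).card = 195 := by decide +kernel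

theorem a5_exp : ∀ g : Perm (Fin 5), Perm.sign g = 1 → g ^ 30 = 1 := by decide

theorem odd_iff_a5 (g : Perm (Fin 5)) (hg : Perm.sign g = 1) : Odd (orderOf g) ↔ g ^ 15 = 1 := by
  constructor
  · intro h
    have h1 : orderOf g ∣ 30 := orderOf_dvd_of_pow_eq_one (a5_exp g hg)
    have h2 : Nat.Coprime (orderOf g) 2 := Nat.coprime_two_right.2 h
    have h3 : orderOf g ∣ 15 := by
      have : orderOf g ∣ 2 * 15 := h1
      exact h2.dvd_of_dvd_mul_left this
    exact orderOf_dvd_iff_pow_eq_one.1 h3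
  · intro h
    have h3 : orderOf g ∣ 15 := orderOf_dvd_of_pow_eq_one h
    exact Odd.of_dvd_nat (by decide) h3

theorem oddPairs_A5 : oddPairs (alternatingGroup (Fin 5)) = 195 := by
  classical
  unfold oddPairs
  rw [← a5_count]
  have hb : Function.Bijective (fun q : {q : alternatingGroup (Fin 5) × alternatingGroup (Fin 5) //
      q.1 * q.1 = 1 ∧ q.2 * q.2 = 1 ∧ q.1 ≠ 1 ∧ q.2 ≠ 1 ∧ Odd (orderOf (q.1 * q.2))} =>
      (⟨(q.1.1.1, q.1.2.1), by
        obtain ⟨⟨a, b⟩, h1, h2, h3, h4, h5⟩ := q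
        have ha : Perm.sign a.1 = 1 := Equiv.Perm.mem_alternatingGroup.1 a.2
        have hb : Perm.sign b.1 = 1 := Equiv.Perm.mem_alternatingGroup.1 b.2
        refine Finset.mem_filter.2 ⟨Finset.mem_univ _, congrArg Subtype.val h1, congrArg Subtype.val h2,
          fun h => h3 (Subtype.ext h), fun h => h4 (Subtype.ext h), ha, hb, ?_⟩
        have h6 : Perm.sign (a.1 * b.1) = 1 := by rw [map_mul, ha, hb, one_mul]
        refine (odd_iff_a5 _ h6).1 ?_
        have h7 : orderOf (a * b) = orderOf (a.1 * b.1) := (Subgroup.orderOf_coe (a * b)).symm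
        simpa [h7] using h5⟩ :
      ↥(Finset.univ.filter (fun p : Perm (Fin 5) × Perm (Fin 5) =>
    p.1 * p.1 = 1 ∧ p.2 * p.2 = 1 ∧ p.1 ≠ 1 ∧ p.2 ≠ 1 ∧ Perm.sign p.1 = 1 ∧ Perm.sign p.2 = 1 ∧
      (p.1 * p.2) ^ 15 = 1)))) := by
    constructor
    · rintro ⟨⟨a, b⟩, h⟩ ⟨⟨a', b'⟩, h'⟩ heq
      have h1 := congrArg Subtype.val heq
      simp only [Prod.mk.injEq] at h1
      exact Subtype.ext (Prod.ext (Subtype.ext h1.1) (Subtype.ext h1.2))
    · rintro ⟨⟨a, b⟩, h⟩
      obtain ⟨-, h1, h2, h3, h4, h5, h6, h7⟩ := Finset.mem_filter.1 h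
      simp only at h1 h2 h3 h4 h5 h6 h7
      have ha : a ∈ alternatingGroup (Fin 5) := Equiv.Perm.mem_alternatingGroup.2 h5
      have hb : b ∈ alternatingGroup (Fin 5) := Equiv.Perm.mem_alternatingGroup.2 h6
      refine ⟨⟨(⟨a, ha⟩, ⟨b, hb⟩), Subtype.ext h1, Subtype.ext h2,
        fun h => h3 (congrArg Subtype.val h), fun h => h4 (congrArg Subtype.val h), ?_⟩, rfl⟩
      have h8 : Perm.sign (a * b) = 1 := by rw [map_mul, h5, h6, one_mul]
      have h9 := (odd_iff_a5 _ h8).2 h7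
      have h10 : orderOf ((⟨a, ha⟩ : alternatingGroup (Fin 5)) * ⟨b, hb⟩) = orderOf (a * b) := by
        rw [← Subgroup.orderOf_coe]; rfl
      simpa [h10] using h9
  rw [Nat.card_congr (Equiv.ofBijective _ hb)]
  simp only [Nat.card_eq_fintype_card, Fintype.card_coe]

end Cfsg.Agent.Lib.HallJanko
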