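import Cfsg.Agent.Lib.Basic.ConjCount
import Mathlib

/-!
# Thompson's order formula

If a finite group has exactly two classes of involutions, `x^G` and `y^G`, then
`|G| = n(x) |C(y)| + n(y) |C(x)|`, where `n(w)` counts the pairs `(u, v) ∈ x^G × y^G` with
`w ∈ ⟨u v⟩`.
-/

set_option autoImplicit false

namespace Cfsg.Agent.Lib.HallJanko

open Subgroup

variable {G : Type*} [Group G]

/-- The number of pairs `(u, v) ∈ x^G × y^G` with `w ∈ ⟨u v⟩`. -/
noncomputable def nn (x y w : G) : ℕ :=
  Nat.card {p : G × G // IsConj p.1 x ∧ IsConj p.2 y ∧ w ∈ zpowers (p.1 * p.2)}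

theorem nn_conj (x y w c : G) : nn x y (c * w * c⁻¹) = nn x y w := by
  unfold nn
  symm
  have hc : ∀ a : G, IsConj (c * a * c⁻¹) a := fun a =>
    isConj_comm.mp (isConj_iff.mpr ⟨c, rfl⟩)
  refine Nat.card_congr (Equiv.subtypeEquiv
    (Equiv.prodCongr (MulAut.conj c).toEquiv (MulAut.conj c).toEquiv) ?_)
  rintro ⟨u, v⟩
  have e : ∀ a : G, (MulAut.conj c).toEquiv a = c * a * c⁻¹ := fun a => rfl
  simp only [Equiv.prodCongr_apply, Prod.map, e]
  refine and_congr ?_ (and_congr ?_ ?_)
  · exact ⟨fun h => (hc u).trans h, fun h => (hc u).symm.trans h⟩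
  · exact ⟨fun h => (hc v).trans h, fun h => (hc v).symm.trans h⟩
  · have e2 : c * u * c⁻¹ * (c * v * c⁻¹) = c * (u * v) * c⁻¹ := by group
    rw [e2, mem_zpowers_iff, mem_zpowers_iff]
    refine exists_congr fun k => ?_
    rw [conj_zpow]
    constructor
    · intro h
      rw [h]
    · intro h
      simpa [mul_assoc] using h

theorem even_orderOf_mul [Finite G] (u v : G) (hu : u * u = 1) (hv : v * v = 1)
    (hne : ¬ IsConj u v) : Even (orderOf (u * v)) := by
  by_contra hodd
  rw [Nat.not_even_iff_odd] at hodd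
  obtain ⟨k, hk⟩ := hodd
  set g := u * v with hg
  have hu' : u⁻¹ = u := inv_eq_of_mul_eq_one_left hu
  have hv' : v⁻¹ = v := inv_eq_of_mul_eq_one_left hv
  have hpow : g ^ (k + k) * g = 1 := by
    rw [← pow_succ, show k + k + 1 = 2 * k + 1 by ring, ← hk, pow_orderOf_eq_one]
  have hginv : u * g * u⁻¹ = g⁻¹ := by
    rw [hg, mul_inv_rev, hu', hv']
    rw [← mul_assoc, hu, one_mul]
  have h1 : u * g ^ k * u⁻¹ = (g⁻¹) ^ k := by
    rw [← hginv, conj_pow]
  have h2 : u * (g ^ k)⁻¹ * u⁻¹ = g ^ k := by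
    have := congrArg (fun t => t⁻¹) h1
    simp only [mul_inv_rev, hu', inv_inv, inv_pow] at this
    rw [hu'] at *
    simpa [mul_assoc] using this
  apply hne
  rw [isConj_iff]
  refine ⟨g ^ k, ?_⟩
  have h3 : u * (g ^ k)⁻¹ = g ^ k * u := by
    exact mul_inv_eq_iff_eq_mul.mp h2
  rw [mul_assoc, h3, ← mul_assoc, ← pow_add]
  have h4 : g ^ (k + k) = g⁻¹ := eq_inv_of_mul_eq_one_left hpow
  rw [h4, hg, mul_inv_rev, hu', hv', mul_assoc, hu, mul_one]

theorem invol_unique [Finite G] {g w w' : G} (hw : w ∈ zpowers g) (hw' : w' ∈ zpowers g)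
    (h1 : w * w = 1) (h2 : w ≠ 1) (h3 : w' * w' = 1) (h4 : w' ≠ 1) : w = w' := by
  classical
  by_contra hne
  haveI : Fintype (zpowers g) := Fintype.ofFinite _
  have hle := IsCyclic.card_pow_eq_one_le (α := zpowers g) (n := 2) (by norm_num)
  have hsub : ({1, ⟨w, hw⟩, ⟨w', hw'⟩} : Finset (zpowers g)) ⊆
      Finset.univ.filter (fun a : zpowers g => a ^ 2 = 1) := by
    intro a ha
    simp only [Finset.mem_insert, Finset.mem_singleton] at ha
    simp only [Finset.mem_filter, Finset.mem_univ, true_and]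
    rcases ha with rfl | rfl | rfl
    · simp
    · ext
      simpa [pow_two] using h1
    · ext
      simpa [pow_two] using h3
  have hcard : ({1, ⟨w, hw⟩, ⟨w', hw'⟩} : Finset (zpowers g)).card = 3 := by
    rw [Finset.card_eq_three]
    refine ⟨1, ⟨w, hw⟩, ⟨w', hw'⟩, ?_, ?_, ?_, rfl⟩
    · intro h
      exact h2 (congrArg Subtype.val h).symm
    · intro h
      exact h4 (congrArg Subtype.val h).symm
    · intro h
      exact hne (congrArg Subtype.val h)
  have := Finset.card_le_card hsub
  rw [hcard] at this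
  have h5 : (Finset.univ.filter (fun a : zpowers g => a ^ 2 = 1)).card ≤ 2 := by
    convert hle
  omega

theorem exists_invol [Finite G] {g : G} (h : Even (orderOf g)) :
    ∃ w ∈ zpowers g, w * w = 1 ∧ w ≠ 1 := by
  obtain ⟨m, hm⟩ := h
  have hpos := orderOf_pos g
  refine ⟨g ^ m, npow_mem_zpowers g m, ?_, ?_⟩
  · rw [← pow_add, ← hm, pow_orderOf_eq_one]
  · exact pow_ne_one_of_lt_orderOf (by omega) (by omega)

theorem order_formula [Finite G] (x y : G) (hx : x * x = 1) (hx1 : x ≠ 1) (hy : y * y = 1)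
    (hy1 : y ≠ 1) (hxy : ¬ IsConj x y)
    (hall : ∀ w : G, w * w = 1 → w ≠ 1 → IsConj w x ∨ IsConj w y) :
    Nat.card G = nn x y x * Nat.card (centralizer ({y} : Set G))
      + nn x y y * Nat.card (centralizer ({x} : Set G)) := by
  classical
  haveI : Fintype G := Fintype.ofFinite G
  set X := Finset.univ.filter (fun u : G => IsConj u x) with hX
  set Y := Finset.univ.filter (fun u : G => IsConj u y) with hY
  have hconjinv : ∀ {u z : G}, IsConj u z → z * z = 1 → u * u = 1 := by
    intro u z huz hz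
    obtain ⟨c, rfl⟩ := isConj_iff.mp huz.symm
    simp only [mul_assoc, inv_mul_cancel_left]
    rw [← mul_assoc z z, hz, one_mul, mul_inv_cancel]
  have hconjne : ∀ {u z : G}, IsConj u z → z ≠ 1 → u ≠ 1 := by
    rintro u z huz hz rfl
    exact hz (isConj_one_right.mp huz)
  set P := X ×ˢ Y with hP
  have hPmem : ∀ p : G × G, p ∈ P ↔ IsConj p.1 x ∧ IsConj p.2 y := by
    intro p
    simp [hP, hX, hY]
  set I := X ∪ Y with hI
  have hdisj : Disjoint X Y := by
    rw [Finset.disjoint_left]
    intro a ha hb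
    simp only [hX, hY, Finset.mem_filter, Finset.mem_univ, true_and] at ha hb
    exact hxy (ha.symm.trans hb)
  have hone : ∀ p ∈ P, (I.filter (fun w => w ∈ zpowers (p.1 * p.2))).card = 1 := by
    intro p hp
    obtain ⟨h1, h2⟩ := (hPmem p).mp hp
    have hu := hconjinv h1 hx
    have hv := hconjinv h2 hy
    have hne : ¬ IsConj p.1 p.2 := fun h => hxy ((h1.symm.trans h).trans h2)
    obtain ⟨w, hw, hw1, hw2⟩ := exists_invol (even_orderOf_mul p.1 p.2 hu hv hne)
    rw [Finset.card_eq_one]
    refine ⟨w, ?_⟩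
    ext a
    simp only [Finset.mem_filter, Finset.mem_singleton]
    constructor
    · rintro ⟨ha, ha2⟩
      have haI : a * a = 1 ∧ a ≠ 1 := by
        simp only [hI, hX, hY, Finset.mem_union, Finset.mem_filter, Finset.mem_univ,
          true_and] at ha
        rcases ha with ha | ha
        · exact ⟨hconjinv ha hx, hconjne ha hx1⟩
        · exact ⟨hconjinv ha hy, hconjne ha hy1⟩
      exact invol_unique ha2 hw haI.1 haI.2 hw1 hw2
    · rintro rfl
      refine ⟨?_, hw⟩
      simp only [hI, hX, hY, Finset.mem_union, Finset.mem_filter, Finset.mem_univ, true_and]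
      exact hall _ hw1 hw2
  have hcount := Finset.sum_card_bipartiteAbove_eq_sum_card_bipartiteBelow
    (s := P) (t := I) (fun p w => w ∈ zpowers (p.1 * p.2))
  have hleft : ∑ p ∈ P, (I.bipartiteAbove (fun p w => w ∈ zpowers (p.1 * p.2)) p).card = P.card := by
    rw [Finset.card_eq_sum_ones]
    exact Finset.sum_congr rfl hone
  have hnn : ∀ w, (P.bipartiteBelow (fun p w => w ∈ zpowers (p.1 * p.2)) w).card = nn x y w := by
    intro w
    unfold nn
    rw [Nat.card_eq_fintype_card, Fintype.card_subtype]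
    congr 1
    ext p
    simp [Finset.bipartiteBelow, hPmem, and_assoc]
  have hnnx : ∀ w ∈ X, (P.bipartiteBelow (fun p w => w ∈ zpowers (p.1 * p.2)) w).card = nn x y x := by
    intro w hw
    rw [hnn]
    simp only [hX, Finset.mem_filter, Finset.mem_univ, true_and] at hw
    obtain ⟨c, rfl⟩ := isConj_iff.mp hw.symm
    exact nn_conj x y x c
  have hnny : ∀ w ∈ Y, (P.bipartiteBelow (fun p w => w ∈ zpowers (p.1 * p.2)) w).card = nn x y y := by
    intro w hw
    rw [hnn]
    simp only [hY, Finset.mem_filter, Finset.mem_univ, true_and] at hw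
    obtain ⟨c, rfl⟩ := isConj_iff.mp hw.symm
    exact nn_conj x y y c
  rw [hleft, hI, Finset.sum_union hdisj, Finset.sum_congr rfl hnnx, Finset.sum_congr rfl hnny,
    Finset.sum_const, Finset.sum_const, smul_eq_mul, smul_eq_mul, hP, Finset.card_product]
    at hcount
  have hXc : X.card = Nat.card {u : G // IsConj x u} := by
    rw [Nat.card_eq_fintype_card, Fintype.card_subtype]
    congr 1
    ext u
    simp only [hX, Finset.mem_filter, Finset.mem_univ, true_and]
    exact isConj_comm
  have hYc : Y.card = Nat.card {u : G // IsConj y u} := by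
    rw [Nat.card_eq_fintype_card, Fintype.card_subtype]
    congr 1
    ext u
    simp only [hY, Finset.mem_filter, Finset.mem_univ, true_and]
    exact isConj_comm
  have h1 := Cfsg.Agent.Lib.Basic.ConjCount.card_isConj_mul_card_centralizer x
  have h2 := Cfsg.Agent.Lib.Basic.ConjCount.card_isConj_mul_card_centralizer y
  rw [← hXc] at h1
  rw [← hYc] at h2
  set a := nn x y x
  set b := nn x y y
  set cx := Nat.card (centralizer ({x} : Set G))
  set cy := Nat.card (centralizer ({y} : Set G))
  set n := Nat.card G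
  have hnpos : 0 < n := Nat.card_pos
  have h3 : n * n = n * (a * cy + b * cx) := by
    calc n * n = (X.card * cx) * (Y.card * cy) := by rw [h1, h2]
      _ = (X.card * Y.card) * (cx * cy) := by ring
      _ = (X.card * a + Y.card * b) * (cx * cy) := by rw [hcount]
      _ = (X.card * cx) * (a * cy) + (Y.card * cy) * (b * cx) := by ring
      _ = n * (a * cy + b * cx) := by rw [h1, h2]; ring
  exact Nat.eq_of_mul_eq_mul_left hnpos h3

end Cfsg.Agent.Lib.HallJanko
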