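import Cfsg.Agent.S2119
import Mathlib

/-!
# Elements centralizing a four-group of a normal `A₅`

If `H ≃ A₅` is normal in `X`, and `s ∈ X` centralizes a four-subgroup `{1, z, a, za}` of `H`, then
`s` induces on `H` the same automorphism as some element of this four-group.
-/

set_option autoImplicit false

namespace Cfsg.Agent.Lib.HallJanko.CentA5

open Equiv

set_option maxRecDepth 100000 in
set_option synthInstance.maxHeartbeats 400000 in
set_option synthInstance.maxSize 4000 in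
theorem perm_fact0 : ∀ x : Perm (Fin 5), x * x = 1 → x ≠ 1 → ∀ y : Perm (Fin 5), y * y = 1 → y ≠ 1 →
    x ≠ y → x * y = y * x → ∀ σ : Perm (Fin 5), σ * x = x * σ → σ * y = y * σ →
    σ = 1 ∨ σ = x ∨ σ = y ∨ σ = x * y := by
  decide +kernel

theorem perm_fact (x y σ : Perm (Fin 5)) (h1 : x * x = 1) (h2 : y * y = 1) (h3 : x * y = y * x)
    (h4 : x ≠ 1) (h5 : y ≠ 1) (h6 : x ≠ y) (h7 : σ * x = x * σ) (h8 : σ * y = y * σ) :
    σ = 1 ∨ σ = x ∨ σ = y ∨ σ = x * y :=
  perm_fact0 x h1 h4 y h2 h5 h6 h3 σ h7 h8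

theorem cent_A5 {X : Type*} [Group X] (H : Subgroup X) [H.Normal]
    (e : H ≃* alternatingGroup (Fin 5)) (z a s : X) (hzH : z ∈ H) (haH : a ∈ H)
    (hz : z * z = 1) (ha : a * a = 1) (hza : z * a = a * z) (hz1 : z ≠ 1) (ha1 : a ≠ 1)
    (hne : z ≠ a) (hsz : s * z = z * s) (hsa : s * a = a * s) :
    ∃ u : X, (u = 1 ∨ u = z ∨ u = a ∨ u = z * a) ∧ ∀ h ∈ H, s * h * s⁻¹ = u * h * u⁻¹ := by
  -- the automorphism of `A₅`
  let ψ : MulAut (alternatingGroup (Fin 5)) :=
    e.symm.trans ((MulAut.conjNormal s : MulAut H).trans e)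
  obtain ⟨σ, hσ⟩ := (Cfsg.Agent.S2119.result 5 (by norm_num) (by norm_num)).2 ψ
  -- the defining identity
  have key : ∀ h : H, σ * ((e h : alternatingGroup (Fin 5)) : Perm (Fin 5)) * σ⁻¹
      = ((e ⟨s * h.1 * s⁻¹, (‹H.Normal›).conj_mem _ h.2 s⟩ : alternatingGroup (Fin 5)) : Perm (Fin 5)) := by
    intro h
    have h1 := congrArg (fun f : MulAut (alternatingGroup (Fin 5)) => f (e h)) hσ
    have h2 : (MulAut.conjNormal σ (e h) : alternatingGroup (Fin 5))
        = e ⟨s * h.1 * s⁻¹, (‹H.Normal›).conj_mem _ h.2 s⟩ := by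
      refine h1.trans ?_
      change e ((MulAut.conjNormal s : MulAut H) (e.symm (e h))) = _
      simp only [MulEquiv.symm_apply_apply]
      congr 1
    have h3 := congrArg (Subtype.val) h2
    simpa [MulAut.conjNormal_apply] using h3
  let ι : H → Perm (Fin 5) := fun h => ((e h : alternatingGroup (Fin 5)) : Perm (Fin 5))
  have ι_mul : ∀ p q : H, ι (p * q) = ι p * ι q := fun p q => by simp [ι]
  have ι_inj : Function.Injective ι := fun p q h => e.injective (Subtype.ext h)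
  have ι_one : ι 1 = 1 := by simp [ι]
  let zz : H := ⟨z, hzH⟩
  let aa : H := ⟨a, haH⟩
  have hzz : zz * zz = 1 := Subtype.ext hz
  have haa : aa * aa = 1 := Subtype.ext ha
  have hc1 : σ * ι zz = ι zz * σ := by
    have := key zz
    have e1 : (⟨s * zz.1 * s⁻¹, (‹H.Normal›).conj_mem _ zz.2 s⟩ : H) = zz := by
      apply Subtype.ext
      change s * z * s⁻¹ = z
      rw [hsz]
      group
    rw [e1] at this
    exact mul_inv_eq_iff_eq_mul.mp this
  have hc2 : σ * ι aa = ι aa * σ := by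
    have := key aa
    have e1 : (⟨s * aa.1 * s⁻¹, (‹H.Normal›).conj_mem _ aa.2 s⟩ : H) = aa := by
      apply Subtype.ext
      change s * a * s⁻¹ = a
      rw [hsa]
      group
    rw [e1] at this
    exact mul_inv_eq_iff_eq_mul.mp this
  have hfact := perm_fact (ι zz) (ι aa) σ
    (by rw [← ι_mul, hzz, ι_one]) (by rw [← ι_mul, haa, ι_one])
    (by rw [← ι_mul, ← ι_mul]; congr 1; exact Subtype.ext hza)
    (fun h => hz1 (congrArg Subtype.val (ι_inj (h.trans ι_one.symm))))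
    (fun h => ha1 (congrArg Subtype.val (ι_inj (h.trans ι_one.symm))))
    (fun h => hne (congrArg Subtype.val (ι_inj h))) hc1 hc2
  have final : ∀ u : H, σ = ι u → ∀ h ∈ H, s * h * s⁻¹ = u.1 * h * u.1⁻¹ := by
    intro u hu h hh
    have h1 := key ⟨h, hh⟩
    have h2 : ι ⟨s * h * s⁻¹, (‹H.Normal›).conj_mem _ hh s⟩ = ι (u * ⟨h, hh⟩ * u⁻¹) := by
      have e1 : ι (u * ⟨h, hh⟩ * u⁻¹) = ι u * ι ⟨h, hh⟩ * (ι u)⁻¹ := by
        simp [ι]
      rw [e1, ← hu]
      exact h1.symm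
    have h3 := congrArg Subtype.val (ι_inj h2)
    simpa using h3
  rcases hfact with h1 | h1 | h1 | h1
  · exact ⟨1, Or.inl rfl, fun h hh => by simpa using final 1 (by rw [h1, ι_one]) h hh⟩
  · exact ⟨z, Or.inr (Or.inl rfl), final zz h1⟩
  · exact ⟨a, Or.inr (Or.inr (Or.inl rfl)), final aa h1⟩
  · exact ⟨z * a, Or.inr (Or.inr (Or.inr rfl)), final (zz * aa) (by rw [ι_mul]; exact h1)⟩

end Cfsg.Agent.Lib.HallJanko.CentA5
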