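import Mathlib

/-!
# The Clifford presentation of `2^{1+4}_-`

`QW` is the type of words `z^s a₀^b₀ a₁^b₁ a₂^b₂ a₃^b₃`, `qmul` the multiplication of such words.
All computations in the extraspecial group are reduced to `decide` on `QW`.
-/

set_option autoImplicit false
set_option linter.unusedSimpArgs false
set_option linter.unusedSectionVars false
set_option linter.unusedVariables false

namespace Cfsg.Agent.Lib.HallJanko

/-- Words in the Clifford generators: sign and subset of `{0,1,2,3}`. -/
abbrev QW := Bool × Bool × Bool × Bool × Bool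

/-- The multiplication of words. -/
def qmul : QW → QW → QW
  | (s, b0, b1, b2, b3), (s', c0, c1, c2, c3) =>
    (xor (xor s s') (xor (c0 && xor b1 (xor b2 b3)) (xor (c1 && xor b2 b3) (c2 && b3))),
      xor b0 c0, xor b1 c1, xor b2 c2, xor b3 c3)

/-- The identity word. -/
def qone : QW := (false, false, false, false, false)

/-- The word of `z`. -/
def qz : QW := (true, false, false, false, false)

/-- The words of the five generators; the last one is `a₀a₁a₂a₃`. -/
def qa : Fin 5 → QW
  | 0 => (false, true, false, false, false)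
  | 1 => (false, false, true, false, false)
  | 2 => (false, false, false, true, false)
  | 3 => (false, false, false, false, true)
  | 4 => (false, true, true, true, true)

/-- The word `w` or the word `z w`. -/
def qsg (s : Bool) (w : QW) : QW := if s then qmul qz w else w

/-- Inverse of a word. -/
def qinv (w : QW) : QW := qmul (qmul w w) w

variable {G : Type*} [Group G]

/-- Five pairwise anticommuting involutions, with `a₄ = a₀a₁a₂a₃`. -/
structure Cliff (z : G) (a : Fin 5 → G) : Prop where
  z_sq : z * z = 1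
  z_ne : z ≠ 1
  a_sq : ∀ i, a i * a i = 1
  a_z : ∀ i, a i * z = z * a i
  anti : ∀ i j, i ≠ j → a i * a j = z * (a j * a i)
  rel : a 4 = a 0 * a 1 * a 2 * a 3

/-- `x^b`, `b` a boolean. -/
def pw (x : G) (b : Bool) : G := if b then x else 1

@[simp] theorem pw_true (x : G) : pw x true = x := rfl
@[simp] theorem pw_false (x : G) : pw x false = 1 := rfl

/-- The value of a word. -/
def ev (z : G) (a : Fin 5 → G) : QW → G
  | (s, b0, b1, b2, b3) => pw z s * pw (a 0) b0 * pw (a 1) b1 * pw (a 2) b2 * pw (a 3) b3

namespace Cliff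

variable {z : G} {a : Fin 5 → G} (h : Cliff z a)
include h

theorem z_inv : z⁻¹ = z := inv_eq_of_mul_eq_one_left h.z_sq

theorem a_inv (i : Fin 5) : (a i)⁻¹ = a i := inv_eq_of_mul_eq_one_left (h.a_sq i)

theorem z_a (i : Fin 5) : z * a i = a i * z := (h.a_z i).symm

theorem pw_z_comm (s : Bool) (x : G) (hx : x * z = z * x) : pw z s * x = x * pw z s := by
  cases s
  · simp
  · simpa using hx.symm

/-- Moving a letter past another one. -/
theorem pw_swap (i j : Fin 5) (hij : i ≠ j) (b c : Bool) :
    pw (a i) b * pw (a j) c = pw z (b && c) * (pw (a j) c * pw (a i) b) := by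
  cases b <;> cases c <;> simp [h.anti i j hij]

theorem pw_self (i : Fin 5) (b c : Bool) :
    pw (a i) b * pw (a i) c = pw (a i) (xor b c) := by
  cases b <;> cases c <;> simp [h.a_sq i]

theorem pw_z_self (b c : Bool) : pw z b * pw z c = pw z (xor b c) := by
  cases b <;> cases c <;> simp [h.z_sq]

theorem pw_a_z (i : Fin 5) (b s : Bool) : pw (a i) b * pw z s = pw z s * pw (a i) b := by
  cases b <;> cases s <;> simp [h.a_z i]

theorem anti' (i j : Fin 5) (hij : i ≠ j) (w : G) : a i * (a j * w) = z * (a j * (a i * w)) := by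
  rw [← mul_assoc, h.anti i j hij]; simp only [mul_assoc]

theorem a_z' (i : Fin 5) (w : G) : a i * (z * w) = z * (a i * w) := by
  rw [← mul_assoc, h.a_z i, mul_assoc]

theorem a_sq' (i : Fin 5) (w : G) : a i * (a i * w) = w := by
  rw [← mul_assoc, h.a_sq i, one_mul]

theorem z_sq' (w : G) : z * (z * w) = w := by
  rw [← mul_assoc, h.z_sq, one_mul]

theorem ev_mul_z (w : QW) (c : Bool) :
    ev z a w * pw z c = ev z a (qmul w (c, false, false, false, false)) := by
  obtain ⟨s, b0, b1, b2, b3⟩ := w
  cases b0 <;> cases b1 <;> cases b2 <;> cases b3 <;> cases c <;> cases s <;>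
    simp [ev, qmul, mul_assoc, h.a_sq, h.a_sq', h.z_sq, h.z_sq', h.a_z, h.a_z',
      h.anti 1 0 (by decide), h.anti' 1 0 (by decide), h.anti 2 0 (by decide), h.anti' 2 0 (by decide),
      h.anti 3 0 (by decide), h.anti' 3 0 (by decide), h.anti 2 1 (by decide), h.anti' 2 1 (by decide),
      h.anti 3 1 (by decide), h.anti' 3 1 (by decide), h.anti 3 2 (by decide), h.anti' 3 2 (by decide)]

theorem ev_mul_a0 (w : QW) (c : Bool) :
    ev z a w * pw (a 0) c = ev z a (qmul w (false, c, false, false, false)) := by
  obtain ⟨s, b0, b1, b2, b3⟩ := w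
  cases b0 <;> cases b1 <;> cases b2 <;> cases b3 <;> cases c <;> cases s <;>
    simp [ev, qmul, mul_assoc, h.a_sq, h.a_sq', h.z_sq, h.z_sq', h.a_z, h.a_z',
      h.anti 1 0 (by decide), h.anti' 1 0 (by decide), h.anti 2 0 (by decide), h.anti' 2 0 (by decide),
      h.anti 3 0 (by decide), h.anti' 3 0 (by decide), h.anti 2 1 (by decide), h.anti' 2 1 (by decide),
      h.anti 3 1 (by decide), h.anti' 3 1 (by decide), h.anti 3 2 (by decide), h.anti' 3 2 (by decide)]

theorem ev_mul_a1 (w : QW) (c : Bool) :
    ev z a w * pw (a 1) c = ev z a (qmul w (false, false, c, false, false)) := by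
  obtain ⟨s, b0, b1, b2, b3⟩ := w
  cases b0 <;> cases b1 <;> cases b2 <;> cases b3 <;> cases c <;> cases s <;>
    simp [ev, qmul, mul_assoc, h.a_sq, h.a_sq', h.z_sq, h.z_sq', h.a_z, h.a_z',
      h.anti 1 0 (by decide), h.anti' 1 0 (by decide), h.anti 2 0 (by decide), h.anti' 2 0 (by decide),
      h.anti 3 0 (by decide), h.anti' 3 0 (by decide), h.anti 2 1 (by decide), h.anti' 2 1 (by decide),
      h.anti 3 1 (by decide), h.anti' 3 1 (by decide), h.anti 3 2 (by decide), h.anti' 3 2 (by decide)]

theorem ev_mul_a2 (w : QW) (c : Bool) :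
    ev z a w * pw (a 2) c = ev z a (qmul w (false, false, false, c, false)) := by
  obtain ⟨s, b0, b1, b2, b3⟩ := w
  cases b0 <;> cases b1 <;> cases b2 <;> cases b3 <;> cases c <;> cases s <;>
    simp [ev, qmul, mul_assoc, h.a_sq, h.a_sq', h.z_sq, h.z_sq', h.a_z, h.a_z',
      h.anti 1 0 (by decide), h.anti' 1 0 (by decide), h.anti 2 0 (by decide), h.anti' 2 0 (by decide),
      h.anti 3 0 (by decide), h.anti' 3 0 (by decide), h.anti 2 1 (by decide), h.anti' 2 1 (by decide),
      h.anti 3 1 (by decide), h.anti' 3 1 (by decide), h.anti 3 2 (by decide), h.anti' 3 2 (by decide)]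

theorem ev_mul_a3 (w : QW) (c : Bool) :
    ev z a w * pw (a 3) c = ev z a (qmul w (false, false, false, false, c)) := by
  obtain ⟨s, b0, b1, b2, b3⟩ := w
  cases b0 <;> cases b1 <;> cases b2 <;> cases b3 <;> cases c <;> cases s <;>
    simp [ev, qmul, mul_assoc, h.a_sq, h.a_sq', h.z_sq, h.z_sq', h.a_z, h.a_z',
      h.anti 1 0 (by decide), h.anti' 1 0 (by decide), h.anti 2 0 (by decide), h.anti' 2 0 (by decide),
      h.anti 3 0 (by decide), h.anti' 3 0 (by decide), h.anti 2 1 (by decide), h.anti' 2 1 (by decide),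
      h.anti 3 1 (by decide), h.anti' 3 1 (by decide), h.anti 3 2 (by decide), h.anti' 3 2 (by decide)]

end Cliff

theorem qmul_steps : ∀ x y : QW,
    (qmul (qmul (qmul (qmul (qmul x (y.1, false, false, false, false)) (false, y.2.1, false, false, false))
      (false, false, y.2.2.1, false, false)) (false, false, false, y.2.2.2.1, false))
      (false, false, false, false, y.2.2.2.2)) = qmul x y := by
  decide

namespace Cliff

variable {z : G} {a : Fin 5 → G} (h : Cliff z a)
include h

/-- The multiplicativity of the evaluation of words. -/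
theorem ev_mul (x y : QW) : ev z a x * ev z a y = ev z a (qmul x y) := by
  obtain ⟨s, c0, c1, c2, c3⟩ := y
  rw [← qmul_steps x (s, c0, c1, c2, c3)]
  simp only [← h.ev_mul_z, ← h.ev_mul_a0, ← h.ev_mul_a1, ← h.ev_mul_a2, ← h.ev_mul_a3]
  simp only [ev, mul_assoc]

theorem ev_one : ev z a qone = 1 := by simp [ev, qone]

theorem ev_qz : ev z a qz = z := by simp [ev, qz]

theorem ev_qa (i : Fin 5) : ev z a (qa i) = a i := by
  fin_cases i
  · simp [ev, qa]
  · simp [ev, qa]
  · simp [ev, qa]
  · simp [ev, qa]
  · simp [ev, qa, h.rel, mul_assoc]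

theorem ev_inv (w : QW) : (ev z a w)⁻¹ = ev z a (qinv w) := by
  have key : ∀ w : QW, qmul w (qinv w) = qone := by decide
  apply inv_eq_of_mul_eq_one_right
  rw [h.ev_mul, key, h.ev_one]

theorem ev_sg (s : Bool) (w : QW) : ev z a (qsg s w) = pw z s * ev z a w := by
  cases s
  · simp [qsg]
  · simp [qsg, ← h.ev_mul, h.ev_qz]

end Cliff

/-- Words which are not central anticommute with a generator. -/
theorem exists_anti : ∀ w : QW, (w.2 ≠ (false, false, false, false)) →
    ∃ i : Fin 5, qmul w (qa i) = qmul qz (qmul (qa i) w) := by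
  decide

namespace Cliff

variable {z : G} {a : Fin 5 → G} (h : Cliff z a)
include h

theorem ev_eq_one_iff (w : QW) : ev z a w = 1 ↔ w = qone := by
  constructor
  · intro hw
    by_cases hb : w.2 = (false, false, false, false)
    · obtain ⟨s, b⟩ := w
      simp only at hb
      subst hb
      cases s
      · rfl
      · exact absurd (by simpa [ev] using hw) h.z_ne
    · obtain ⟨i, hi⟩ := exists_anti w hb
      have h1 := congrArg (ev z a) hi
      simp only [← h.ev_mul, hw, h.ev_qz, h.ev_qa, mul_one, one_mul] at h1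
      exact absurd (mul_eq_right.mp h1.symm) h.z_ne
  · rintro rfl
    exact h.ev_one

theorem ev_injective : Function.Injective (ev z a) := by
  intro x y hxy
  have key : ∀ x y : QW, qmul x (qinv y) = qone → x = y := by decide
  apply key
  rw [← h.ev_eq_one_iff, ← h.ev_mul, ← h.ev_inv, hxy, mul_inv_cancel]

end Cliff

end Cfsg.Agent.Lib.HallJanko
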