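import Mathlib
import Cfsg.Agent.Lib.HallJanko.Cliff

/-!
# Hall-Janko type groups: the local setup

`Setup G` records: `z`, the Clifford generators `a i` of `Q`, the action of `C(z)` on them.
-/

set_option autoImplicit false
set_option linter.unusedSimpArgs false
set_option linter.unusedSectionVars false
set_option linter.unusedVariables false
set_option synthInstance.maxHeartbeats 400000
set_option synthInstance.maxSize 4000
set_option maxRecDepth 100000

namespace Cfsg.Agent.Lib.HallJanko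

open Equiv Subgroup

variable {G : Type*} [Group G]

/-- `c` acts on the generators by `σ`, up to signs. -/
def Acts (z : G) (a : Fin 5 → G) (c : G) (σ : Perm (Fin 5)) : Prop :=
  ∀ i, c * a i * c⁻¹ = a (σ i) ∨ c * a i * c⁻¹ = z * a (σ i)

/-- The double transposition `(01)(23)`. -/
def σ₀ : Perm (Fin 5) := swap 0 1 * swap 2 3

/-- The `3`-cycle `(123)`. -/
def ρ₀ : Perm (Fin 5) := swap 1 2 * swap 2 3

/-- The image of a word under a substitution of the generators. -/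
def qpw (w : QW) (b : Bool) : QW := if b then w else qone

/-- The image of a word under a substitution of the generators. -/
def Phi (A0 A1 A2 A3 : QW) : QW → QW
  | (s, b0, b1, b2, b3) =>
    qmul (qmul (qmul (qmul (s, false, false, false, false) (qpw A0 b0)) (qpw A1 b1)) (qpw A2 b2))
      (qpw A3 b3)

theorem qa_ne : ∀ i j : Fin 5, i ≠ j → qa i ≠ qa j ∧ qa i ≠ qmul qz (qa j) ∧ qmul qz (qa i) ≠ qa j ∧
      qmul qz (qa i) ≠ qmul qz (qa j) := by decide

theorem qz_comm : ∀ w : QW, qmul w qz = qmul qz w := by decide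

theorem q_acts : ∀ (w : QW) (i : Fin 5), qmul (qmul w (qa i)) (qinv w) = qa i ∨
      qmul (qmul w (qa i)) (qinv w) = qmul qz (qa i) := by decide

theorem q_inv_cases : ∀ w : QW, qmul w w = qone → w = qone ∨ w = qz ∨
      ∃ i : Fin 5, w = qa i ∨ w = qmul qz (qa i) := by decide

theorem perm_trans : ∀ i j : Fin 5, ∃ σ : Perm (Fin 5), Perm.sign σ = 1 ∧ σ i = j := by decide

theorem exists_ne_fin5 : ∀ j : Fin 5, ∃ k : Fin 5, k ≠ j := by decide

namespace Cliff

variable {z : G} {a : Fin 5 → G} (h : Cliff z a)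
include h

theorem comm_ev_z (w : QW) : ev z a w * z = z * ev z a w := by
  have := congrArg (ev z a) (qz_comm w)
  rw [← h.ev_mul, ← h.ev_mul, h.ev_qz] at this
  exact this

theorem ev_qpw (w : QW) (b : Bool) : ev z a (qpw w b) = pw (ev z a w) b := by
  cases b
  · simp [qpw, h.ev_one]
  · simp [qpw]

theorem conj_pw (c x : G) (b : Bool) : c * pw x b * c⁻¹ = pw (c * x * c⁻¹) b := by
  cases b <;> simp

/-- Conjugation in terms of words. -/
theorem conj_ev (c : G) (hc : c * z = z * c) {A0 A1 A2 A3 : QW}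
    (h0 : c * a 0 * c⁻¹ = ev z a A0) (h1 : c * a 1 * c⁻¹ = ev z a A1)
    (h2 : c * a 2 * c⁻¹ = ev z a A2) (h3 : c * a 3 * c⁻¹ = ev z a A3) (w : QW) :
    c * ev z a w * c⁻¹ = ev z a (Phi A0 A1 A2 A3 w) := by
  obtain ⟨s, b0, b1, b2, b3⟩ := w
  have hz : c * z * c⁻¹ = z := by rw [hc]; group
  have hs : ev z a (s, false, false, false, false) = pw z s := by simp [ev]
  simp only [Phi, ← h.ev_mul, h.ev_qpw, hs, ← h0, ← h1, ← h2, ← h3]
  have : ev z a (s, b0, b1, b2, b3) = pw z s * pw (a 0) b0 * pw (a 1) b1 * pw (a 2) b2 * pw (a 3) b3 := rfl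
  rw [this]
  have e : ∀ x y : G, c * (x * y) * c⁻¹ = (c * x * c⁻¹) * (c * y * c⁻¹) := by intro x y; group
  simp only [e, h.conj_pw, hz]

theorem a_eq_of {i j : Fin 5} (hij : a i = a j ∨ a i = z * a j ∨ z * a i = a j ∨ z * a i = z * a j) :
    i = j := by
  by_contra hne
  have h1 := qa_ne i j hne
  have inj := h.ev_injective
  rcases hij with e | e | e | e
  · exact h1.1 (inj (by rw [h.ev_qa, h.ev_qa, e]))
  · exact h1.2.1 (inj (by rw [h.ev_qa, ← h.ev_mul, h.ev_qz, h.ev_qa, e]))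
  · exact h1.2.2.1 (inj (by rw [← h.ev_mul, h.ev_qz, h.ev_qa, h.ev_qa, e]))
  · exact h1.2.2.2 (inj (by rw [← h.ev_mul, ← h.ev_mul, h.ev_qz, h.ev_qa, h.ev_qa, e]))

theorem acts_unique {c : G} {σ τ : Perm (Fin 5)} (h1 : Acts z a c σ) (h2 : Acts z a c τ) : σ = τ := by
  ext i
  congr 1
  apply h.a_eq_of (i := σ i) (j := τ i)
  rcases h1 i with e1 | e1 <;> rcases h2 i with e2 | e2
  · exact Or.inl (e1.symm.trans e2)
  · exact Or.inr (Or.inl (e1.symm.trans e2))
  · exact Or.inr (Or.inr (Or.inl (e1.symm.trans e2)))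
  · exact Or.inr (Or.inr (Or.inr (e1.symm.trans e2)))

theorem acts_mul {c d : G} {σ τ : Perm (Fin 5)} (hc : c * z = z * c) (h1 : Acts z a c σ)
    (h2 : Acts z a d τ) : Acts z a (c * d) (σ * τ) := by
  intro i
  have e : c * d * a i * (c * d)⁻¹ = c * (d * a i * d⁻¹) * c⁻¹ := by group
  have hz : c * (z * a (τ i)) * c⁻¹ = z * (c * a (τ i) * c⁻¹) := by
    calc c * (z * a (τ i)) * c⁻¹ = (c * z) * a (τ i) * c⁻¹ := by group
      _ = (z * c) * a (τ i) * c⁻¹ := by rw [hc]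
      _ = _ := by group
  rw [e, Perm.mul_apply]
  rcases h2 i with e2 | e2
  · rw [e2]; exact h1 _
  · rw [e2, hz]
    rcases h1 (τ i) with e3 | e3
    · right; rw [e3]
    · left; rw [e3, ← mul_assoc, h.z_sq, one_mul]

theorem acts_one_one : Acts z a 1 1 := fun i => Or.inl (by simp)

theorem acts_pow {c : G} {σ : Perm (Fin 5)} (hc : c * z = z * c) (h1 : Acts z a c σ) (n : ℕ) :
    Acts z a (c ^ n) (σ ^ n) := by
  induction n with
  | zero => simpa using h.acts_one_one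
  | succ n ih =>
    rw [pow_succ, pow_succ]
    have hcn : c ^ n * z = z * c ^ n := by
      have : Commute (c ^ n) z := (show Commute c z from hc).pow_left n
      exact this
    exact h.acts_mul hcn ih h1

theorem acts_inv {c : G} {σ : Perm (Fin 5)} (hc : c * z = z * c) (h1 : Acts z a c σ) :
    Acts z a c⁻¹ σ⁻¹ := by
  intro i
  have hz : c⁻¹ * z = z * c⁻¹ := by
    have : Commute c⁻¹ z := (show Commute c z from hc).inv_left
    exact this
  rcases h1 (σ⁻¹ i) with e | e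
  · left
    have : a i = c * a (σ⁻¹ i) * c⁻¹ := by rw [e]; simp
    rw [this]; group
  · right
    have e2 : a i = z * (c * a (σ⁻¹ i) * c⁻¹) := by rw [e, ← mul_assoc, h.z_sq, one_mul]; simp
    rw [e2]
    calc c⁻¹ * (z * (c * a (σ⁻¹ i) * c⁻¹)) * c⁻¹⁻¹ = (c⁻¹ * z) * (c * a (σ⁻¹ i) * c⁻¹) * c := by group
      _ = (z * c⁻¹) * (c * a (σ⁻¹ i) * c⁻¹) * c := by rw [hz]
      _ = _ := by group

/-- Elements of `Q` act trivially. -/
theorem acts_ev (w : QW) : Acts z a (ev z a w) 1 := by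
  intro i
  simp only [Perm.one_apply]
  rw [h.ev_inv]
  rcases q_acts w i with e | e
  · left
    rw [← h.ev_qa i, h.ev_mul, h.ev_mul, e]
  · right
    have := congrArg (ev z a) e
    rw [← h.ev_mul, ← h.ev_mul, ← h.ev_mul, h.ev_qa, h.ev_qz] at this
    exact this

end Cliff

/-- The local setup of a group of Hall-Janko type. -/
structure Setup (G : Type*) [Group G] where
  z : G
  a : Fin 5 → G
  cl : Cliff z a
  Q : Subgroup G
  Q_mem : ∀ x, x ∈ Q ↔ ∃ w, x = ev z a w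
  acts : ∀ c, c * z = z * c → ∃ σ ∈ alternatingGroup (Fin 5), Acts z a c σ
  sur : ∀ σ ∈ alternatingGroup (Fin 5), ∃ c, c * z = z * c ∧ Acts z a c σ
  ker : ∀ c, c * z = z * c → Acts z a c 1 → c ∈ Q
  card_C : Nat.card (centralizer ({z} : Set G)) = 1920
  conj_a : ∃ g : G, g * z * g⁻¹ ∈ Q ∧ g * z * g⁻¹ ≠ z

namespace Setup

variable (S : Setup G)

/-- Notation for the word evaluation. -/
abbrev e (w : QW) : G := ev S.z S.a w

theorem mem_Q (w : QW) : S.e w ∈ S.Q := (S.Q_mem _).2 ⟨w, rfl⟩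

theorem a_mem_Q (i : Fin 5) : S.a i ∈ S.Q := by
  rw [← S.cl.ev_qa i]; exact S.mem_Q _

theorem z_mem_Q : S.z ∈ S.Q := by
  rw [← S.cl.ev_qz]; exact S.mem_Q _

theorem comm_z_of_mem_Q {x : G} (hx : x ∈ S.Q) : x * S.z = S.z * x := by
  obtain ⟨w, rfl⟩ := (S.Q_mem x).1 hx
  exact S.cl.comm_ev_z w

theorem acts_Q {x : G} (hx : x ∈ S.Q) : Acts S.z S.a x 1 := by
  obtain ⟨w, rfl⟩ := (S.Q_mem x).1 hx
  exact S.cl.acts_ev w

theorem mem_Q_iff {c : G} (hc : c * S.z = S.z * c) : c ∈ S.Q ↔ Acts S.z S.a c 1 :=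
  ⟨S.acts_Q, S.ker c hc⟩

/-- Conjugation of `Q` by an element of `C(z)`. -/
theorem conj_mem_Q {c x : G} (hc : c * S.z = S.z * c) (hx : x ∈ S.Q) : c * x * c⁻¹ ∈ S.Q := by
  have hz : c * x * c⁻¹ * S.z = S.z * (c * x * c⁻¹) := by
    have hcz : c⁻¹ * S.z = S.z * c⁻¹ := by
      have : Commute c⁻¹ S.z := (show Commute c S.z from hc).inv_left
      exact this
    calc c * x * c⁻¹ * S.z = c * x * (c⁻¹ * S.z) := by group
      _ = c * (x * S.z) * c⁻¹ := by rw [hcz]; group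
      _ = (c * S.z) * x * c⁻¹ := by rw [S.comm_z_of_mem_Q hx]; group
      _ = _ := by rw [hc]; group
  rw [S.mem_Q_iff hz]
  have hxa := S.acts_Q hx
  obtain ⟨σ, -, hσ⟩ := S.acts c hc
  have hcinv : Commute c⁻¹ S.z := (show Commute c S.z from hc).inv_left
  have h1 := S.cl.acts_mul hc hσ hxa
  have h2 := S.cl.acts_mul (show c * x * S.z = S.z * (c * x) by
    rw [mul_assoc, S.comm_z_of_mem_Q hx, ← mul_assoc, hc, mul_assoc]) h1 (S.cl.acts_inv hc hσ)
  simpa using h2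

/-- Involutions of `Q`. -/
theorem inv_cases {x : G} (hx : x ∈ S.Q) (hx2 : x * x = 1) :
    x = 1 ∨ x = S.z ∨ ∃ i, x = S.a i ∨ x = S.z * S.a i := by
  obtain ⟨w, rfl⟩ := (S.Q_mem x).1 hx
  rw [S.cl.ev_mul, S.cl.ev_eq_one_iff] at hx2
  rcases q_inv_cases w hx2 with rfl | rfl | ⟨i, rfl | rfl⟩
  · exact Or.inl S.cl.ev_one
  · exact Or.inr (Or.inl S.cl.ev_qz)
  · exact Or.inr (Or.inr ⟨i, Or.inl (S.cl.ev_qa i)⟩)
  · refine Or.inr (Or.inr ⟨i, Or.inr ?_⟩)
    rw [← S.cl.ev_mul, S.cl.ev_qz, S.cl.ev_qa]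

/-- Transitivity of `C(z)` on the generators. -/
theorem exists_conj_a (i j : Fin 5) (s : Bool) :
    ∃ c, c * S.z = S.z * c ∧ c * S.a i * c⁻¹ = pw S.z s * S.a j := by
  obtain ⟨σ, hσ, hij⟩ := perm_trans i j
  obtain ⟨c, hc, hact⟩ := S.sur σ (by rw [Equiv.Perm.mem_alternatingGroup]; exact hσ)
  obtain ⟨k, hk⟩ := exists_ne_fin5 j
  have hak : S.a k * S.a j * (S.a k)⁻¹ = S.z * S.a j := by
    rw [S.cl.anti k j hk, S.cl.a_inv]
    simp only [mul_assoc, S.cl.a_sq', S.cl.a_sq, mul_one]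
  have hakc : S.a k * S.z = S.z * S.a k := S.cl.a_z k
  have hzj : S.z * (S.z * S.a j) = S.a j := S.cl.z_sq' _
  have hconj : (S.a k * c) * S.a i * (S.a k * c)⁻¹ = S.a k * (c * S.a i * c⁻¹) * (S.a k)⁻¹ := by group
  have hconjz : S.a k * (S.z * S.a j) * (S.a k)⁻¹ = S.a j := by
    calc S.a k * (S.z * S.a j) * (S.a k)⁻¹ = (S.a k * S.z) * S.a j * (S.a k)⁻¹ := by group
      _ = S.z * (S.a k * S.a j * (S.a k)⁻¹) := by rw [hakc]; group
      _ = S.a j := by rw [hak, hzj]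
  have hmul : (S.a k * c) * S.z = S.z * (S.a k * c) := by
    rw [mul_assoc, hc, ← mul_assoc, hakc, mul_assoc]
  rcases hact i with e | e <;> rw [hij] at e <;> cases s
  · exact ⟨c, hc, by simpa using e⟩
  · exact ⟨S.a k * c, hmul, by rw [hconj, e, hak]; rfl⟩
  · exact ⟨S.a k * c, hmul, by rw [hconj, e, hconjz]; simp⟩
  · exact ⟨c, hc, by simpa using e⟩

/-- Transitivity of `C(z)` on the signed generators. -/
theorem exists_conj_sa (i j : Fin 5) (s t : Bool) :
    ∃ c, c * S.z = S.z * c ∧ c * (pw S.z s * S.a i) * c⁻¹ = pw S.z t * S.a j := by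
  obtain ⟨c, hc, hci⟩ := S.exists_conj_a i j (xor s t)
  refine ⟨c, hc, ?_⟩
  have h1 : c * (pw S.z s * S.a i) * c⁻¹ = pw S.z s * (c * S.a i * c⁻¹) := by
    have h2 : c * pw S.z s = pw S.z s * c := by
      cases s
      · simp
      · simpa using hc
    calc c * (pw S.z s * S.a i) * c⁻¹ = (c * pw S.z s) * S.a i * c⁻¹ := by group
      _ = (pw S.z s * c) * S.a i * c⁻¹ := by rw [h2]
      _ = _ := by group
  rw [h1, hci, ← mul_assoc, S.cl.pw_z_self]
  cases s <;> cases t <;> simp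

/-- The conjugates of `z` in `Q`. -/
theorem isConj_a (i : Fin 5) (s : Bool) : ∃ g : G, g * S.z * g⁻¹ = pw S.z s * S.a i := by
  obtain ⟨g, hg, hne⟩ := S.conj_a
  have hsq : g * S.z * g⁻¹ * (g * S.z * g⁻¹) = 1 := by
    calc g * S.z * g⁻¹ * (g * S.z * g⁻¹) = g * (S.z * S.z) * g⁻¹ := by group
      _ = 1 := by rw [S.cl.z_sq]; group
  have main : ∀ (j : Fin 5) (s0 : Bool), g * S.z * g⁻¹ = pw S.z s0 * S.a j →
      ∃ g : G, g * S.z * g⁻¹ = pw S.z s * S.a i := by
    intro j s0 hj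
    obtain ⟨c, hc, hci⟩ := S.exists_conj_sa j i s0 s
    refine ⟨c * g, ?_⟩
    have : c * g * S.z * (c * g)⁻¹ = c * (g * S.z * g⁻¹) * c⁻¹ := by group
    rw [this, hj, hci]
  rcases S.inv_cases hg hsq with h1 | h1 | ⟨j, h1 | h1⟩
  · exfalso
    apply S.cl.z_ne
    have : S.z = g⁻¹ * (g * S.z * g⁻¹) * g := by group
    rw [this, h1]; group
  · exact absurd h1 hne
  · exact main j false (by simpa using h1)
  · exact main j true (by simpa using h1)

end Setup

end Cfsg.Agent.Lib.HallJanko
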