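import Mathlib
import Cfsg.Agent.Lib.HallJanko.Setup

/-!
# Hall-Janko type groups: involutions of `C(z)` outside `Q`
-/

set_option autoImplicit false
set_option linter.unusedSimpArgs false
set_option linter.unusedSectionVars false
set_option linter.unusedVariables false
set_option synthInstance.maxHeartbeats 400000
set_option synthInstance.maxSize 4000
set_option maxRecDepth 100000

namespace Cfsg.Agent.Lib.HallJanko

open Equiv Subgroup

variable {G : Type*} [Group G]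

/-- The action on words of an involution acting as `(01)(23)`. -/
def tw (e e' : Bool) : QW → QW :=
  Phi (qsg e (qa 1)) (qsg e (qa 0)) (qsg e' (qa 3)) (qsg e' (qa 2))

/-- The action on words of an element of order `3` acting as `(123)`. -/
def yw (s1 s2 s3 : Bool) : QW → QW :=
  Phi (qa 0) (qsg s1 (qa 2)) (qsg s2 (qa 3)) (qsg s3 (qa 1))

theorem tw_a4 : ∀ e e' : Bool, tw e e' (qa 4) = qa 4 := by decide

theorem tw_fix : ∀ (e e' : Bool) (w : QW), tw e e' w = w →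
    w.2 = (false, false, false, false) ∨ w.2 = (true, true, true, true) := by decide

theorem tw_inv : ∀ (e e' : Bool) (w : QW), qmul w (tw e e' w) = qone →
    ∃ q : QW, qmul q (tw e e' (qinv q)) = w := by decide

theorem qw_cases : ∀ w : QW, w.2 = (false, false, false, false) ∨ w.2 = (true, true, true, true) →
    w = qone ∨ w = qz ∨ w = qa 4 ∨ w = qmul qz (qa 4) := by decide

theorem yr_key : ∀ (s1 s2 s3 e e' : Bool) (w : QW), yw s1 s2 s3 w = tw e e' w →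
    qmul w (qa 4) = qmul (qa 4) w →
    w.2 = (false, false, false, false) ∨ w.2 = (true, true, true, true) := by decide

theorem perm_conj_σ₀ : ∀ σ : Perm (Fin 5), σ * σ = 1 → σ ≠ 1 → Perm.sign σ = 1 →
    ∃ ρ : Perm (Fin 5), Perm.sign ρ = 1 ∧ ρ * σ * ρ⁻¹ = σ₀ := by decide

theorem σ₀_sign : Perm.sign σ₀ = 1 := by decide
theorem ρ₀_sign : Perm.sign ρ₀ = 1 := by decide
theorem ρ₀_cube : ρ₀ * ρ₀ * ρ₀ = 1 := by decide
theorem ρ₀_pow : ρ₀ ^ 640 = ρ₀ := by decide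
theorem σ₀_sq : σ₀ * σ₀ = 1 := by decide
theorem V4_prod : σ₀ * (ρ₀ * σ₀ * ρ₀⁻¹) * (ρ₀ * (ρ₀ * σ₀ * ρ₀⁻¹) * ρ₀⁻¹) = 1 := by decide
theorem cent_σ₀ : ∀ σ : Perm (Fin 5), Perm.sign σ = 1 → σ * σ₀ * σ⁻¹ = σ₀ →
    σ = 1 ∨ σ = σ₀ ∨ σ = ρ₀ * σ₀ * ρ₀⁻¹ ∨ σ = σ₀ * (ρ₀ * σ₀ * ρ₀⁻¹) := by decide

namespace Setup

variable (S : Setup G)

/-- An involution of `C(z)` acting as `(01)(23)`. -/
structure IsT (τ : G) : Prop where
  comm : τ * S.z = S.z * τ
  sq : τ * τ = 1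
  act : Acts S.z S.a τ σ₀

/-- An involution of `C(z)` outside `Q`. -/
structure IsInv (τ : G) : Prop where
  comm : τ * S.z = S.z * τ
  sq : τ * τ = 1
  notQ : τ ∉ S.Q

variable {S}

theorem inv_eq_of_sq {τ : G} (h : τ * τ = 1) : τ⁻¹ = τ := inv_eq_of_mul_eq_one_left h

/-- The sign flag of a signed generator. -/
theorem exists_flag {c : G} {i j : Fin 5} (h : c * S.a i * c⁻¹ = S.a j ∨ c * S.a i * c⁻¹ = S.z * S.a j) :
    ∃ e : Bool, c * S.a i * c⁻¹ = pw S.z e * S.a j := by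
  rcases h with h | h
  · exact ⟨false, by simpa using h⟩
  · exact ⟨true, by simpa using h⟩

theorem ev_flag (e : Bool) (i : Fin 5) : ev S.z S.a (qsg e (qa i)) = pw S.z e * S.a i := by
  rw [S.cl.ev_sg, S.cl.ev_qa]

theorem table_step {τ : G} (hc : τ * S.z = S.z * τ) (hs : τ * τ = 1) {i j : Fin 5} {e : Bool}
    (h : τ * S.a i * τ⁻¹ = pw S.z e * S.a j) : τ * S.a j * τ⁻¹ = pw S.z e * S.a i := by
  have hτ : τ⁻¹ = τ := inv_eq_of_sq hs
  have hp : τ * pw S.z e = pw S.z e * τ := by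
    cases e
    · simp
    · simpa using hc
  have hp2 : pw S.z e * pw S.z e = 1 := by
    rw [S.cl.pw_z_self]; simp
  rw [hτ] at h ⊢
  have h2 : S.a i = τ * (pw S.z e * S.a j) * τ := by
    rw [← h]
    calc S.a i = (τ * τ) * S.a i * (τ * τ) := by rw [hs]; simp
      _ = _ := by group
  have h3 : τ * (pw S.z e * S.a j) * τ = pw S.z e * (τ * S.a j * τ) := by
    calc τ * (pw S.z e * S.a j) * τ = (τ * pw S.z e) * S.a j * τ := by group
      _ = (pw S.z e * τ) * S.a j * τ := by rw [hp]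
      _ = _ := by group
  rw [h3] at h2
  rw [h2, ← mul_assoc, hp2, one_mul]

namespace IsT

variable {τ : G} (h : S.IsT τ)
include h

theorem inv : τ⁻¹ = τ := inv_eq_of_sq h.sq

/-- The table of an involution acting as `(01)(23)`. -/
theorem table : ∃ e e' : Bool, ∀ w, τ * ev S.z S.a w * τ⁻¹ = ev S.z S.a (tw e e' w) := by
  have h0 : σ₀ 0 = 1 := by decide
  have h2 : σ₀ 2 = 3 := by decide
  obtain ⟨e, he⟩ := exists_flag (S := S) (i := 0) (j := 1) (c := τ) (by simpa [h0] using h.act 0)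
  obtain ⟨e', he'⟩ := exists_flag (S := S) (i := 2) (j := 3) (c := τ) (by simpa [h2] using h.act 2)
  refine ⟨e, e', fun w => ?_⟩
  have he1 := table_step h.comm h.sq he
  have he3 := table_step h.comm h.sq he'
  apply S.cl.conj_ev τ h.comm
  · rw [ev_flag, he]
  · rw [ev_flag, he1]
  · rw [ev_flag, he']
  · rw [ev_flag, he3]

theorem comm_a4 : τ * S.a 4 = S.a 4 * τ := by
  obtain ⟨e, e', ht⟩ := h.table
  have h1 := ht (qa 4)
  rw [tw_a4, S.cl.ev_qa] at h1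
  exact mul_inv_eq_iff_eq_mul.mp h1

/-- The centralizer of `τ` in `Q`. -/
theorem mem_of_comm {x : G} (hx : x ∈ S.Q) (hc : τ * x = x * τ) :
    x = 1 ∨ x = S.z ∨ x = S.a 4 ∨ x = S.z * S.a 4 := by
  obtain ⟨e, e', ht⟩ := h.table
  obtain ⟨w, rfl⟩ := (S.Q_mem x).1 hx
  have h1 : ev S.z S.a (tw e e' w) = ev S.z S.a w := by
    rw [← ht w, hc]; group
  have h2 := S.cl.ev_injective h1
  rcases qw_cases w (tw_fix e e' w h2) with rfl | rfl | rfl | rfl
  · exact Or.inl S.cl.ev_one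
  · exact Or.inr (Or.inl S.cl.ev_qz)
  · exact Or.inr (Or.inr (Or.inl (S.cl.ev_qa 4)))
  · refine Or.inr (Or.inr (Or.inr ?_))
    rw [← S.cl.ev_mul, S.cl.ev_qz, S.cl.ev_qa]

/-- All involutions in the coset `Qτ` are `Q`-conjugate to `τ`. -/
theorem exists_conj {x : G} (hx : x ∈ S.Q) (hs : x * τ * (x * τ) = 1) :
    ∃ q ∈ S.Q, q * τ * q⁻¹ = x * τ := by
  obtain ⟨e, e', ht⟩ := h.table
  obtain ⟨w, rfl⟩ := (S.Q_mem x).1 hx
  have h1 : ev S.z S.a w * (τ * ev S.z S.a w * τ⁻¹) = 1 := by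
    rw [h.inv]
    calc ev S.z S.a w * (τ * ev S.z S.a w * τ) = ev S.z S.a w * τ * (ev S.z S.a w * τ) := by group
      _ = 1 := hs
  rw [ht, S.cl.ev_mul, S.cl.ev_eq_one_iff] at h1
  obtain ⟨q, hq⟩ := tw_inv e e' w h1
  refine ⟨ev S.z S.a q, S.mem_Q q, ?_⟩
  rw [← hq, ← S.cl.ev_mul, ← ht, ← S.cl.ev_inv]
  have : τ⁻¹ * τ = 1 := by group
  calc ev S.z S.a q * τ * (ev S.z S.a q)⁻¹ = ev S.z S.a q * (τ * (ev S.z S.a q)⁻¹ * τ⁻¹) * τ := by group
    _ = _ := by rfl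

end IsT

theorem IsInv.of_IsT {τ : G} (h : S.IsT τ) : S.IsInv τ := by
  refine ⟨h.comm, h.sq, fun hq => ?_⟩
  have := S.cl.acts_unique h.act (S.acts_Q hq)
  revert this
  decide

/-- Every involution of `C(z)` outside `Q` has a conjugate acting as `(01)(23)`. -/
theorem IsInv.exists_conj {τ : G} (h : S.IsInv τ) :
    ∃ c, c * S.z = S.z * c ∧ S.IsT (c * τ * c⁻¹) := by
  obtain ⟨σ, hσ, ha⟩ := S.acts τ h.comm
  have hσ2 : σ * σ = 1 := by
    have := S.cl.acts_mul h.comm ha ha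
    rw [h.sq] at this
    exact S.cl.acts_unique this S.cl.acts_one_one
  have hσ1 : σ ≠ 1 := by
    rintro rfl
    exact h.notQ (S.ker τ h.comm ha)
  obtain ⟨ρ, hρ, hρσ⟩ := perm_conj_σ₀ σ hσ2 hσ1 (Equiv.Perm.mem_alternatingGroup.1 hσ)
  obtain ⟨c, hc, hca⟩ := S.sur ρ (Equiv.Perm.mem_alternatingGroup.2 hρ)
  refine ⟨c, hc, ?_, ?_, ?_⟩
  · have hc' : Commute c⁻¹ S.z := (show Commute c S.z from hc).inv_left
    have h' : c⁻¹ * S.z = S.z * c⁻¹ := hc'
    calc c * τ * c⁻¹ * S.z = c * τ * (c⁻¹ * S.z) := by group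
      _ = c * (τ * S.z) * c⁻¹ := by rw [h']; group
      _ = (c * S.z) * τ * c⁻¹ := by rw [h.comm]; group
      _ = _ := by rw [hc]; group
  · calc c * τ * c⁻¹ * (c * τ * c⁻¹) = c * (τ * τ) * c⁻¹ := by group
      _ = 1 := by rw [h.sq]; group
  · rw [← hρσ]
    have h1 := S.cl.acts_mul hc hca ha
    have h2 : c * τ * S.z = S.z * (c * τ) := by
      rw [mul_assoc, h.comm, ← mul_assoc, hc, mul_assoc]
    exact S.cl.acts_mul h2 h1 (S.cl.acts_inv hc hca)

/-- Two involutions acting as `(01)(23)` are `Q`-conjugate. -/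
theorem IsT.conj_of {τ τ' : G} (h : S.IsT τ) (h' : S.IsT τ') : ∃ q ∈ S.Q, q * τ * q⁻¹ = τ' := by
  have hx : τ' * τ ∈ S.Q := by
    apply S.ker _ (by rw [mul_assoc, h.comm, ← mul_assoc, h'.comm, mul_assoc])
    have := S.cl.acts_mul h'.comm h'.act h.act
    rwa [σ₀_sq] at this
  have hs : τ' * τ * τ * (τ' * τ * τ) = 1 := by
    simp only [mul_assoc, h.sq, mul_one, h'.sq]
  obtain ⟨q, hq, e⟩ := h.exists_conj hx hs
  refine ⟨q, hq, ?_⟩
  rw [e, mul_assoc, h.sq, mul_one]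

/-- Two involutions of `C(z)` outside `Q` are `C(z)`-conjugate. -/
theorem IsInv.conj_of {τ τ' : G} (h : S.IsInv τ) (h' : S.IsInv τ') :
    ∃ c, c * S.z = S.z * c ∧ c * τ * c⁻¹ = τ' := by
  obtain ⟨c, hc, ht⟩ := h.exists_conj
  obtain ⟨c', hc', ht'⟩ := h'.exists_conj
  obtain ⟨q, hq, e⟩ := ht.conj_of ht'
  refine ⟨c'⁻¹ * q * c, ?_, ?_⟩
  · have h1 : c'⁻¹ * S.z = S.z * c'⁻¹ := (show Commute c' S.z from hc').inv_left
    have h2 := S.comm_z_of_mem_Q hq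
    rw [mul_assoc, hc, ← mul_assoc, mul_assoc c'⁻¹, h2, ← mul_assoc, h1]
    simp only [mul_assoc]
  · have : c'⁻¹ * q * c * τ * (c'⁻¹ * q * c)⁻¹ = c'⁻¹ * (q * (c * τ * c⁻¹) * q⁻¹) * c' := by group
    rw [this, e]; group

/-- Cube of an element acting as `(123)`. -/
theorem exists_y : ∃ y, y * S.z = S.z * y ∧ y * y * y = 1 ∧ Acts S.z S.a y ρ₀ := by
  obtain ⟨c, hc, ha⟩ := S.sur ρ₀ (Equiv.Perm.mem_alternatingGroup.2 ρ₀_sign)
  have hc' : c ∈ centralizer ({S.z} : Set G) := mem_centralizer_singleton_iff.2 hc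
  have h1 : c ^ 1920 = 1 := by
    have := pow_card_eq_one' (x := (⟨c, hc'⟩ : centralizer ({S.z} : Set G)))
    rw [S.card_C] at this
    exact congrArg Subtype.val this
  refine ⟨c ^ 640, ?_, ?_, ?_⟩
  · exact ((show Commute c S.z from hc).pow_left 640)
  · rw [← pow_add, ← pow_add]; exact h1
  · have := S.cl.acts_pow hc ha 640
    rwa [ρ₀_pow] at this

/-- An element of order `3` fixing a signed generator fixes the generator. -/
theorem fix_of_cube {y : G} (hc : y * S.z = S.z * y) (hy : y * y * y = 1) {i : Fin 5}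
    (h : y * S.a i * y⁻¹ = S.a i ∨ y * S.a i * y⁻¹ = S.z * S.a i) : y * S.a i = S.a i * y := by
  rcases h with h | h
  · exact mul_inv_eq_iff_eq_mul.mp h
  · exfalso
    have hz : ∀ w, y * (S.z * w) * y⁻¹ = S.z * (y * w * y⁻¹) := by
      intro w
      calc y * (S.z * w) * y⁻¹ = (y * S.z) * w * y⁻¹ := by group
        _ = (S.z * y) * w * y⁻¹ := by rw [hc]
        _ = _ := by group
    have h2 : y * (y * S.a i * y⁻¹) * y⁻¹ = S.a i := by
      rw [h, hz, h, S.cl.z_sq']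
    have h3 : y * (y * (y * S.a i * y⁻¹) * y⁻¹) * y⁻¹ = S.z * S.a i := by
      rw [h2, h]
    have h4 : y * (y * (y * S.a i * y⁻¹) * y⁻¹) * y⁻¹ = (y * y * y) * S.a i * (y * y * y)⁻¹ := by
      group
    rw [h4, hy] at h3
    simp only [one_mul, inv_one, mul_one] at h3
    exact S.cl.z_ne (mul_eq_right.mp h3.symm)

/-- The subgroup `{1, p, q, pq}` for commuting involutions. -/
def four (p q : G) (hp : p * p = 1) (hq : q * q = 1) (hpq : p * q = q * p) : Subgroup G where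
  carrier := {x | x = 1 ∨ x = p ∨ x = q ∨ x = p * q}
  one_mem' := Or.inl rfl
  mul_mem' := by
    have e1 : p * (p * q) = q := by rw [← mul_assoc, hp, one_mul]
    have e2 : p * q * p = q := by rw [hpq, mul_assoc, hp, mul_one]
    have e3 : q * (p * q) = p := by rw [hpq, ← mul_assoc, hq, one_mul]
    have e4 : p * q * q = p := by rw [mul_assoc, hq, mul_one]
    have e5 : p * q * (p * q) = 1 := by rw [mul_assoc, e3, hp]
    intro a b ha hb
    rcases ha with ha | ha | ha | ha <;> rcases hb with hb | hb | hb | hb <;> rw [ha, hb] <;>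
      show _ = 1 ∨ _ = p ∨ _ = q ∨ _ = p * q <;>
      simp only [one_mul, mul_one, hp, hq, e1, e2, e3, e4, e5, ← hpq, true_or, or_true,
        eq_self_iff_true]
  inv_mem' := by
    have e3 : q * (p * q) = p := by rw [hpq, ← mul_assoc, hq, one_mul]
    have e5 : (p * q)⁻¹ = p * q := by
      apply inv_eq_of_mul_eq_one_left
      rw [mul_assoc, e3, hp]
    intro a ha
    rcases ha with ha | ha | ha | ha <;> rw [ha]
    · rw [inv_one]; exact Or.inl rfl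
    · rw [inv_eq_of_mul_eq_one_left hp]; exact Or.inr (Or.inl rfl)
    · rw [inv_eq_of_mul_eq_one_left hq]; exact Or.inr (Or.inr (Or.inl rfl))
    · rw [e5]; exact Or.inr (Or.inr (Or.inr rfl))

theorem mem_four {p q : G} {hp : p * p = 1} {hq : q * q = 1} {hpq : p * q = q * p} {x : G} :
    x ∈ four p q hp hq hpq ↔ x = 1 ∨ x = p ∨ x = q ∨ x = p * q := Iff.rfl

theorem card_four {p q : G} (hp : p * p = 1) (hq : q * q = 1) (hpq : p * q = q * p) (hp1 : p ≠ 1)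
    (hq1 : q ≠ 1) (hne : p ≠ q) : Nat.card (four p q hp hq hpq) = 4 := by
  classical
  have hpq1 : p * q ≠ 1 := by
    intro h
    apply hne
    have : p = q⁻¹ := eq_inv_of_mul_eq_one_left h
    rw [this, inv_eq_of_mul_eq_one_left hq]
  have hpq2 : p * q ≠ p := by simpa using hq1
  have hpq3 : p * q ≠ q := by simpa using hp1
  have h : ((four p q hp hq hpq : Subgroup G) : Set G) = (({1, p, q, p * q} : Finset G) : Set G) := by
    ext x
    simp [mem_four]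
  rw [show Nat.card (four p q hp hq hpq) = Set.ncard ((four p q hp hq hpq : Subgroup G) : Set G) from
    Nat.card_coe_set_eq _, h, Set.ncard_coe_finset]
  rw [Finset.card_insert_of_notMem, Finset.card_insert_of_notMem, Finset.card_insert_of_notMem,
    Finset.card_singleton]
  · simp [hpq3.symm]
  · simp [hne, hpq2.symm]
  · simp [hp1.symm, hq1.symm, hpq1.symm]

/-- `z` and `a 4`. -/
theorem z_a4 : S.z * S.a 4 = S.a 4 * S.z := (S.cl.a_z 4).symm

variable (S)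

/-- The four-group `U = ⟨z, a₄⟩`. -/
def U : Subgroup G := four S.z (S.a 4) S.cl.z_sq (S.cl.a_sq 4) z_a4

theorem mem_U {x : G} : x ∈ S.U ↔ x = 1 ∨ x = S.z ∨ x = S.a 4 ∨ x = S.z * S.a 4 := Iff.rfl

variable {S}

theorem U_le_Q : S.U ≤ S.Q := by
  rintro x (rfl | rfl | rfl | rfl)
  · exact one_mem _
  · exact S.z_mem_Q
  · exact S.a_mem_Q 4
  · exact mul_mem S.z_mem_Q (S.a_mem_Q 4)

theorem a4_ne_one : S.a 4 ≠ 1 := by
  intro h
  have := (S.cl.ev_eq_one_iff (qa 4)).1 (by rw [S.cl.ev_qa, h])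
  revert this; decide

theorem a4_ne_z : S.z ≠ S.a 4 := by
  intro h
  have := S.cl.ev_injective (show ev S.z S.a qz = ev S.z S.a (qa 4) by rw [S.cl.ev_qz, S.cl.ev_qa, h])
  revert this; decide

theorem card_U : Nat.card S.U = 4 :=
  card_four _ _ _ S.cl.z_ne a4_ne_one a4_ne_z

theorem comm_U_of {g x : G} (hz : g * S.z = S.z * g) (ha : g * S.a 4 = S.a 4 * g) (hx : x ∈ S.U) :
    g * x = x * g := by
  rcases hx with rfl | rfl | rfl | rfl
  · simp
  · exact hz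
  · exact ha
  · rw [← mul_assoc, hz, mul_assoc, ha, mul_assoc]

theorem U_sq {x : G} (hx : x ∈ S.U) : x * x = 1 := by
  rcases hx with rfl | rfl | rfl | rfl
  · simp
  · exact S.cl.z_sq
  · exact S.cl.a_sq 4
  · rw [mul_assoc, S.cl.a_z', S.cl.a_sq, mul_one, S.cl.z_sq]

/-- The frame: an involution `t` acting as `(01)(23)` and an element `y` of order `3` acting as
`(123)`. -/
structure Frame (S : Setup G) where
  t : G
  y : G
  ht : S.IsT t
  ycomm : y * S.z = S.z * y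
  ycube : y * y * y = 1
  yact : Acts S.z S.a y ρ₀

namespace Frame

variable (F : Frame S)

/-- The first conjugate of `t`. -/
def t₁ : G := F.y * F.t * F.y⁻¹

/-- The second conjugate of `t`. -/
def t₃ : G := F.y * F.t₁ * F.y⁻¹

theorem y_inv : F.y⁻¹ = F.y * F.y := by
  apply inv_eq_of_mul_eq_one_right
  rw [← mul_assoc]; exact F.ycube

theorem y_t₃ : F.y * F.t₃ * F.y⁻¹ = F.t := by
  have : F.y * F.t₃ * F.y⁻¹ = (F.y * F.y * F.y) * F.t * (F.y * F.y * F.y)⁻¹ := by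
    simp only [t₃, t₁]; group
  rw [this, F.ycube]; simp

theorem y_a4 : F.y * S.a 4 = S.a 4 * F.y := by
  have h4 : ρ₀ 4 = 4 := by decide
  apply fix_of_cube F.ycomm F.ycube
  simpa [h4] using F.yact 4

theorem y_a0 : F.y * S.a 0 = S.a 0 * F.y := by
  have h4 : ρ₀ 0 = 0 := by decide
  apply fix_of_cube F.ycomm F.ycube
  simpa [h4] using F.yact 0

/-- The table of `y`. -/
theorem table_y : ∃ s1 s2 s3 : Bool, ∀ w, F.y * ev S.z S.a w * F.y⁻¹ = ev S.z S.a (yw s1 s2 s3 w) := by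
  have h1 : ρ₀ 1 = 2 := by decide
  have h2 : ρ₀ 2 = 3 := by decide
  have h3 : ρ₀ 3 = 1 := by decide
  obtain ⟨e1, he1⟩ := exists_flag (S := S) (i := 1) (j := 2) (c := F.y) (by simpa [h1] using F.yact 1)
  obtain ⟨e2, he2⟩ := exists_flag (S := S) (i := 2) (j := 3) (c := F.y) (by simpa [h2] using F.yact 2)
  obtain ⟨e3, he3⟩ := exists_flag (S := S) (i := 3) (j := 1) (c := F.y) (by simpa [h3] using F.yact 3)
  refine ⟨e1, e2, e3, fun w => ?_⟩
  apply S.cl.conj_ev F.y F.ycomm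
  · rw [S.cl.ev_qa, mul_inv_eq_iff_eq_mul]; exact F.y_a0
  · rw [ev_flag, he1]
  · rw [ev_flag, he2]
  · rw [ev_flag, he3]

theorem conj_sq {g x : G} (hx : x * x = 1) : g * x * g⁻¹ * (g * x * g⁻¹) = 1 := by
  calc g * x * g⁻¹ * (g * x * g⁻¹) = g * (x * x) * g⁻¹ := by group
    _ = 1 := by rw [hx]; group

theorem conj_comm {g x w : G} (hg : g * w = w * g) (hx : x * w = w * x) :
    g * x * g⁻¹ * w = w * (g * x * g⁻¹) := by
  have hg' : g⁻¹ * w = w * g⁻¹ := (show Commute g w from hg).inv_left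
  calc g * x * g⁻¹ * w = g * x * (g⁻¹ * w) := by group
    _ = g * (x * w) * g⁻¹ := by rw [hg']; group
    _ = (g * w) * x * g⁻¹ := by rw [hx]; group
    _ = _ := by rw [hg]; group

theorem t_sq : F.t * F.t = 1 := F.ht.sq
theorem t₁_sq : F.t₁ * F.t₁ = 1 := conj_sq F.ht.sq
theorem t₃_sq : F.t₃ * F.t₃ = 1 := conj_sq F.t₁_sq

theorem t_z : F.t * S.z = S.z * F.t := F.ht.comm
theorem t₁_z : F.t₁ * S.z = S.z * F.t₁ := conj_comm F.ycomm F.t_z
theorem t₃_z : F.t₃ * S.z = S.z * F.t₃ := conj_comm F.ycomm F.t₁_z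

theorem t_a4 : F.t * S.a 4 = S.a 4 * F.t := F.ht.comm_a4
theorem t₁_a4 : F.t₁ * S.a 4 = S.a 4 * F.t₁ := conj_comm F.y_a4 F.t_a4
theorem t₃_a4 : F.t₃ * S.a 4 = S.a 4 * F.t₃ := conj_comm F.y_a4 F.t₁_a4

/-- The action of `t₁`. -/
theorem t₁_act : Acts S.z S.a F.t₁ (ρ₀ * σ₀ * ρ₀⁻¹) := by
  have h1 := S.cl.acts_mul F.ycomm F.yact F.ht.act
  have h2 : F.y * F.t * S.z = S.z * (F.y * F.t) := by
    rw [mul_assoc, F.t_z, ← mul_assoc, F.ycomm, mul_assoc]
  exact S.cl.acts_mul h2 h1 (S.cl.acts_inv F.ycomm F.yact)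

theorem t₃_act : Acts S.z S.a F.t₃ (ρ₀ * (ρ₀ * σ₀ * ρ₀⁻¹) * ρ₀⁻¹) := by
  have h1 := S.cl.acts_mul F.ycomm F.yact F.t₁_act
  have h2 : F.y * F.t₁ * S.z = S.z * (F.y * F.t₁) := by
    rw [mul_assoc, F.t₁_z, ← mul_assoc, F.ycomm, mul_assoc]
  exact S.cl.acts_mul h2 h1 (S.cl.acts_inv F.ycomm F.yact)

/-- The product of the three conjugates of `t` lies in `U`. -/
theorem prod_mem_U : F.t * F.t₁ * F.t₃ ∈ S.U := by
  have hQ : F.t * F.t₁ * F.t₃ ∈ S.Q := by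
    have h12z : F.t * F.t₁ * S.z = S.z * (F.t * F.t₁) := by
      rw [mul_assoc, F.t₁_z, ← mul_assoc, F.t_z, mul_assoc]
    apply S.ker _ (by rw [mul_assoc, F.t₃_z, ← mul_assoc, h12z, mul_assoc])
    have := S.cl.acts_mul h12z (S.cl.acts_mul F.t_z F.ht.act F.t₁_act) F.t₃_act
    rwa [V4_prod] at this
  obtain ⟨w, hw⟩ := (S.Q_mem _).1 hQ
  obtain ⟨e, e', ht⟩ := F.ht.table
  obtain ⟨s1, s2, s3, hy⟩ := F.table_y
  have h1 : F.y * ev S.z S.a w * F.y⁻¹ = F.t * ev S.z S.a w * F.t⁻¹ := by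
    rw [← hw, F.ht.inv]
    have h3 := F.y_t₃
    have h11 : F.y * F.t * F.y⁻¹ = F.t₁ := rfl
    have h13 : F.y * F.t₁ * F.y⁻¹ = F.t₃ := rfl
    have e1 : F.y * (F.t * F.t₁ * F.t₃) * F.y⁻¹ =
        (F.y * F.t * F.y⁻¹) * (F.y * F.t₁ * F.y⁻¹) * (F.y * F.t₃ * F.y⁻¹) := by group
    rw [e1, h11, h13, h3]
    calc F.t₁ * F.t₃ * F.t = (F.t * F.t) * F.t₁ * F.t₃ * F.t := by rw [F.t_sq]; simp
      _ = _ := by group
  rw [hy, ht] at h1
  have h2 := S.cl.ev_injective h1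
  have hca : F.t * F.t₁ * F.t₃ * S.a 4 = S.a 4 * (F.t * F.t₁ * F.t₃) := by
    rw [mul_assoc, F.t₃_a4, ← mul_assoc, mul_assoc F.t, F.t₁_a4, ← mul_assoc, F.t_a4]
    simp only [mul_assoc]
  rw [hw] at hca ⊢
  have h3 : qmul w (qa 4) = qmul (qa 4) w := by
    apply S.cl.ev_injective
    rw [← S.cl.ev_mul, ← S.cl.ev_mul, S.cl.ev_qa]
    exact hca
  rcases qw_cases w (yr_key s1 s2 s3 e e' w h2 h3) with rfl | rfl | rfl | rfl
  · exact Or.inl S.cl.ev_one
  · exact Or.inr (Or.inl S.cl.ev_qz)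
  · exact Or.inr (Or.inr (Or.inl (S.cl.ev_qa 4)))
  · refine Or.inr (Or.inr (Or.inr ?_))
    rw [← S.cl.ev_mul, S.cl.ev_qz, S.cl.ev_qa]

/-- `t` and `t₁` commute. -/
theorem t_t₁ : F.t * F.t₁ = F.t₁ * F.t := by
  have hr := F.prod_mem_U
  set r := F.t * F.t₁ * F.t₃ with hrdef
  have h1 : F.t * F.t₁ = r * F.t₃ := by
    rw [hrdef, mul_assoc (F.t * F.t₁), F.t₃_sq, mul_one]
  have h2 : F.t₃ * r = r * F.t₃ := comm_U_of F.t₃_z F.t₃_a4 hr
  have h3 : F.t * F.t₁ * (F.t * F.t₁) = 1 := by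
    rw [h1, mul_assoc, ← mul_assoc F.t₃, h2, mul_assoc r, F.t₃_sq, mul_one, U_sq hr]
  have h4 : F.t₁ * F.t = (F.t * F.t₁)⁻¹ := by
    rw [mul_inv_rev, inv_eq_of_sq F.t_sq, inv_eq_of_sq F.t₁_sq]
  rw [h4]
  exact (inv_eq_of_mul_eq_one_left h3).symm

end Frame

end Setup

end Cfsg.Agent.Lib.HallJanko
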