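import Mathlib
import Cfsg.Agent.Lib.HallJanko.Local

/-!
# Hall-Janko type groups: the subgroup `E` and the element `ℓ`
-/

set_option autoImplicit false
set_option linter.unusedSimpArgs false
set_option linter.unusedSectionVars false
set_option linter.unusedVariables false
set_option synthInstance.maxHeartbeats 400000
set_option synthInstance.maxSize 4000
set_option maxRecDepth 100000

namespace Cfsg.Agent.Lib.HallJanko

open Equiv Subgroup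

variable {G : Type*} [Group G]

/-- The second double transposition. -/
def σ₁ : Perm (Fin 5) := ρ₀ * σ₀ * ρ₀⁻¹

/-- The third double transposition. -/
def σ₂ : Perm (Fin 5) := ρ₀ * σ₁ * ρ₀⁻¹

theorem σ₁_sq : σ₁ * σ₁ = 1 := by decide
theorem σ₂_sq : σ₂ * σ₂ = 1 := by decide
theorem σ₀σ₁_sq : (σ₀ * σ₁) * (σ₀ * σ₁) = 1 := by decide
theorem σ₀_ne : σ₀ ≠ 1 := by decide
theorem σ₁_ne : σ₁ ≠ 1 := by decide
theorem σ₀σ₁_ne : σ₀ * σ₁ ≠ 1 := by decide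
theorem σ₀σ₁_eq : σ₀ * σ₁ = σ₂ := by decide
theorem ρ_σ₁ : ρ₀⁻¹ * σ₁ * ρ₀ = σ₀ := by decide
theorem ρ_σ₂ : ρ₀⁻¹ * (ρ₀⁻¹ * σ₂ * ρ₀) * ρ₀ = σ₀ := by decide

theorem V4_cases : ∀ σ : Perm (Fin 5), Perm.sign σ = 1 → σ * σ = 1 → σ ≠ 1 → σ 4 = 4 →
    σ = σ₀ ∨ σ = σ₁ ∨ σ = σ₂ := by decide

theorem qw_U_forms : ∀ (e e' : Bool) (w : QW), qmul w (tw e e' w) = qone →
    (w.2 = (false, false, false, false) ∨ w.2 = (true, true, true, true)) ∨
    ((qmul w (qinv (qmul (qa 0) (tw e e' (qa 0))))).2 = (false, false, false, false) ∨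
     (qmul w (qinv (qmul (qa 0) (tw e e' (qa 0))))).2 = (true, true, true, true)) := by decide

theorem qw_not_U : ∀ (e e' : Bool), ¬ ((qmul (qa 0) (tw e e' (qa 0))).2 = (false, false, false, false) ∨
    (qmul (qa 0) (tw e e' (qa 0))).2 = (true, true, true, true)) := by decide

theorem qw_conj_U : ∀ (e e' : Bool) (u : QW),
    (u.2 = (false, false, false, false) ∨ u.2 = (true, true, true, true)) →
    ∃ q : QW, qmul q (qa 4) = qmul (qa 4) q ∧ qmul q (tw e e' (qinv q)) = u := by decide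

namespace Setup

variable {S : Setup G}

/-- The subgroup `U` in terms of words. -/
theorem ev_mem_U {w : QW} (hw : w.2 = (false, false, false, false) ∨ w.2 = (true, true, true, true)) :
    ev S.z S.a w ∈ S.U := by
  rcases qw_cases w hw with rfl | rfl | rfl | rfl
  · exact Or.inl S.cl.ev_one
  · exact Or.inr (Or.inl S.cl.ev_qz)
  · exact Or.inr (Or.inr (Or.inl (S.cl.ev_qa 4)))
  · refine Or.inr (Or.inr (Or.inr ?_))
    rw [← S.cl.ev_mul, S.cl.ev_qz, S.cl.ev_qa]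

theorem exists_word_of_U {u : G} (hu : u ∈ S.U) :
    ∃ w : QW, (w.2 = (false, false, false, false) ∨ w.2 = (true, true, true, true)) ∧
      u = ev S.z S.a w := by
  rcases hu with rfl | rfl | rfl | rfl
  · exact ⟨qone, Or.inl rfl, S.cl.ev_one.symm⟩
  · exact ⟨qz, Or.inl rfl, S.cl.ev_qz.symm⟩
  · exact ⟨qa 4, Or.inr rfl, (S.cl.ev_qa 4).symm⟩
  · exact ⟨qmul qz (qa 4), Or.inr rfl, by rw [← S.cl.ev_mul, S.cl.ev_qz, S.cl.ev_qa]⟩

theorem word_of_ev_mem_U {w : QW} (hu : ev S.z S.a w ∈ S.U) :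
    w.2 = (false, false, false, false) ∨ w.2 = (true, true, true, true) := by
  obtain ⟨w', hw', e⟩ := exists_word_of_U hu
  rwa [S.cl.ev_injective e]

/-- `a₀` normalizes `U`. -/
theorem a0_conj_U {u : G} (hu : u ∈ S.U) : S.a 0 * u * (S.a 0)⁻¹ ∈ S.U := by
  have h1 : S.a 0 * S.a 4 * (S.a 0)⁻¹ = S.z * S.a 4 := by
    rw [S.cl.a_inv, S.cl.anti 0 4 (by decide)]
    simp only [mul_assoc, S.cl.a_sq, mul_one]
  have h2 : S.a 0 * S.z * (S.a 0)⁻¹ = S.z := by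
    rw [S.cl.a_inv, S.cl.a_z, mul_assoc, S.cl.a_sq, mul_one]
  rcases hu with rfl | rfl | rfl | rfl
  · simp [one_mem]
  · rw [h2]; exact Or.inr (Or.inl rfl)
  · rw [h1]; exact Or.inr (Or.inr (Or.inr rfl))
  · have : S.a 0 * (S.z * S.a 4) * (S.a 0)⁻¹ = (S.a 0 * S.z * (S.a 0)⁻¹) * (S.a 0 * S.a 4 * (S.a 0)⁻¹) := by
      group
    rw [this, h1, h2, S.cl.z_sq']
    exact Or.inr (Or.inr (Or.inl rfl))

namespace Frame

variable (F : Frame S)

/-- `E = C(z) ∩ C(t)`. -/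
def E : Subgroup G := centralizer ({S.z} : Set G) ⊓ centralizer ({F.t} : Set G)

theorem mem_E {x : G} : x ∈ F.E ↔ x * S.z = S.z * x ∧ x * F.t = F.t * x := by
  simp [E, mem_inf, mem_centralizer_singleton_iff]

theorem t_mem_E : F.t ∈ F.E := F.mem_E.2 ⟨F.t_z, rfl⟩
theorem t₁_mem_E : F.t₁ ∈ F.E := F.mem_E.2 ⟨F.t₁_z, F.t_t₁.symm⟩

theorem U_le_E : S.U ≤ F.E := by
  intro u hu
  refine F.mem_E.2 ⟨?_, ?_⟩
  · exact (comm_U_of (g := S.z) rfl z_a4 hu).symm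
  · exact (comm_U_of F.t_z F.t_a4 hu).symm

theorem tt₁_sq : F.t * F.t₁ * (F.t * F.t₁) = 1 := by
  rw [mul_assoc, ← mul_assoc F.t₁, ← F.t_t₁, mul_assoc F.t, F.t₁_sq, mul_one, F.t_sq]

theorem tt₁_z : F.t * F.t₁ * S.z = S.z * (F.t * F.t₁) := by
  rw [mul_assoc, F.t₁_z, ← mul_assoc, F.t_z, mul_assoc]

theorem tt₁_a4 : F.t * F.t₁ * S.a 4 = S.a 4 * (F.t * F.t₁) := by
  rw [mul_assoc, F.t₁_a4, ← mul_assoc, F.t_a4, mul_assoc]

theorem t₃_eq : ∃ r ∈ S.U, F.t₃ = r * (F.t * F.t₁) := by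
  refine ⟨F.t * F.t₁ * F.t₃, F.prod_mem_U, ?_⟩
  have h2 : (F.t * F.t₁) * (F.t * F.t₁ * F.t₃) = (F.t * F.t₁ * F.t₃) * (F.t * F.t₁) :=
    comm_U_of F.tt₁_z F.tt₁_a4 F.prod_mem_U
  rw [← h2, ← mul_assoc, F.tt₁_sq, one_mul]

theorem t₃_mem_E : F.t₃ ∈ F.E := by
  obtain ⟨r, hr, e⟩ := F.t₃_eq
  rw [e]
  exact mul_mem (F.U_le_E hr) (mul_mem F.t_mem_E F.t₁_mem_E)

/-- The form of the elements of `E`. -/
theorem E_form {x : G} (hx : x ∈ F.E) :
    ∃ u ∈ S.U, x = u ∨ x = u * F.t ∨ x = u * F.t₁ ∨ x = u * (F.t * F.t₁) := by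
  obtain ⟨hz, ht⟩ := F.mem_E.1 hx
  obtain ⟨σ, hσ, ha⟩ := S.acts x hz
  have hc : σ * σ₀ * σ⁻¹ = σ₀ := by
    have h1 := S.cl.acts_mul hz ha F.ht.act
    have h2 : x * F.t * S.z = S.z * (x * F.t) := by
      rw [mul_assoc, F.t_z, ← mul_assoc, hz, mul_assoc]
    have h3 := S.cl.acts_mul h2 h1 (S.cl.acts_inv hz ha)
    have h4 : x * F.t * x⁻¹ = F.t := by rw [ht]; group
    rw [h4] at h3
    exact S.cl.acts_unique h3 F.ht.act
  have main : ∀ v τ, S.cl.1 = S.cl.1 → v * v = 1 → v * S.z = S.z * v → v * F.t = F.t * v →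
      Acts S.z S.a v τ → σ * τ = 1 → x * v ∈ S.U := by
    intro v τ _ hv hvz hvt hvτ hστ
    have hq : x * v ∈ S.Q := by
      apply S.ker _ (by rw [mul_assoc, hvz, ← mul_assoc, hz, mul_assoc])
      have := S.cl.acts_mul hz ha hvτ
      rwa [hστ] at this
    have hct : F.t * (x * v) = (x * v) * F.t := by
      rw [← mul_assoc, ← ht, mul_assoc, ← hvt, mul_assoc]
    rcases F.ht.mem_of_comm hq hct with h | h | h | h
    · exact h ▸ one_mem _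
    · exact Or.inr (Or.inl h)
    · exact Or.inr (Or.inr (Or.inl h))
    · exact Or.inr (Or.inr (Or.inr h))
  have back : ∀ v : G, v * v = 1 → x = (x * v) * v := by
    intro v hv; rw [mul_assoc, hv, mul_one]
  rcases cent_σ₀ σ (Equiv.Perm.mem_alternatingGroup.1 hσ) hc with h | h | h | h
  · refine ⟨x, ?_, Or.inl rfl⟩
    have := main 1 1 rfl (by simp) (by simp) (by simp) S.cl.acts_one_one (by simp [h])
    simpa using this
  · refine ⟨x * F.t, main _ σ₀ rfl F.t_sq F.t_z rfl F.ht.act (by rw [h]; exact σ₀_sq), Or.inr (Or.inl (back _ F.t_sq))⟩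
  · refine ⟨x * F.t₁, main _ σ₁ rfl F.t₁_sq F.t₁_z F.t_t₁.symm F.t₁_act (by rw [h]; exact σ₁_sq),
      Or.inr (Or.inr (Or.inl (back _ F.t₁_sq)))⟩
  · refine ⟨x * (F.t * F.t₁), main _ (σ₀ * σ₁) rfl F.tt₁_sq F.tt₁_z ?_
      (S.cl.acts_mul F.t_z F.ht.act F.t₁_act) (by rw [h]; exact σ₀σ₁_sq),
      Or.inr (Or.inr (Or.inr (back _ F.tt₁_sq)))⟩
    rw [mul_assoc, ← F.t_t₁, ← mul_assoc]

theorem t_not_Q : F.t ∉ S.Q := (IsInv.of_IsT F.ht).notQ

theorem t₁_not_Q : F.t₁ ∉ S.Q := fun hq =>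
  σ₁_ne (S.cl.acts_unique F.t₁_act (S.acts_Q hq))

theorem tt₁_not_Q : F.t * F.t₁ ∉ S.Q := fun hq =>
  σ₀σ₁_ne (S.cl.acts_unique (S.cl.acts_mul F.t_z F.ht.act F.t₁_act) (S.acts_Q hq))

/-- `E ∩ Q = U`. -/
theorem mem_U_of_E_Q {x : G} (hx : x ∈ F.E) (hq : x ∈ S.Q) : x ∈ S.U := by
  obtain ⟨hz, ht⟩ := F.mem_E.1 hx
  rcases F.ht.mem_of_comm hq ht.symm with h | h | h | h
  · exact h ▸ one_mem _
  · exact Or.inr (Or.inl h)
  · exact Or.inr (Or.inr (Or.inl h))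
  · exact Or.inr (Or.inr (Or.inr h))

theorem E_comm {x y : G} (hx : x ∈ F.E) (hy : y ∈ F.E) : x * y = y * x := by
  have hxU : ∀ {u v : G}, u ∈ S.U → v ∈ F.E → u * v = v * u := by
    intro u v hu hv
    have hv1 := F.mem_E.1 hv
    obtain ⟨u', hu', h⟩ := F.E_form hv
    have h4 : v * S.a 4 = S.a 4 * v := by
      rcases h with rfl | rfl | rfl | rfl
      · exact (comm_U_of (g := S.a 4) z_a4.symm rfl hu').symm
      · rw [mul_assoc, F.t_a4, ← mul_assoc, (comm_U_of (g := S.a 4) z_a4.symm rfl hu').symm, mul_assoc]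
      · rw [mul_assoc, F.t₁_a4, ← mul_assoc, (comm_U_of (g := S.a 4) z_a4.symm rfl hu').symm, mul_assoc]
      · rw [mul_assoc, F.tt₁_a4, ← mul_assoc, (comm_U_of (g := S.a 4) z_a4.symm rfl hu').symm, mul_assoc]
    exact (comm_U_of hv1.1 h4 hu).symm
  obtain ⟨u, hu, h⟩ := F.E_form hx
  have hV : ∀ {w : G}, (w = 1 ∨ w = F.t ∨ w = F.t₁ ∨ w = F.t * F.t₁) → ∀ {w' : G},
      (w' = 1 ∨ w' = F.t ∨ w' = F.t₁ ∨ w' = F.t * F.t₁) → w * w' = w' * w := by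
    have h1 : F.t * (F.t * F.t₁) = (F.t * F.t₁) * F.t := by
      rw [mul_assoc, F.t_t₁.symm, ← mul_assoc]
    have h2 : F.t₁ * (F.t * F.t₁) = (F.t * F.t₁) * F.t₁ := by
      rw [← mul_assoc, F.t_t₁.symm]
    rintro w (rfl | rfl | rfl | rfl) w' (rfl | rfl | rfl | rfl) <;>
      simp [F.t_t₁, h1, h2, ← mul_assoc] <;> (try simp [mul_assoc, F.t_t₁])
  obtain ⟨u', hu', h'⟩ := F.E_form hy
  have key : ∀ {a b c d : G}, a ∈ S.U → c ∈ S.U → b ∈ F.E → d ∈ F.E → b * d = d * b →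
      (a * b) * (c * d) = (c * d) * (a * b) := by
    intro a b c d ha hc hb hd hbd
    have e1 : b * c = c * b := (hxU hc hb).symm
    have e2 : d * a = a * d := (hxU ha hd).symm
    have e3 : a * c = c * a := hxU ha (F.U_le_E hc)
    calc a * b * (c * d) = a * (b * c) * d := by group
      _ = a * (c * b) * d := by rw [e1]
      _ = (a * c) * (b * d) := by group
      _ = (c * a) * (d * b) := by rw [e3, hbd]
      _ = c * (a * d) * b := by group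
      _ = c * (d * a) * b := by rw [e2]
      _ = _ := by group
  have hVmem : ∀ {w : G}, (w = 1 ∨ w = F.t ∨ w = F.t₁ ∨ w = F.t * F.t₁) → w ∈ F.E := by
    rintro w (rfl | rfl | rfl | rfl)
    · exact one_mem _
    · exact F.t_mem_E
    · exact F.t₁_mem_E
    · exact mul_mem F.t_mem_E F.t₁_mem_E
  obtain ⟨w, hw, rfl⟩ : ∃ w, (w = 1 ∨ w = F.t ∨ w = F.t₁ ∨ w = F.t * F.t₁) ∧ x = u * w := by
    rcases h with h | h | h | h
    · exact ⟨1, Or.inl rfl, by simpa using h⟩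
    · exact ⟨_, Or.inr (Or.inl rfl), h⟩
    · exact ⟨_, Or.inr (Or.inr (Or.inl rfl)), h⟩
    · exact ⟨_, Or.inr (Or.inr (Or.inr rfl)), h⟩
  obtain ⟨w', hw', rfl⟩ : ∃ w, (w = 1 ∨ w = F.t ∨ w = F.t₁ ∨ w = F.t * F.t₁) ∧ y = u' * w := by
    rcases h' with h | h | h | h
    · exact ⟨1, Or.inl rfl, by simpa using h⟩
    · exact ⟨_, Or.inr (Or.inl rfl), h⟩
    · exact ⟨_, Or.inr (Or.inr (Or.inl rfl)), h⟩
    · exact ⟨_, Or.inr (Or.inr (Or.inr rfl)), h⟩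
  exact key hu hu' (hVmem hw) (hVmem hw') (hV hw hw')

theorem E_sq {x : G} (hx : x ∈ F.E) : x * x = 1 := by
  obtain ⟨u, hu, h⟩ := F.E_form hx
  have hs : ∀ {a b : G}, a ∈ S.U → b ∈ F.E → b * b = 1 → (a * b) * (a * b) = 1 := by
    intro a b ha hb hbb
    have e : a * b = b * a := F.E_comm (F.U_le_E ha) hb
    calc a * b * (a * b) = a * (b * a) * b := by group
      _ = a * (a * b) * b := by rw [e]
      _ = (a * a) * (b * b) := by group
      _ = 1 := by rw [U_sq ha, hbb, one_mul]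
  rcases h with rfl | rfl | rfl | rfl
  · exact U_sq hu
  · exact hs hu F.t_mem_E F.t_sq
  · exact hs hu F.t₁_mem_E F.t₁_sq
  · exact hs hu (mul_mem F.t_mem_E F.t₁_mem_E) F.tt₁_sq

variable (S) in
/-- The four-group `⟨t, t₁⟩`. -/
def Vq : Subgroup G := four F.t F.t₁ F.t_sq F.t₁_sq F.t_t₁

theorem t_ne_one : F.t ≠ 1 := fun h => F.t_not_Q (h ▸ one_mem _)
theorem t₁_ne_one : F.t₁ ≠ 1 := fun h => F.t₁_not_Q (h ▸ one_mem _)
theorem t_ne_t₁ : F.t ≠ F.t₁ := fun h => by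
  apply F.tt₁_not_Q
  rw [← h, F.t_sq]
  exact one_mem _

/-- `|E| = 16`. -/
theorem card_E [Finite G] : Nat.card F.E = 16 := by
  classical
  have hVE : ∀ v ∈ F.Vq, v ∈ F.E := by
    rintro v (rfl | rfl | rfl | rfl)
    · exact one_mem _
    · exact F.t_mem_E
    · exact F.t₁_mem_E
    · exact mul_mem F.t_mem_E F.t₁_mem_E
  let f : S.U × F.Vq → F.E := fun p => ⟨(p.1 : G) * (p.2 : G), mul_mem (F.U_le_E p.1.2) (hVE _ p.2.2)⟩
  have hinter : ∀ v ∈ F.Vq, v ∈ S.Q → v = 1 := by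
    rintro v (rfl | rfl | rfl | rfl) hq
    · rfl
    · exact absurd hq F.t_not_Q
    · exact absurd hq F.t₁_not_Q
    · exact absurd hq F.tt₁_not_Q
  have hf : Function.Bijective f := by
    constructor
    · rintro ⟨⟨u, hu⟩, ⟨v, hv⟩⟩ ⟨⟨u', hu'⟩, ⟨v', hv'⟩⟩ h
      have h1 : u * v = u' * v' := congrArg Subtype.val h
      have h2 : v * v'⁻¹ = u⁻¹ * u' := by
        calc v * v'⁻¹ = u⁻¹ * (u * v) * v'⁻¹ := by group
          _ = u⁻¹ * (u' * v') * v'⁻¹ := by rw [h1]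
          _ = _ := by group
      have h3 : v * v'⁻¹ ∈ S.Q := by
        rw [h2]; exact U_le_Q (mul_mem (inv_mem hu) hu')
      have h4 := hinter _ (mul_mem hv (inv_mem hv')) h3
      have h5 : v = v' := by
        calc v = v * v'⁻¹ * v' := by group
          _ = v' := by rw [h4, one_mul]
      subst h5
      have h6 : u = u' := mul_right_cancel h1
      subst h6
      rfl
    · rintro ⟨x, hx⟩
      obtain ⟨u, hu, h⟩ := F.E_form hx
      rcases h with h | h | h | h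
      · exact ⟨(⟨u, hu⟩, ⟨1, one_mem _⟩), Subtype.ext (by simp [f, h])⟩
      · exact ⟨(⟨u, hu⟩, ⟨F.t, Or.inr (Or.inl rfl)⟩), Subtype.ext (by simp [f, h])⟩
      · exact ⟨(⟨u, hu⟩, ⟨F.t₁, Or.inr (Or.inr (Or.inl rfl))⟩), Subtype.ext (by simp [f, h])⟩
      · exact ⟨(⟨u, hu⟩, ⟨F.t * F.t₁, Or.inr (Or.inr (Or.inr rfl))⟩), Subtype.ext (by simp [f, h])⟩
  rw [← Nat.card_congr (Equiv.ofBijective f hf), Nat.card_prod, card_U]
  have : Nat.card F.Vq = 4 := card_four _ _ _ F.t_ne_one F.t₁_ne_one F.t_ne_t₁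
  rw [this]

end Frame

end Setup

end Cfsg.Agent.Lib.HallJanko
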