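import Mathlib
import Cfsg.Agent.Lib.HallJanko.Ell

/-!
# Hall-Janko type groups: the element `ℓ`
-/

set_option autoImplicit false
set_option linter.unusedSimpArgs false
set_option linter.unusedSectionVars false
set_option linter.unusedVariables false
set_option synthInstance.maxHeartbeats 400000
set_option synthInstance.maxSize 4000
set_option maxRecDepth 100000

namespace Cfsg.Agent.Lib.HallJanko

open Equiv Subgroup

variable {G : Type*} [Group G]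

namespace Setup

variable {S : Setup G}

/-- Every involution of `Q` is conjugate to `z`. -/
theorem isConj_of_mem_Q {w : G} (hw : w ∈ S.Q) (h2 : w * w = 1) (h1 : w ≠ 1) :
    IsConj S.z w := by
  rcases S.inv_cases hw h2 with h | h | ⟨i, h | h⟩
  · exact absurd h h1
  · rw [h]
  · obtain ⟨g, hg⟩ := S.isConj_a i false
    exact isConj_iff.2 ⟨g, by rw [hg, h]; simp⟩
  · obtain ⟨g, hg⟩ := S.isConj_a i true
    exact isConj_iff.2 ⟨g, by rw [hg, h]; simp⟩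

theorem conj_sq_inv {g x : G} (hx : x * x = 1) : g⁻¹ * x * g * (g⁻¹ * x * g) = 1 := by
  calc g⁻¹ * x * g * (g⁻¹ * x * g) = g⁻¹ * (x * x) * g := by group
    _ = 1 := by rw [hx]; group

namespace Frame

variable (F : Frame S)

section Conj

variable (hJ : ¬ IsConj F.t S.z)
include hJ

/-- A conjugate of `t` is not in `Q`. -/
theorem conj_not_Q (g : G) : g * F.t * g⁻¹ ∉ S.Q := by
  intro h
  have h2 : g * F.t * g⁻¹ * (g * F.t * g⁻¹) = 1 := conj_sq F.t_sq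
  have h1 : g * F.t * g⁻¹ ≠ 1 := by
    intro h3
    apply F.t_ne_one
    have : F.t = g⁻¹ * (g * F.t * g⁻¹) * g := by group
    rw [this, h3]; group
  have h3 := isConj_of_mem_Q h h2 h1
  apply hJ
  exact (h3.trans (isConj_iff.2 ⟨g⁻¹, by group⟩)).symm

/-- An involution of `C(z)` conjugate to `z` lies in `Q`. -/
theorem mem_Q_of_conj {w : G} (hw : w * S.z = S.z * w) (h2 : w * w = 1) (hc : IsConj w S.z) :
    w ∈ S.Q := by
  by_contra hq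
  obtain ⟨c, -, e⟩ := (IsInv.of_IsT F.ht).conj_of (τ' := w) ⟨hw, h2, hq⟩
  exact hJ ((isConj_iff.2 ⟨c, e⟩).trans hc)

end Conj

/-- An element of `E` outside `U` is an involution of `C(z)` outside `Q`. -/
theorem isInv_of_E {x : G} (hx : x ∈ F.E) (hU : x ∉ S.U) : S.IsInv x :=
  ⟨(F.mem_E.1 hx).1, F.E_sq hx, fun hq => hU (F.mem_U_of_E_Q hx hq)⟩

include F in
/-- The centralizer of an involution of `C(z)` outside `Q` in `C(z)` has order `16`. -/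
theorem card_cent [Finite G] {τ : G} (h : S.IsInv τ) :
    Nat.card (centralizer ({S.z} : Set G) ⊓ centralizer ({τ} : Set G) : Subgroup G) = 16 := by
  obtain ⟨c, hc, e⟩ := h.conj_of (IsInv.of_IsT F.ht)
  rw [← F.card_E]
  let H : Subgroup G := centralizer ({S.z} : Set G) ⊓ centralizer ({τ} : Set G)
  have hmap : H.map (MulAut.conj c).toMonoidHom = F.E := by
    ext x
    simp only [Subgroup.mem_map, MulEquiv.coe_toMonoidHom, MulAut.conj_apply]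
    rw [F.mem_E]
    have hc' : c⁻¹ * S.z = S.z * c⁻¹ := (show Commute c S.z from hc).inv_left
    constructor
    · rintro ⟨y, hy, rfl⟩
      have hy' : y * S.z = S.z * y ∧ y * τ = τ * y := by
        simpa [H, mem_inf, mem_centralizer_singleton_iff] using hy
      constructor
      · exact conj_comm hc hy'.1
      · rw [← e]
        calc c * y * c⁻¹ * (c * τ * c⁻¹) = c * (y * τ) * c⁻¹ := by group
          _ = c * (τ * y) * c⁻¹ := by rw [hy'.2]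
          _ = _ := by group
    · rintro ⟨h1, h2⟩
      refine ⟨c⁻¹ * x * c, ?_, by group⟩
      simp only [H, mem_inf, mem_centralizer_singleton_iff]
      constructor
      · have := conj_comm (g := c⁻¹) (x := x) (w := S.z) hc' h1
        simpa using this
      · have hτ : τ = c⁻¹ * F.t * c := by rw [← e]; group
        rw [hτ]
        calc c⁻¹ * x * c * (c⁻¹ * F.t * c) = c⁻¹ * (x * F.t) * c := by group
          _ = c⁻¹ * (F.t * x) * c := by rw [h2]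
          _ = _ := by group
  rw [← hmap]
  exact (Nat.card_congr (H.equivMapOfInjective _ (MulAut.conj c).injective).toEquiv)

/-- `C_{C(z)}(τ) ≤ E` for `τ ∈ E \ U`. -/
theorem mem_E_of_comm [Finite G] {τ : G} (hτ : τ ∈ F.E) (hU : τ ∉ S.U) {x : G}
    (hz : x * S.z = S.z * x) (hx : x * τ = τ * x) : x ∈ F.E := by
  have hle : F.E ≤ (centralizer ({S.z} : Set G) ⊓ centralizer ({τ} : Set G) : Subgroup G) := by
    intro y hy
    simp only [mem_inf, mem_centralizer_singleton_iff]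
    exact ⟨(F.mem_E.1 hy).1, F.E_comm hy hτ⟩
  have heq := Subgroup.eq_of_le_of_card_ge hle (by
    rw [card_cent F (F.isInv_of_E hτ hU), F.card_E])
  have : x ∈ (centralizer ({S.z} : Set G) ⊓ centralizer ({τ} : Set G) : Subgroup G) := by
    simp only [mem_inf, mem_centralizer_singleton_iff]
    exact ⟨hz, hx⟩
  rw [← heq] at this
  exact this

theorem a4_comm_of_E {x : G} (hx : x ∈ F.E) : x * S.a 4 = S.a 4 * x :=
  F.E_comm hx (F.U_le_E (Or.inr (Or.inr (Or.inl rfl))))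

/-- `y` normalizes `E`. -/
theorem y_conj_E [Finite G] {x : G} (hx : x ∈ F.E) : F.y * x * F.y⁻¹ ∈ F.E := by
  obtain ⟨hz, ht⟩ := F.mem_E.1 hx
  have ht₁U : F.t₁ ∉ S.U := fun h => F.t₁_not_Q (U_le_Q h)
  apply F.mem_E_of_comm F.t₁_mem_E ht₁U (conj_comm F.ycomm hz)
  show F.y * x * F.y⁻¹ * (F.y * F.t * F.y⁻¹) = (F.y * F.t * F.y⁻¹) * (F.y * x * F.y⁻¹)
  calc F.y * x * F.y⁻¹ * (F.y * F.t * F.y⁻¹) = F.y * (x * F.t) * F.y⁻¹ := by group
    _ = F.y * (F.t * x) * F.y⁻¹ := by rw [ht]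
    _ = _ := by group

/-- The form of the involutions acting as `(01)(23)`. -/
theorem IsT_form {τ : G} (h : S.IsT τ) :
    ∃ u ∈ S.U, τ = u * F.t ∨ τ = S.a 0 * (u * F.t) * (S.a 0)⁻¹ := by
  obtain ⟨e, e', ht⟩ := F.ht.table
  have hx : τ * F.t ∈ S.Q := by
    apply S.ker _ (by rw [mul_assoc, F.t_z, ← mul_assoc, h.comm, mul_assoc])
    have := S.cl.acts_mul h.comm h.act F.ht.act
    rwa [σ₀_sq] at this
  obtain ⟨w, hw⟩ := (S.Q_mem _).1 hx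
  have hτ : τ = ev S.z S.a w * F.t := by
    rw [← hw, mul_assoc, F.t_sq, mul_one]
  have h1 : ev S.z S.a w * (F.t * ev S.z S.a w * F.t⁻¹) = 1 := by
    rw [F.ht.inv]
    calc ev S.z S.a w * (F.t * ev S.z S.a w * F.t) = ev S.z S.a w * F.t * (ev S.z S.a w * F.t) := by group
      _ = 1 := by rw [← hτ]; exact h.sq
  rw [ht, S.cl.ev_mul, S.cl.ev_eq_one_iff] at h1
  rcases qw_U_forms e e' w h1 with h2 | h2
  · exact ⟨_, ev_mem_U (S := S) h2, Or.inl hτ⟩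
  · have hu := ev_mem_U (S := S) h2
    rw [← S.cl.ev_mul, ← S.cl.ev_inv] at hu
    have h3 : ev S.z S.a (qmul (qa 0) (tw e e' (qa 0))) = S.a 0 * (F.t * S.a 0 * F.t⁻¹) := by
      rw [← S.cl.ev_mul, ← ht, S.cl.ev_qa]
    rw [h3] at hu
    set n' := S.a 0 * (F.t * S.a 0 * F.t⁻¹) with hn'
    set u := ev S.z S.a w * n'⁻¹ with hudef
    refine ⟨S.a 0 * u * (S.a 0)⁻¹, a0_conj_U hu, Or.inr ?_⟩
    have h5 : S.a 0 * (S.a 0 * u * (S.a 0)⁻¹ * F.t) * (S.a 0)⁻¹ = u * (S.a 0 * F.t * (S.a 0)⁻¹) := by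
      have h6 : (S.a 0)⁻¹ = S.a 0 := S.cl.a_inv 0
      have h7 : S.a 0 * S.a 0 = 1 := S.cl.a_sq 0
      calc S.a 0 * (S.a 0 * u * (S.a 0)⁻¹ * F.t) * (S.a 0)⁻¹
          = (S.a 0 * S.a 0) * u * (S.a 0)⁻¹ * F.t * (S.a 0)⁻¹ := by group
        _ = u * (S.a 0 * F.t * (S.a 0)⁻¹) := by rw [h7, h6]; group
    have h8 : S.a 0 * F.t * (S.a 0)⁻¹ = n' * F.t := by
      rw [hn', S.cl.a_inv]; group
    rw [h5, h8, hudef, hτ]
    group

/-- `t₃` in terms of `y`. -/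
theorem y_t₁ : F.y * F.t₁ * F.y⁻¹ = F.t₃ := rfl
theorem y_t : F.y * F.t * F.y⁻¹ = F.t₁ := rfl

theorem y_comm_U {u : G} (hu : u ∈ S.U) : F.y * u = u * F.y :=
  comm_U_of F.ycomm F.y_a4 hu

theorem a0_conj_of_y {x : G} : F.y * (S.a 0 * x * (S.a 0)⁻¹) * F.y⁻¹ =
    S.a 0 * (F.y * x * F.y⁻¹) * (S.a 0)⁻¹ := by
  have h := F.y_a0
  have hi : F.y * (S.a 0)⁻¹ = (S.a 0)⁻¹ * F.y := (show Commute F.y (S.a 0) from h).inv_right
  calc F.y * (S.a 0 * x * (S.a 0)⁻¹) * F.y⁻¹ = (F.y * S.a 0) * x * ((S.a 0)⁻¹ * F.y⁻¹) := by group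
    _ = (S.a 0 * F.y) * x * ((S.a 0)⁻¹ * F.y⁻¹) := by rw [h]
    _ = S.a 0 * F.y * x * ((F.y * S.a 0)⁻¹) := by group
    _ = S.a 0 * F.y * x * ((S.a 0 * F.y)⁻¹) := by rw [h]
    _ = _ := by group

/-- Auxiliary predicate. -/
def PE (τ : G) : Prop := τ ∈ F.E ∨ S.a 0 * τ * (S.a 0)⁻¹ ∈ F.E

theorem PE_of_IsT {τ : G} (h : S.IsT τ) : F.PE τ := by
  obtain ⟨u, hu, h1 | h1⟩ := F.IsT_form h
  · left
    rw [h1]
    exact mul_mem (F.U_le_E hu) F.t_mem_E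
  · right
    have h7 : S.a 0 * S.a 0 = 1 := S.cl.a_sq 0
    have h6 : (S.a 0)⁻¹ = S.a 0 := S.cl.a_inv 0
    have : S.a 0 * τ * (S.a 0)⁻¹ = u * F.t := by
      rw [h1, h6]
      calc S.a 0 * (S.a 0 * (u * F.t) * S.a 0) * S.a 0 = (S.a 0 * S.a 0) * (u * F.t) * (S.a 0 * S.a 0) := by group
        _ = _ := by rw [h7]; group
    rw [this]
    exact mul_mem (F.U_le_E hu) F.t_mem_E

theorem PE_of_conj_y [Finite G] {τ : G} (h : F.PE (F.y⁻¹ * τ * F.y)) : F.PE τ := by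
  have e : F.y * (F.y⁻¹ * τ * F.y) * F.y⁻¹ = τ := by group
  rcases h with h | h
  · left
    have := F.y_conj_E h
    rwa [e] at this
  · right
    have := F.y_conj_E h
    rwa [F.a0_conj_of_y, e] at this

theorem act_conj_y {τ : G} {σ : Perm (Fin 5)} (hc : τ * S.z = S.z * τ) (ha : Acts S.z S.a τ σ) :
    Acts S.z S.a (F.y⁻¹ * τ * F.y) (ρ₀⁻¹ * σ * ρ₀) := by
  have h1 : F.y⁻¹ * S.z = S.z * F.y⁻¹ := (show Commute F.y S.z from F.ycomm).inv_left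
  have h2 := S.cl.acts_mul h1 (S.cl.acts_inv F.ycomm F.yact) ha
  have h3 : F.y⁻¹ * τ * S.z = S.z * (F.y⁻¹ * τ) := by
    rw [mul_assoc, hc, ← mul_assoc, h1, mul_assoc]
  exact S.cl.acts_mul h3 h2 F.yact

theorem comm_conj_y {τ : G} (hc : τ * S.z = S.z * τ) : F.y⁻¹ * τ * F.y * S.z = S.z * (F.y⁻¹ * τ * F.y) := by
  have h := conj_comm (g := F.y⁻¹) (x := τ) (w := S.z) (show Commute F.y S.z from F.ycomm).inv_left hc
  simpa using h

theorem sq_conj_y {τ : G} (hs : τ * τ = 1) : F.y⁻¹ * τ * F.y * (F.y⁻¹ * τ * F.y) = 1 := by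
  have h := conj_sq (g := F.y⁻¹) hs
  simpa using h

theorem PE_of_σ₁ [Finite G] {τ : G} (hc : τ * S.z = S.z * τ) (hs : τ * τ = 1)
    (ha : Acts S.z S.a τ σ₁) : F.PE τ := by
  apply F.PE_of_conj_y
  apply F.PE_of_IsT
  refine ⟨F.comm_conj_y hc, F.sq_conj_y hs, ?_⟩
  have := F.act_conj_y hc ha
  rwa [ρ_σ₁] at this

theorem PE_of_σ₂ [Finite G] {τ : G} (hc : τ * S.z = S.z * τ) (hs : τ * τ = 1)
    (ha : Acts S.z S.a τ σ₂) : F.PE τ := by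
  apply F.PE_of_conj_y
  apply F.PE_of_σ₁ (F.comm_conj_y hc) (F.sq_conj_y hs)
  have := F.act_conj_y hc ha
  have e : ρ₀⁻¹ * σ₂ * ρ₀ = σ₁ := by decide
  rwa [e] at this

/-- Every involution of `C(z)` outside `Q` commuting with `a₄` lies in `E` or `a₀ E a₀`. -/
theorem inv_mem_E_or [Finite G] {τ : G} (h : S.IsInv τ) (h4 : τ * S.a 4 = S.a 4 * τ) : F.PE τ := by
  obtain ⟨σ, hσ, ha⟩ := S.acts τ h.comm
  have hσ2 : σ * σ = 1 := by
    have := S.cl.acts_mul h.comm ha ha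
    rw [h.sq] at this
    exact S.cl.acts_unique this S.cl.acts_one_one
  have hσ1 : σ ≠ 1 := by
    rintro rfl
    exact h.notQ (S.ker τ h.comm ha)
  have hσ4 : σ 4 = 4 := by
    have e0 : τ * S.a 4 * τ⁻¹ = S.a 4 := by rw [h4]; group
    rcases ha 4 with e | e <;> rw [e0] at e
    · exact S.cl.a_eq_of (Or.inl e.symm)
    · exact S.cl.a_eq_of (Or.inr (Or.inr (Or.inl e.symm)))
  rcases V4_cases σ (Equiv.Perm.mem_alternatingGroup.1 hσ) hσ2 hσ1 hσ4 with rfl | rfl | rfl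
  · exact F.PE_of_IsT ⟨h.comm, h.sq, ha⟩
  · exact F.PE_of_σ₁ h.comm h.sq ha
  · exact F.PE_of_σ₂ h.comm h.sq ha

end Frame

/-- A self-map by conjugation of a subgroup of a finite group is onto. -/
theorem mem_normalizer_of_maps [Finite G] {H : Subgroup G} {n : G} (h : ∀ x ∈ H, n * x * n⁻¹ ∈ H) :
    n ∈ normalizer (H : Set G) := by
  have hle : H.map (MulAut.conj n).toMonoidHom ≤ H := by
    rintro _ ⟨x, hx, rfl⟩
    exact h x hx
  have hcard : Nat.card H ≤ Nat.card (H.map (MulAut.conj n).toMonoidHom) :=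
    le_of_eq (Nat.card_congr (H.equivMapOfInjective (MulAut.conj n).toMonoidHom (MulAut.conj n).injective).toEquiv)
  have heq := Subgroup.eq_of_le_of_card_ge hle hcard
  rw [mem_normalizer_iff]
  intro x
  refine ⟨h x, fun hx => ?_⟩
  have : n * x * n⁻¹ ∈ H.map (MulAut.conj n).toMonoidHom := by rw [heq]; exact hx
  obtain ⟨y, hy, e⟩ := this
  have e' : n * y * n⁻¹ = n * x * n⁻¹ := e
  have : y = x := by
    have := mul_right_cancel e'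
    exact mul_left_cancel this
  exact this ▸ hy

namespace Frame

variable (F : Frame S)

theorem a0_mem_NU [Finite G] : S.a 0 ∈ normalizer (S.U : Set G) :=
  mem_normalizer_of_maps (fun _ hx => a0_conj_U hx)

section Conj

variable (hJ : ¬ IsConj F.t S.z)
include hJ

/-- `n ∈ N(U)`, then `n t n⁻¹ ∈ E` or `a₀ n t n⁻¹ a₀ ∈ E`. -/
theorem PE_conj [Finite G] {n : G} (hn : n ∈ normalizer (S.U : Set G)) : F.PE (n * F.t * n⁻¹) := by
  have hz' : n⁻¹ * S.z * n ∈ S.U := by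
    have h1 := (mem_normalizer_iff.1 hn (n⁻¹ * S.z * n)).2
    apply h1
    have : n * (n⁻¹ * S.z * n) * n⁻¹ = S.z := by group
    rw [this]
    exact Or.inr (Or.inl rfl)
  have ha' : n⁻¹ * S.a 4 * n ∈ S.U := by
    have h1 := (mem_normalizer_iff.1 hn (n⁻¹ * S.a 4 * n)).2
    apply h1
    have : n * (n⁻¹ * S.a 4 * n) * n⁻¹ = S.a 4 := by group
    rw [this]
    exact Or.inr (Or.inr (Or.inl rfl))
  have hcomm : ∀ w : G, n⁻¹ * w * n ∈ S.U → n * F.t * n⁻¹ * w = w * (n * F.t * n⁻¹) := by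
    intro w hw
    have h1 : F.t * (n⁻¹ * w * n) = (n⁻¹ * w * n) * F.t := comm_U_of F.t_z F.t_a4 hw
    calc n * F.t * n⁻¹ * w = n * (F.t * (n⁻¹ * w * n)) * n⁻¹ := by group
      _ = n * ((n⁻¹ * w * n) * F.t) * n⁻¹ := by rw [h1]
      _ = _ := by group
  apply F.inv_mem_E_or _ (hcomm _ ha')
  exact ⟨hcomm _ hz', conj_sq F.t_sq, F.conj_not_Q hJ n⟩

/-- If `n ∈ N(U)` and `n t n⁻¹ ∈ E` then `n ∈ N(E)`. -/
theorem mem_NE [Finite G] {n : G} (hn : n ∈ normalizer (S.U : Set G)) (h : n * F.t * n⁻¹ ∈ F.E) :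
    n ∈ normalizer (F.E : Set G) := by
  apply mem_normalizer_of_maps
  intro x hx
  have hz' : n⁻¹ * S.z * n ∈ S.U := by
    have h1 := (mem_normalizer_iff.1 hn (n⁻¹ * S.z * n)).2
    apply h1
    have : n * (n⁻¹ * S.z * n) * n⁻¹ = S.z := by group
    rw [this]
    exact Or.inr (Or.inl rfl)
  have hU : n * F.t * n⁻¹ ∉ S.U := fun h' => F.conj_not_Q hJ n (U_le_Q h')
  apply F.mem_E_of_comm h hU
  · have h1 : x * (n⁻¹ * S.z * n) = (n⁻¹ * S.z * n) * x := F.E_comm hx (F.U_le_E hz')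
    calc n * x * n⁻¹ * S.z = n * (x * (n⁻¹ * S.z * n)) * n⁻¹ := by group
      _ = n * ((n⁻¹ * S.z * n) * x) * n⁻¹ := by rw [h1]
      _ = _ := by group
  · have h1 := F.E_comm hx F.t_mem_E
    calc n * x * n⁻¹ * (n * F.t * n⁻¹) = n * (x * F.t) * n⁻¹ := by group
      _ = n * (F.t * x) * n⁻¹ := by rw [h1]
      _ = _ := by group

omit hJ in
/-- `a₀` does not normalize `E`. -/
theorem a0_not_NE [Finite G] : S.a 0 ∉ normalizer (F.E : Set G) := by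
  intro h
  have h1 := (mem_normalizer_iff.1 h F.t).1 F.t_mem_E
  obtain ⟨e, e', ht⟩ := F.ht.table
  have h2 : S.a 0 * F.t * (S.a 0)⁻¹ * F.t ∈ F.E := mul_mem h1 F.t_mem_E
  have h3 : S.a 0 * F.t * (S.a 0)⁻¹ * F.t = ev S.z S.a (qmul (qa 0) (tw e e' (qa 0))) := by
    rw [← S.cl.ev_mul, ← ht, S.cl.ev_qa, S.cl.a_inv, F.ht.inv]
    group
  rw [h3] at h2
  exact qw_not_U e e' (word_of_ev_mem_U (F.mem_U_of_E_Q h2 (S.mem_Q _)))

/-- The swap of `z` and `a₄`. -/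
theorem exists_swap [Finite G] : ∃ h : G, h * S.z * h⁻¹ = S.a 4 ∧ h * S.a 4 * h⁻¹ = S.z := by
  obtain ⟨g, hg⟩ := S.isConj_a 4 false
  simp only [pw_false, one_mul] at hg
  set w := g⁻¹ * S.z * g with hw
  have hga : g⁻¹ * S.a 4 * g = S.z := by rw [← hg]; group
  have h1 : w * S.z = S.z * w := by
    have h2 := S.cl.a_z 4
    have : S.a 4 * S.z = S.z * S.a 4 := h2
    rw [hw]
    calc g⁻¹ * S.z * g * S.z = g⁻¹ * S.z * g * (g⁻¹ * S.a 4 * g) := by rw [hga]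
      _ = g⁻¹ * (S.z * S.a 4) * g := by group
      _ = g⁻¹ * (S.a 4 * S.z) * g := by rw [this]
      _ = (g⁻¹ * S.a 4 * g) * (g⁻¹ * S.z * g) := by group
      _ = _ := by rw [hga]
  have h2 : w * w = 1 := conj_sq_inv S.cl.z_sq
  have hconj : IsConj w S.z := isConj_iff.2 ⟨g, by rw [hw]; group⟩
  have hQ : w ∈ S.Q := F.mem_Q_of_conj hJ h1 h2 hconj
  have hne : w ≠ 1 := by
    intro h3
    apply S.cl.z_ne
    have : S.z = g * w * g⁻¹ := by rw [hw]; group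
    rw [this, h3]; group
  have hnez : w ≠ S.z := by
    intro h3
    have : S.a 4 = S.z := by
      rw [← hg]
      have h4 : S.z = g⁻¹ * S.z * g := h3.symm
      calc g * S.z * g⁻¹ = g * (g⁻¹ * S.z * g) * g⁻¹ := by rw [← h4]
        _ = S.z := by group
    exact a4_ne_z this.symm
  obtain ⟨i, s, hi⟩ : ∃ (i : Fin 5) (s : Bool), w = pw S.z s * S.a i := by
    rcases S.inv_cases hQ h2 with h | h | ⟨i, h | h⟩
    · exact absurd h hne
    · exact absurd h hnez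
    · exact ⟨i, false, by simpa using h⟩
    · exact ⟨i, true, by simpa using h⟩
  obtain ⟨c, hc, e⟩ := S.exists_conj_sa i 4 s false
  simp only [pw_false, one_mul] at e
  refine ⟨c * g⁻¹, ?_, ?_⟩
  · have : c * g⁻¹ * S.z * (c * g⁻¹)⁻¹ = c * w * c⁻¹ := by rw [hw]; group
    rw [this, hi, e]
  · have : c * g⁻¹ * S.a 4 * (c * g⁻¹)⁻¹ = c * (g⁻¹ * S.a 4 * g) * c⁻¹ := by group
    rw [this, hga, hc]; group

/-- An element cycling `z, z a₄, a₄`. -/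
theorem exists_rho [Finite G] : ∃ ρ : G, ρ ∈ normalizer (S.U : Set G) ∧ ρ * S.z * ρ⁻¹ = S.z * S.a 4 ∧
    ρ * S.a 4 * ρ⁻¹ = S.z := by
  obtain ⟨h, h1, h2⟩ := F.exists_swap hJ
  have h3 : S.a 0 * S.a 4 * (S.a 0)⁻¹ = S.z * S.a 4 := by
    rw [S.cl.a_inv, S.cl.anti 0 4 (by decide)]
    simp only [mul_assoc, S.cl.a_sq, mul_one]
  have h4 : S.a 0 * S.z * (S.a 0)⁻¹ = S.z := by
    rw [S.cl.a_inv, S.cl.a_z, mul_assoc, S.cl.a_sq, mul_one]
  have e1 : (S.a 0 * h) * S.z * (S.a 0 * h)⁻¹ = S.z * S.a 4 := by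
    have : (S.a 0 * h) * S.z * (S.a 0 * h)⁻¹ = S.a 0 * (h * S.z * h⁻¹) * (S.a 0)⁻¹ := by group
    rw [this, h1, h3]
  have e2 : (S.a 0 * h) * S.a 4 * (S.a 0 * h)⁻¹ = S.z := by
    have : (S.a 0 * h) * S.a 4 * (S.a 0 * h)⁻¹ = S.a 0 * (h * S.a 4 * h⁻¹) * (S.a 0)⁻¹ := by group
    rw [this, h2, h4]
  refine ⟨S.a 0 * h, mem_normalizer_of_maps ?_, e1, e2⟩
  rintro x (rfl | rfl | rfl | rfl)
  · simp [one_mem]
  · rw [e1]; exact Or.inr (Or.inr (Or.inr rfl))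
  · rw [e2]; exact Or.inr (Or.inl rfl)
  · have : (S.a 0 * h) * (S.z * S.a 4) * (S.a 0 * h)⁻¹ =
        ((S.a 0 * h) * S.z * (S.a 0 * h)⁻¹) * ((S.a 0 * h) * S.a 4 * (S.a 0 * h)⁻¹) := by group
    rw [this, e1, e2]
    have h5 : S.z * S.a 4 * S.z = S.a 4 := by
      rw [mul_assoc, S.cl.a_z, S.cl.z_sq']
    rw [h5]
    exact Or.inr (Or.inr (Or.inl rfl))

/-- A normalizer of `E` cycling `z, a₄, z a₄`. -/
theorem exists_rho₂ [Finite G] : ∃ ρ : G, ρ ∈ normalizer (S.U : Set G) ∧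
    ρ ∈ normalizer (F.E : Set G) ∧ ρ * S.z * ρ⁻¹ = S.a 4 ∧ ρ * S.a 4 * ρ⁻¹ = S.z * S.a 4 := by
  obtain ⟨ρ, hρ, h1, h2⟩ := F.exists_rho hJ
  have e1 : (ρ * ρ) * S.z * (ρ * ρ)⁻¹ = S.a 4 := by
    have h3 : ρ * (S.z * S.a 4) * ρ⁻¹ = (ρ * S.z * ρ⁻¹) * (ρ * S.a 4 * ρ⁻¹) := by group
    have h4 : S.z * S.a 4 * S.z = S.a 4 := by
      rw [mul_assoc, S.cl.a_z, S.cl.z_sq']
    calc (ρ * ρ) * S.z * (ρ * ρ)⁻¹ = ρ * (ρ * S.z * ρ⁻¹) * ρ⁻¹ := by group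
      _ = _ := by rw [h1, h3, h1, h2, h4]
  have e2 : (ρ * ρ) * S.a 4 * (ρ * ρ)⁻¹ = S.z * S.a 4 := by
    calc (ρ * ρ) * S.a 4 * (ρ * ρ)⁻¹ = ρ * (ρ * S.a 4 * ρ⁻¹) * ρ⁻¹ := by group
      _ = _ := by rw [h2, h1]
  refine ⟨ρ * ρ, mul_mem hρ hρ, ?_, e1, e2⟩
  have hnot := F.a0_not_NE
  have ha0 : S.a 0 ∈ normalizer (S.U : Set G) := a0_mem_NU
  have ha0inv : (S.a 0)⁻¹ = S.a 0 := S.cl.a_inv 0
  rcases F.PE_conj hJ hρ with h3 | h3
  · have := F.mem_NE hJ hρ h3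
    exact mul_mem this this
  · have hN1 : S.a 0 * ρ ∈ normalizer (F.E : Set G) := by
      apply F.mem_NE hJ (mul_mem ha0 hρ)
      have : S.a 0 * ρ * F.t * (S.a 0 * ρ)⁻¹ = S.a 0 * (ρ * F.t * ρ⁻¹) * (S.a 0)⁻¹ := by group
      rwa [this]
    have hρa : ρ * S.a 0 ∈ normalizer (S.U : Set G) := mul_mem hρ ha0
    rcases F.PE_conj hJ hρa with h4 | h4
    · have hN2 := F.mem_NE hJ hρa h4
      have : ρ * ρ = (ρ * S.a 0) * (S.a 0 * ρ) := by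
        calc ρ * ρ = ρ * 1 * ρ := by simp
          _ = ρ * (S.a 0 * S.a 0) * ρ := by rw [S.cl.a_sq]
          _ = _ := by group
      rw [this]
      exact mul_mem hN2 hN1
    · exfalso
      have hN2 : S.a 0 * (ρ * S.a 0) ∈ normalizer (F.E : Set G) := by
        apply F.mem_NE hJ (mul_mem ha0 hρa)
        have : S.a 0 * (ρ * S.a 0) * F.t * (S.a 0 * (ρ * S.a 0))⁻¹ =
            S.a 0 * (ρ * S.a 0 * F.t * (ρ * S.a 0)⁻¹) * (S.a 0)⁻¹ := by group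
        rwa [this]
      apply hnot
      have : S.a 0 = (S.a 0 * ρ)⁻¹ * (S.a 0 * (ρ * S.a 0)) := by group
      rw [this]
      exact mul_mem (inv_mem hN1) hN2

/-- The element `ℓ`: it centralizes `t`, has order `3` and cycles `z, a₄, z a₄`. -/
theorem exists_ell [Finite G] : ∃ l : G, l * l * l = 1 ∧ l * F.t = F.t * l ∧ l * S.z * l⁻¹ = S.a 4 ∧
    l * S.a 4 * l⁻¹ = S.z * S.a 4 := by
  obtain ⟨ρ, hρU, hρE, h1, h2⟩ := F.exists_rho₂ hJ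
  have hτ : ρ * F.t * ρ⁻¹ ∈ F.E := (mem_normalizer_iff.1 hρE F.t).1 F.t_mem_E
  have hτU : ρ * F.t * ρ⁻¹ ∉ S.U := fun h' => F.conj_not_Q hJ ρ (U_le_Q h')
  -- adjust by a power of `y`
  have step1 : ∃ d : G, d * S.z = S.z * d ∧ d * S.a 4 = S.a 4 * d ∧ ∃ u ∈ S.U, d * ρ * F.t * (d * ρ)⁻¹ = u * F.t := by
    obtain ⟨u, hu, h3⟩ := F.E_form hτ
    have hyi : F.y⁻¹ * S.z = S.z * F.y⁻¹ := (show Commute F.y S.z from F.ycomm).inv_left
    have hyi4 : F.y⁻¹ * S.a 4 = S.a 4 * F.y⁻¹ := (show Commute F.y (S.a 4) from F.y_a4).inv_left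
    have hyU : ∀ v ∈ S.U, F.y⁻¹ * v * F.y = v := by
      intro v hv
      rw [mul_assoc, ← F.y_comm_U hv]; group
    rcases h3 with h3 | h3 | h3 | h3
    · exact absurd (h3 ▸ hu) hτU
    · exact ⟨1, by simp, by simp, u, hu, by simpa using h3⟩
    · refine ⟨F.y⁻¹, hyi, hyi4, u, hu, ?_⟩
      have : F.y⁻¹ * ρ * F.t * (F.y⁻¹ * ρ)⁻¹ = F.y⁻¹ * (ρ * F.t * ρ⁻¹) * F.y := by group
      rw [this, h3]
      have h4 : F.y⁻¹ * F.t₁ * F.y = F.t := by simp only [t₁]; group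
      calc F.y⁻¹ * (u * F.t₁) * F.y = (F.y⁻¹ * u * F.y) * (F.y⁻¹ * F.t₁ * F.y) := by group
        _ = _ := by rw [hyU u hu, h4]
    · obtain ⟨r, hr, hr2⟩ := F.t₃_eq
      have hrr : r * r = 1 := U_sq hr
      have h5 : F.t * F.t₁ = r * F.t₃ := by
        rw [hr2, ← mul_assoc, hrr, one_mul]
      refine ⟨F.y⁻¹ * F.y⁻¹, by rw [mul_assoc, hyi, ← mul_assoc, hyi, mul_assoc],
        by rw [mul_assoc, hyi4, ← mul_assoc, hyi4, mul_assoc], u * r, mul_mem hu hr, ?_⟩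
      have : F.y⁻¹ * F.y⁻¹ * ρ * F.t * (F.y⁻¹ * F.y⁻¹ * ρ)⁻¹ =
          F.y⁻¹ * (F.y⁻¹ * (ρ * F.t * ρ⁻¹) * F.y) * F.y := by
        simp only [mul_inv_rev, inv_inv, mul_assoc]
      rw [this, h3, h5]
      have h4 : F.y⁻¹ * (F.y⁻¹ * F.t₃ * F.y) * F.y = F.t := by simp only [t₃, t₁]; group
      have e6 : F.y⁻¹ * (F.y⁻¹ * (u * (r * F.t₃)) * F.y) * F.y =
          (F.y⁻¹ * (F.y⁻¹ * u * F.y) * F.y) * (F.y⁻¹ * (F.y⁻¹ * r * F.y) * F.y) *
            (F.y⁻¹ * (F.y⁻¹ * F.t₃ * F.y) * F.y) := by group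
      rw [e6, h4, hyU u hu, hyU u hu, hyU r hr, hyU r hr]
  obtain ⟨d, hdz, hd4, u, hu, hd⟩ := step1
  -- adjust by an element of `Q`
  obtain ⟨e, e', ht⟩ := F.ht.table
  obtain ⟨wu, hwu, rfl⟩ := exists_word_of_U hu
  obtain ⟨q, hq4, hq⟩ := qw_conj_U e e' wu hwu
  set c := ev S.z S.a q with hc
  have hcz : c * S.z = S.z * c := S.cl.comm_ev_z q
  have hc4 : c * S.a 4 = S.a 4 * c := by
    have := congrArg (ev S.z S.a) hq4
    rw [← S.cl.ev_mul, ← S.cl.ev_mul, S.cl.ev_qa] at this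
    exact this
  have hct : c * F.t * c⁻¹ = ev S.z S.a wu * F.t := by
    rw [← hq, ← S.cl.ev_mul, ← ht, ← S.cl.ev_inv, hc]
    group
  -- the element `ℓ₀`
  set l₀ := c⁻¹ * (d * ρ) with hl₀
  have hczi : c⁻¹ * S.z = S.z * c⁻¹ := (show Commute c S.z from hcz).inv_left
  have hc4i : c⁻¹ * S.a 4 = S.a 4 * c⁻¹ := (show Commute c (S.a 4) from hc4).inv_left
  have hdzi : d⁻¹ * S.z = S.z * d⁻¹ := (show Commute d S.z from hdz).inv_left
  have hd4i : d⁻¹ * S.a 4 = S.a 4 * d⁻¹ := (show Commute d (S.a 4) from hd4).inv_left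
  have hcdz : c⁻¹ * d * S.z = S.z * (c⁻¹ * d) := by
    rw [mul_assoc, hdz, ← mul_assoc, hczi, mul_assoc]
  have hcd4 : c⁻¹ * d * S.a 4 = S.a 4 * (c⁻¹ * d) := by
    rw [mul_assoc, hd4, ← mul_assoc, hc4i, mul_assoc]
  have conj_cd : ∀ {x y : G}, x ∈ S.U → ρ * y * ρ⁻¹ = x → l₀ * y * l₀⁻¹ = x := by
    intro x y hx hxy
    have hcdx : c⁻¹ * d * x = x * (c⁻¹ * d) := comm_U_of hcdz hcd4 hx
    calc l₀ * y * l₀⁻¹ = (c⁻¹ * d) * (ρ * y * ρ⁻¹) * (c⁻¹ * d)⁻¹ := by rw [hl₀]; group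
      _ = _ := by rw [hxy, hcdx]; group
  have hlz : l₀ * S.z * l₀⁻¹ = S.a 4 := conj_cd (Or.inr (Or.inr (Or.inl rfl))) h1
  have hl4 : l₀ * S.a 4 * l₀⁻¹ = S.z * S.a 4 := conj_cd (Or.inr (Or.inr (Or.inr rfl))) h2
  have hlt : l₀ * F.t * l₀⁻¹ = F.t := by
    have : l₀ * F.t * l₀⁻¹ = c⁻¹ * (d * ρ * F.t * (d * ρ)⁻¹) * c := by rw [hl₀]; group
    rw [this, hd, ← hct]; group
  have hlt' : l₀ * F.t = F.t * l₀ := mul_inv_eq_iff_eq_mul.mp hlt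
  have hl3z : (l₀ * (l₀ * l₀)) * S.z * (l₀ * (l₀ * l₀))⁻¹ = S.z := by
    have h5 : S.a 4 * (S.z * S.a 4) = S.z := by
      rw [S.cl.a_z', S.cl.a_sq, mul_one]
    calc (l₀ * (l₀ * l₀)) * S.z * (l₀ * (l₀ * l₀))⁻¹ = l₀ * (l₀ * (l₀ * S.z * l₀⁻¹) * l₀⁻¹) * l₀⁻¹ := by group
      _ = l₀ * (l₀ * S.a 4 * l₀⁻¹) * l₀⁻¹ := by rw [hlz]
      _ = l₀ * (S.z * S.a 4) * l₀⁻¹ := by rw [hl4]
      _ = (l₀ * S.z * l₀⁻¹) * (l₀ * S.a 4 * l₀⁻¹) := by group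
      _ = _ := by rw [hlz, hl4, h5]
  have hL : l₀ * (l₀ * l₀) ∈ F.E := by
    refine F.mem_E.2 ⟨mul_inv_eq_iff_eq_mul.mp hl3z, ?_⟩
    have hcm : Commute l₀ F.t := hlt'
    exact (hcm.mul_left (hcm.mul_left hcm)).eq
  have hLsq := F.E_sq hL
  have hL4 := F.a4_comm_of_E hL
  have hL4' : (l₀ * (l₀ * l₀)) * S.a 4 * (l₀ * (l₀ * l₀))⁻¹ = S.a 4 := by
    rw [hL4]; group
  have e12 : l₀ ^ 12 = 1 := by
    have : l₀ ^ 3 = l₀ * (l₀ * l₀) := by simp only [pow_succ, pow_zero, one_mul, mul_assoc]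
    have h6 : l₀ ^ 6 = 1 := by
      rw [show (6 : ℕ) = 3 + 3 from rfl, pow_add, this, hLsq]
    rw [show (12 : ℕ) = 6 * 2 from rfl, pow_mul, h6, one_pow]
  have hform : l₀ ^ 4 = l₀ * (l₀ * (l₀ * l₀)) := by simp only [pow_succ, pow_zero, one_mul, mul_assoc]
  refine ⟨l₀ ^ 4, ?_, ?_, ?_, ?_⟩
  · rw [← pow_add, ← pow_add]; exact e12
  · exact (show Commute l₀ F.t from hlt').pow_left 4
  · rw [hform]
    have : l₀ * (l₀ * (l₀ * l₀)) * S.z * (l₀ * (l₀ * (l₀ * l₀)))⁻¹ =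
        l₀ * ((l₀ * (l₀ * l₀)) * S.z * (l₀ * (l₀ * l₀))⁻¹) * l₀⁻¹ := by group
    rw [this, hl3z, hlz]
  · rw [hform]
    have : l₀ * (l₀ * (l₀ * l₀)) * S.a 4 * (l₀ * (l₀ * (l₀ * l₀)))⁻¹ =
        l₀ * ((l₀ * (l₀ * l₀)) * S.a 4 * (l₀ * (l₀ * l₀))⁻¹) * l₀⁻¹ := by group
    rw [this, hL4', hl4]

end Conj

end Frame

end Setup

end Cfsg.Agent.Lib.HallJanko
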