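import Mathlib
import Cfsg.Agent.Lib.HallJanko.Ell2
import Cfsg.Agent.Lib.Transfer.AbelianSylow

/-!
# Hall-Janko type groups: the centralizer of the second involution, the transfer step

`E` is a Sylow `2`-subgroup of `T = C(t)`, `N_T(E) = E⟨l⟩`, and the transfer gives a normal subgroup
`T1` of `T` with `T1 ∩ E = U`, `T = T1 E`.
-/

set_option autoImplicit false
set_option linter.unusedSimpArgs false
set_option linter.unusedSectionVars false
set_option linter.unusedVariables false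
set_option synthInstance.maxHeartbeats 400000
set_option synthInstance.maxSize 4000
set_option maxRecDepth 100000

namespace Cfsg.Agent.Lib.HallJanko

open Equiv Subgroup

/-- The focal subgroup theorem for an abelian Sylow `2`-subgroup. -/
theorem focal_complement {X : Type*} [Group X] [Finite X] (P : Sylow 2 X)
    [IsMulCommutative (P : Subgroup X)] :
    ∃ K : Subgroup X, K.Normal ∧
      (∀ x ∈ (P : Subgroup X), (x ∈ K ↔ x ∈ Cfsg.Agent.Lib.Transfer.AbelianSylow.commN P)) ∧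
      ∀ g, ∃ p ∈ (P : Subgroup X), g * p⁻¹ ∈ K := by
  classical
  open Cfsg.Agent.Lib.Transfer.AbelianSylow in
  refine ⟨(transferN P).ker, inferInstance, ?_, ?_⟩
  · intro x hx
    constructor
    · intro h
      exact mem_commN_of_transferN_eq_one P hx h
    · intro h
      rw [MonoidHom.mem_ker]
      have h1 := transferN_apply P ⟨x, hx⟩
      rw [h1]
      have h2 : mkN P ⟨x, hx⟩ = 1 := by
        simp only [mkN, QuotientGroup.mk'_apply]
        rw [QuotientGroup.eq_one_iff, Subgroup.mem_subgroupOf]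
        exact h
      rw [h2, one_pow]
  · intro g
    have hp : IsPGroup 2 ((P : Subgroup X) ⧸ (commN P).subgroupOf (P : Subgroup X)) :=
      isPGroup_quotient P
    have hc : Nat.Coprime (Nat.card ((P : Subgroup X) ⧸ (commN P).subgroupOf (P : Subgroup X)))
        (P : Subgroup X).index := by
      have h2 : ¬ 2 ∣ (P : Subgroup X).index := P.not_dvd_index
      obtain ⟨k, hk⟩ := hp.exists_card_eq
      rw [hk]
      apply Nat.Coprime.pow_left
      exact (Nat.prime_two.coprime_iff_not_dvd).2 h2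
    obtain ⟨q, hq⟩ := (powCoprime hc).surjective (transferN P g)
    obtain ⟨p, rfl⟩ := QuotientGroup.mk'_surjective _ q
    refine ⟨p.1, p.2, ?_⟩
    rw [MonoidHom.mem_ker, map_mul, map_inv]
    have h1 := transferN_apply P p
    rw [h1]
    rw [mul_inv_eq_one]
    exact hq.symm

/-- A proper inclusion into a `p`-subgroup: a new element normalizes. -/
theorem exists_normalizer_step {X : Type*} [Group X] [Finite X] {p : ℕ} [Fact p.Prime]
    (A B : Subgroup X) (hB : IsPGroup p B) (hAB : A < B) :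
    ∃ x ∈ B, x ∉ A ∧ ∀ a ∈ A, x * a * x⁻¹ ∈ A := by
  have hnil : Group.IsNilpotent B := hB.isNilpotent
  have hlt : A.subgroupOf B < ⊤ := by
    rw [lt_top_iff_ne_top]
    intro h
    apply absurd hAB.2
    rw [not_not]
    rwa [Subgroup.subgroupOf_eq_top] at h
  have h1 := Group.normalizerCondition_of_isNilpotent _ hlt
  obtain ⟨x, hx, hx'⟩ := SetLike.exists_of_lt h1
  refine ⟨x.1, x.2, fun h => hx' (Subgroup.mem_subgroupOf.2 h), ?_⟩
  intro a ha
  have h3 := (Subgroup.mem_normalizer_iff.1 hx ⟨a, hAB.1 ha⟩).1 (Subgroup.mem_subgroupOf.2 ha)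
  exact Subgroup.mem_subgroupOf.1 h3

variable {G : Type*} [Group G]

namespace Setup

variable {S : Setup G}

namespace Frame

/-- The element `l` of order `3` of `T`, cycling `U`, with a fixed `t₂ ∈ E \ U` of `l`. -/
structure EllD (F : Frame S) where
  l : G
  cube : l * l * l = 1
  lt : l * F.t = F.t * l
  lz : l * S.z * l⁻¹ = S.a 4
  la : l * S.a 4 * l⁻¹ = S.z * S.a 4

variable {F : Frame S}

namespace EllD

variable (L : F.EllD)

theorem lza : L.l * (S.z * S.a 4) * L.l⁻¹ = S.z := by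
  have : L.l * (S.z * S.a 4) * L.l⁻¹ = (L.l * S.z * L.l⁻¹) * (L.l * S.a 4 * L.l⁻¹) := by group
  rw [this, L.lz, L.la, ← mul_assoc, ← z_a4, mul_assoc, S.cl.a_sq, mul_one]

theorem inv_a : L.l⁻¹ * S.a 4 * L.l = S.z := by
  rw [← L.lz]; group

theorem inv_za : L.l⁻¹ * (S.z * S.a 4) * L.l = S.a 4 := by
  rw [← L.la]; group

theorem inv_z : L.l⁻¹ * S.z * L.l = S.z * S.a 4 := by
  nth_rewrite 1 [← L.lza]; group

theorem conj_U {u : G} (hu : u ∈ S.U) : L.l * u * L.l⁻¹ ∈ S.U := by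
  rcases hu with rfl | rfl | rfl | rfl
  · simp [one_mem]
  · rw [L.lz]; exact Or.inr (Or.inr (Or.inl rfl))
  · rw [L.la]; exact Or.inr (Or.inr (Or.inr rfl))
  · rw [L.lza]; exact Or.inr (Or.inl rfl)

theorem inv_conj_U {u : G} (hu : u ∈ S.U) : L.l⁻¹ * u * L.l ∈ S.U := by
  rcases hu with rfl | rfl | rfl | rfl
  · simp [one_mem]
  · rw [L.inv_z]; exact Or.inr (Or.inr (Or.inr rfl))
  · rw [L.inv_a]; exact Or.inr (Or.inl rfl)
  · rw [L.inv_za]; exact Or.inr (Or.inr (Or.inl rfl))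

theorem lt_inv : L.l⁻¹ * F.t = F.t * L.l⁻¹ :=
  (show Commute L.l F.t from L.lt).inv_left

theorem inv_conj_E {x : G} (hx : x ∈ F.E) : L.l⁻¹ * x * L.l ∈ F.E := by
  obtain ⟨hz, ht⟩ := F.mem_E.1 hx
  have h4 := F.a4_comm_of_E hx
  refine F.mem_E.2 ⟨?_, ?_⟩
  · rw [← L.inv_a]
    calc L.l⁻¹ * x * L.l * (L.l⁻¹ * S.a 4 * L.l) = L.l⁻¹ * (x * S.a 4) * L.l := by group
      _ = L.l⁻¹ * (S.a 4 * x) * L.l := by rw [h4]
      _ = _ := by group
  · have := conj_comm (g := L.l⁻¹) (x := x) (w := F.t) L.lt_inv ht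
    simpa using this

theorem mem_NE [Finite G] : L.l ∈ normalizer (F.E : Set G) := by
  have h : L.l⁻¹ ∈ normalizer (F.E : Set G) := by
    apply mem_normalizer_of_maps
    intro x hx
    simpa using L.inv_conj_E hx
  simpa using h

theorem conj_E [Finite G] {x : G} (hx : x ∈ F.E) : L.l * x * L.l⁻¹ ∈ F.E :=
  (mem_normalizer_iff.1 L.mem_NE x).1 hx

theorem conj_t : L.l * F.t * L.l⁻¹ = F.t := by
  rw [L.lt]; group

/-- `l` fixes the coset `t₁ U`. -/
theorem t₁_coset [Finite G] : ∃ u ∈ S.U, L.l * F.t₁ * L.l⁻¹ = u * F.t₁ := by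
  obtain ⟨u, hu, h⟩ := F.E_form (L.conj_E F.t₁_mem_E)
  rcases h with h | h | h | h
  · exfalso
    apply F.t₁_not_Q
    have : F.t₁ = L.l⁻¹ * u * L.l := by rw [← h]; group
    rw [this]
    exact U_le_Q (L.inv_conj_U hu)
  · exfalso
    apply F.tt₁_not_Q
    have h1 : F.t₁ * F.t = L.l⁻¹ * u * L.l := by
      have h2 : L.l⁻¹ * (L.l * F.t₁ * L.l⁻¹) * L.l = L.l⁻¹ * (u * F.t) * L.l := by rw [h]
      have h3 : L.l⁻¹ * (u * F.t) * L.l = (L.l⁻¹ * u * L.l) * F.t := by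
        calc L.l⁻¹ * (u * F.t) * L.l = L.l⁻¹ * u * (F.t * L.l) := by group
          _ = L.l⁻¹ * u * (L.l * F.t) := by rw [L.lt]
          _ = _ := by group
      rw [h3] at h2
      have h4 : L.l⁻¹ * (L.l * F.t₁ * L.l⁻¹) * L.l = F.t₁ := by group
      rw [h4] at h2
      rw [h2, mul_assoc, F.t_sq, mul_one]
    rw [F.t_t₁, h1]
    exact U_le_Q (L.inv_conj_U hu)
  · exact ⟨u, hu, h⟩
  · exfalso
    apply F.t_not_Q
    have h1 : L.l * (L.l * F.t₁ * L.l⁻¹) * L.l⁻¹ = (L.l * u * L.l⁻¹) * u * F.t₁ := by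
      rw [h]
      have e : L.l * (u * (F.t * F.t₁)) * L.l⁻¹ =
          (L.l * u * L.l⁻¹) * (L.l * F.t * L.l⁻¹) * (L.l * F.t₁ * L.l⁻¹) := by group
      rw [e, L.conj_t, h]
      have hu' := L.conj_U hu
      have e2 : F.t * (u * (F.t * F.t₁)) = u * F.t₁ := by
        have := (comm_U_of F.t_z F.t_a4 hu)
        rw [← mul_assoc, this, mul_assoc, ← mul_assoc F.t, F.t_sq, one_mul]
      rw [mul_assoc (L.l * u * L.l⁻¹) F.t, e2, mul_assoc (L.l * u * L.l⁻¹) u]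
    have h2 : L.l * (L.l * (L.l * F.t₁ * L.l⁻¹) * L.l⁻¹) * L.l⁻¹ =
        (L.l * (L.l * u * L.l⁻¹) * L.l⁻¹) * (L.l * u * L.l⁻¹) * (u * (F.t * F.t₁)) := by
      rw [h1]
      have e : L.l * (L.l * u * L.l⁻¹ * u * F.t₁) * L.l⁻¹ =
          (L.l * (L.l * u * L.l⁻¹) * L.l⁻¹) * (L.l * u * L.l⁻¹) * (L.l * F.t₁ * L.l⁻¹) := by group
      rw [e, h]
    have h3 : L.l * (L.l * (L.l * F.t₁ * L.l⁻¹) * L.l⁻¹) * L.l⁻¹ = F.t₁ := by
      have e : L.l * (L.l * (L.l * F.t₁ * L.l⁻¹) * L.l⁻¹) * L.l⁻¹ =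
          (L.l * L.l * L.l) * F.t₁ * (L.l * L.l * L.l)⁻¹ := by group
      rw [e, L.cube]; simp
    rw [h3] at h2
    set r := (L.l * (L.l * u * L.l⁻¹) * L.l⁻¹) * (L.l * u * L.l⁻¹) * u with hr
    have hr' : r ∈ S.U := mul_mem (mul_mem (L.conj_U (L.conj_U hu)) (L.conj_U hu)) hu
    have h4 : F.t₁ = r * F.t * F.t₁ := by
      calc F.t₁ = _ := h2
        _ = r * F.t * F.t₁ := by rw [hr]; simp only [mul_assoc]
    have h5 : r * F.t = 1 := by
      have := mul_eq_right.mp h4.symm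
      exact this
    have h6 : F.t = r⁻¹ := eq_inv_of_mul_eq_one_right h5
    rw [h6]
    exact U_le_Q (inv_mem hr')

/-- Solving the coboundary equation on `U`. -/
theorem exists_cob {u : G} (hu : u ∈ S.U) : ∃ u' ∈ S.U, u * (L.l * u' * L.l⁻¹) = u' := by
  rcases hu with rfl | rfl | rfl | rfl
  · exact ⟨1, one_mem _, by simp⟩
  · refine ⟨S.a 4, Or.inr (Or.inr (Or.inl rfl)), ?_⟩
    rw [L.la, ← mul_assoc, S.cl.z_sq, one_mul]
  · refine ⟨S.z * S.a 4, Or.inr (Or.inr (Or.inr rfl)), ?_⟩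
    rw [L.lza, (S.cl.a_z 4)]
  · refine ⟨S.z, Or.inr (Or.inl rfl), ?_⟩
    rw [L.lz, mul_assoc, S.cl.a_sq, mul_one]

theorem inv_eq_of_U {u : G} (hu : u ∈ S.U) : u⁻¹ = u := inv_eq_of_mul_eq_one_left (U_sq hu)

/-- The power of `l`. -/
theorem pow_three_mul (n : ℕ) : L.l ^ (3 * n) = 1 := by
  have : L.l ^ 3 = 1 := by rw [pow_succ, pow_two, L.cube]
  rw [pow_mul, this, one_pow]

theorem comm_z_pow {i : ℕ} (h : L.l ^ i * S.z = S.z * L.l ^ i) : 3 ∣ i := by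
  have h3 : L.l ^ 3 = 1 := by rw [pow_succ, pow_two, L.cube]
  have e : L.l ^ i = L.l ^ (i % 3) := by
    conv_lhs => rw [← Nat.div_add_mod i 3, pow_add, L.pow_three_mul, one_mul]
  have hlt : i % 3 < 3 := Nat.mod_lt _ (by norm_num)
  rw [e] at h
  have h1 : L.l * S.z ≠ S.z * L.l := by
    intro hh
    have := L.lz
    rw [hh, mul_inv_cancel_right] at this
    exact a4_ne_z this
  have h2 : L.l * L.l * S.z ≠ S.z * (L.l * L.l) := by
    intro hh
    have h4 := L.lza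
    have e2 : L.l * (L.l * S.z * L.l⁻¹) * L.l⁻¹ = S.z := by
      calc L.l * (L.l * S.z * L.l⁻¹) * L.l⁻¹ = (L.l * L.l * S.z) * (L.l * L.l)⁻¹ := by group
        _ = S.z := by rw [hh]; group
    rw [L.lz, L.la] at e2
    have : S.a 4 = 1 := by simpa [S.cl.z_sq] using (mul_eq_left.mp e2)
    exact a4_ne_one this
  interval_cases h5 : i % 3
  · exact Nat.dvd_of_mod_eq_zero h5
  · exfalso; apply h1; simpa using h
  · exfalso; apply h2; simpa [pow_two] using h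

/-- `n ∈ T` normalizing `E` lies in `l^j E`. -/
theorem mem_NT [Finite G] (hJ : ¬ IsConj F.t S.z) {n : G} (hnT : n * F.t = F.t * n)
    (hnE : ∀ x ∈ F.E, n * x * n⁻¹ ∈ F.E) : ∃ j : ℕ, ∃ e ∈ F.E, n = L.l ^ j * e := by
  have hzE : S.z ∈ F.E := F.U_le_E (Or.inr (Or.inl rfl))
  have h1 := hnE _ hzE
  have h2 : n * S.z * n⁻¹ ∈ S.U := by
    by_contra hU
    have h3 := F.isInv_of_E h1 hU
    obtain ⟨c, -, hc⟩ := (IsInv.of_IsT F.ht).conj_of h3
    apply hJ
    have h4 : IsConj F.t (n * S.z * n⁻¹) := isConj_iff.2 ⟨c, hc⟩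
    exact h4.trans (isConj_iff.2 ⟨n⁻¹, by group⟩)
  have key : ∀ j : ℕ, L.l ^ j * S.z * (L.l ^ j)⁻¹ = n * S.z * n⁻¹ →
      ∃ j : ℕ, ∃ e ∈ F.E, n = L.l ^ j * e := by
    intro j hj
    refine ⟨j, (L.l ^ j)⁻¹ * n, F.mem_E.2 ⟨?_, ?_⟩, by group⟩
    · have : n * S.z = L.l ^ j * S.z * (L.l ^ j)⁻¹ * n := by rw [hj]; group
      calc (L.l ^ j)⁻¹ * n * S.z = (L.l ^ j)⁻¹ * (n * S.z) := by group
        _ = (L.l ^ j)⁻¹ * (L.l ^ j * S.z * (L.l ^ j)⁻¹ * n) := by rw [this]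
        _ = _ := by group
    · have hj' : (L.l ^ j)⁻¹ * F.t = F.t * (L.l ^ j)⁻¹ :=
        (((show Commute L.l F.t from L.lt).pow_left j).inv_left)
      rw [mul_assoc, hnT, ← mul_assoc, hj', mul_assoc]
  rcases h2 with h2 | h2 | h2 | h2
  · exfalso
    have : n * S.z = n := by
      have : n * S.z * n⁻¹ * n = n := by rw [h2, one_mul]
      simpa using this
    exact S.cl.z_ne (by simpa using this)
  · exact key 0 (by simp [h2])
  · exact key 1 (by simp [h2, L.lz])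
  · refine key 2 ?_
    rw [h2, pow_two]
    have := L.lz
    calc L.l * L.l * S.z * (L.l * L.l)⁻¹ = L.l * (L.l * S.z * L.l⁻¹) * L.l⁻¹ := by group
      _ = _ := by rw [L.lz, L.la]

include L in
/-- A `2`-element of `T` normalizing `E` lies in `E`. -/
theorem mem_E_of_two_power [Finite G] (hJ : ¬ IsConj F.t S.z) {g : G} (hgT : g * F.t = F.t * g)
    (hgE : ∀ x ∈ F.E, g * x * g⁻¹ ∈ F.E) (k : ℕ) (hg : g ^ (2 ^ k) = 1) : g ∈ F.E := by
  obtain ⟨j, e, he, rfl⟩ := L.mem_NT hJ hgT hgE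
  have hN : L.l ^ j ∈ normalizer (F.E : Set G) := pow_mem L.mem_NE j
  have hpow : ∀ m : ℕ, ∃ e' ∈ F.E, (L.l ^ j * e) ^ m = L.l ^ (j * m) * e' := by
    intro m
    induction m with
    | zero => exact ⟨1, one_mem _, by simp⟩
    | succ m ih =>
      obtain ⟨e', he', h⟩ := ih
      refine ⟨(L.l ^ j)⁻¹ * e' * (L.l ^ j) * e, ?_, ?_⟩
      · refine mul_mem ?_ he
        have := (mem_normalizer_iff.1 (inv_mem hN) e').1 he'
        simpa using this
      · rw [pow_succ, h, Nat.mul_succ, pow_add]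
        group
  obtain ⟨e', he', h⟩ := hpow (2 ^ k)
  rw [hg] at h
  have h1 : L.l ^ (j * 2 ^ k) = e'⁻¹ := eq_inv_of_mul_eq_one_left h.symm
  have h2 : L.l ^ (j * 2 ^ k) * S.z = S.z * L.l ^ (j * 2 ^ k) := by
    rw [h1]
    exact (F.mem_E.1 (inv_mem he')).1
  have h3 := L.comm_z_pow h2
  have h4 : 3 ∣ j := by
    rcases (Nat.Prime.dvd_mul Nat.prime_three).1 h3 with h | h
    · exact h
    · exfalso
      have := Nat.Prime.dvd_of_dvd_pow Nat.prime_three h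
      omega
  obtain ⟨q, rfl⟩ := h4
  rw [L.pow_three_mul, one_mul]
  exact he

end EllD

variable (F) in
/-- The centralizer of `t`. -/
abbrev T : Subgroup G := centralizer ({F.t} : Set G)

theorem mem_T {x : G} : x ∈ F.T ↔ x * F.t = F.t * x := mem_centralizer_singleton_iff

theorem E_le_T : F.E ≤ F.T := fun _ hx => mem_T.2 (F.mem_E.1 hx).2

theorem isPGroup_E' [Finite G] : IsPGroup 2 (F.E.subgroupOf F.T) := by
  apply IsPGroup.of_card (n := 4)
  rw [Nat.card_congr (Subgroup.subgroupOfEquivOfLe E_le_T).toEquiv, F.card_E]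
  norm_num

namespace EllD

variable (L : F.EllD)

/-- `E` as a Sylow subgroup of `T`. -/
def Esyl (L : F.EllD) [Finite G] (hJ : ¬ IsConj F.t S.z) : Sylow 2 F.T where
  toSubgroup := F.E.subgroupOf F.T
  isPGroup' := isPGroup_E'
  is_maximal' := by
    intro R hR hle
    by_contra hne
    have hlt : F.E.subgroupOf F.T < R := lt_of_le_of_ne hle (Ne.symm hne)
    obtain ⟨x, hx, hx1, hx2⟩ := exists_normalizer_step _ R hR hlt
    apply hx1
    obtain ⟨k, hk⟩ := hR ⟨x, hx⟩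
    have hk' : x ^ 2 ^ k = 1 := by
      have := congrArg Subtype.val hk
      simpa using this
    have hk'' : (x : G) ^ 2 ^ k = 1 := by
      have := congrArg Subtype.val hk'
      simpa using this
    apply Subgroup.mem_subgroupOf.2
    refine L.mem_E_of_two_power hJ (mem_T.1 x.2) ?_ k hk''
    intro w hw
    have := hx2 ⟨w, E_le_T hw⟩ (Subgroup.mem_subgroupOf.2 hw)
    have h2 := Subgroup.mem_subgroupOf.1 this
    simpa using h2

theorem coe_Esyl (L : F.EllD) [Finite G] (hJ : ¬ IsConj F.t S.z) :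
    ((L.Esyl hJ : Sylow 2 F.T) : Subgroup F.T) = F.E.subgroupOf F.T := rfl

instance (L : F.EllD) [Finite G] (hJ : ¬ IsConj F.t S.z) : IsMulCommutative ((L.Esyl hJ : Sylow 2 F.T) : Subgroup F.T) := by
  rw [coe_Esyl]
  refine ⟨⟨fun a b => ?_⟩⟩
  apply Subtype.ext
  apply Subtype.ext
  exact F.E_comm (Subgroup.mem_subgroupOf.1 a.2) (Subgroup.mem_subgroupOf.1 b.2)

end EllD

/-- The element `t₂`: fixed by `l`, in the coset `t₁ U`. -/
structure VD (L : F.EllD) where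
  t₂ : G
  mem : t₂ ∈ F.E
  lt₂ : L.l * t₂ = t₂ * L.l
  u' : G
  hu' : u' ∈ S.U
  eq : t₂ = F.t₁ * u'

namespace EllD

theorem exists_VD [Finite G] (L : F.EllD) : Nonempty (VD L) := by
  obtain ⟨u, hu, h⟩ := L.t₁_coset
  obtain ⟨u', hu', h'⟩ := L.exists_cob hu
  have hm : F.t₁ * u' ∈ F.E := mul_mem F.t₁_mem_E (F.U_le_E hu')
  refine ⟨⟨F.t₁ * u', hm, ?_, u', hu', rfl⟩⟩
  rw [← mul_inv_eq_iff_eq_mul]
  have e : L.l * (F.t₁ * u') * L.l⁻¹ = (L.l * F.t₁ * L.l⁻¹) * (L.l * u' * L.l⁻¹) := by group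
  rw [e, h]
  have h1 : F.E_comm (F.U_le_E hu) F.t₁_mem_E = F.E_comm (F.U_le_E hu) F.t₁_mem_E := rfl
  rw [F.E_comm (F.U_le_E hu) F.t₁_mem_E, mul_assoc, h']

end EllD

namespace VD

variable {L : F.EllD} (V : VD L)

theorem t₂_not_U : V.t₂ ∉ S.U := by
  intro h
  apply F.t₁_not_Q
  have : F.t₁ = V.t₂ * V.u'⁻¹ := by rw [V.eq]; group
  rw [this]
  exact U_le_Q (mul_mem h (inv_mem V.hu'))

theorem tt₂_not_U : F.t * V.t₂ ∉ S.U := by
  intro h
  apply F.tt₁_not_Q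
  have : F.t * F.t₁ = F.t * V.t₂ * V.u'⁻¹ := by rw [V.eq]; group
  rw [this]
  exact U_le_Q (mul_mem h (inv_mem V.hu'))

theorem t_not_U : F.t ∉ S.U := fun h => F.t_not_Q (U_le_Q h)

theorem t₂_sq : V.t₂ * V.t₂ = 1 := F.E_sq V.mem

theorem t_t₂ : F.t * V.t₂ = V.t₂ * F.t := F.E_comm F.t_mem_E V.mem

theorem t₂_ne_one : V.t₂ ≠ 1 := fun h => V.t₂_not_U (h ▸ one_mem _)

theorem t_ne_t₂ : F.t ≠ V.t₂ := by
  intro h
  apply V.tt₂_not_U
  rw [← h, F.t_sq]
  exact one_mem _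

/-- The subgroup `V`. -/
def VV : Subgroup G := four F.t V.t₂ F.t_sq V.t₂_sq V.t_t₂

theorem mem_VV {x : G} : x ∈ V.VV ↔ x = 1 ∨ x = F.t ∨ x = V.t₂ ∨ x = F.t * V.t₂ := Iff.rfl

theorem card_VV : Nat.card V.VV = 4 :=
  card_four _ _ _ F.t_ne_one V.t₂_ne_one V.t_ne_t₂

theorem VV_le_E : V.VV ≤ F.E := by
  rintro x (rfl | rfl | rfl | rfl)
  · exact one_mem _
  · exact F.t_mem_E
  · exact V.mem
  · exact mul_mem F.t_mem_E V.mem

theorem VV_sq {x : G} (hx : x ∈ V.VV) : x * x = 1 := F.E_sq (V.VV_le_E hx)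

theorem not_U_of_VV {x : G} (hx : x ∈ V.VV) (h1 : x ≠ 1) : x ∉ S.U := by
  rcases hx with h | h | h | h
  · exact absurd h h1
  · rw [h]; exact t_not_U
  · rw [h]; exact V.t₂_not_U
  · rw [h]; exact V.tt₂_not_U

/-- `E = U V`. -/
theorem E_form' {x : G} (hx : x ∈ F.E) : ∃ u ∈ S.U, ∃ v ∈ V.VV, x = u * v := by
  have h1 : F.t₁ = V.u' * V.t₂ := by
    rw [V.eq, ← mul_assoc, F.E_comm (F.U_le_E V.hu') F.t₁_mem_E, mul_assoc, U_sq V.hu', mul_one]
  obtain ⟨u, hu, h⟩ := F.E_form hx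
  rcases h with h | h | h | h
  · exact ⟨u, hu, 1, Or.inl rfl, by simp [h]⟩
  · exact ⟨u, hu, F.t, Or.inr (Or.inl rfl), h⟩
  · exact ⟨u * V.u', mul_mem hu V.hu', V.t₂, Or.inr (Or.inr (Or.inl rfl)), by rw [h, h1, mul_assoc]⟩
  · refine ⟨u * V.u', mul_mem hu V.hu', F.t * V.t₂, Or.inr (Or.inr (Or.inr rfl)), ?_⟩
    rw [h, h1, ← mul_assoc F.t, ← F.E_comm (F.U_le_E V.hu') F.t_mem_E]
    simp only [mul_assoc]

theorem l_VV {x : G} (hx : x ∈ V.VV) : L.l * x = x * L.l := by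
  rcases hx with rfl | rfl | rfl | rfl
  · simp
  · exact L.lt
  · exact V.lt₂
  · rw [← mul_assoc, L.lt, mul_assoc, V.lt₂, mul_assoc]

include V in
/-- `l` acts trivially on `E / U`. -/
theorem comm_l_mem_U [Finite G] {e : G} (he : e ∈ F.E) : L.l * e * L.l⁻¹ * e⁻¹ ∈ S.U := by
  obtain ⟨u, hu, v, hv, rfl⟩ := V.E_form' he
  have h1 : L.l * (u * v) * L.l⁻¹ = (L.l * u * L.l⁻¹) * v := by
    have h2 : L.l * (u * v) * L.l⁻¹ = (L.l * u * L.l⁻¹) * (L.l * v * L.l⁻¹) := by group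
    rw [h2, V.l_VV hv]
    group
  rw [h1, mul_inv_rev]
  have : L.l * u * L.l⁻¹ * v * (v⁻¹ * u⁻¹) = L.l * u * L.l⁻¹ * u⁻¹ := by group
  rw [this]
  exact mul_mem (L.conj_U hu) (inv_mem hu)

include V in
theorem comm_l_pow_mem_U [Finite G] (j : ℕ) {e : G} (he : e ∈ F.E) :
    L.l ^ j * e * (L.l ^ j)⁻¹ * e⁻¹ ∈ S.U := by
  induction j with
  | zero => simp [one_mem]
  | succ j ih =>
    have h1 : L.l ^ (j + 1) * e * (L.l ^ (j + 1))⁻¹ * e⁻¹ =
        L.l * (L.l ^ j * e * (L.l ^ j)⁻¹ * e⁻¹) * L.l⁻¹ * (L.l * e * L.l⁻¹ * e⁻¹) := by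
      rw [pow_succ']; group
    rw [h1]
    exact mul_mem (L.conj_U ih) (V.comm_l_mem_U he)

include V in
/-- The commutator in the normalizer of `E` in `T` lies in `U`. -/
theorem comm_mem_U [Finite G] (hJ : ¬ IsConj F.t S.z) {e n : G} (he : e ∈ F.E)
    (hnT : n * F.t = F.t * n) (hnE : ∀ x ∈ F.E, n * x * n⁻¹ ∈ F.E) : e * n * e⁻¹ * n⁻¹ ∈ S.U := by
  obtain ⟨j, e', he', rfl⟩ := L.mem_NT hJ hnT hnE
  have hN : L.l ^ j * e * (L.l ^ j)⁻¹ ∈ F.E :=
    (mem_normalizer_iff.1 (pow_mem L.mem_NE j) e).1 he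
  have h1 := V.comm_l_pow_mem_U j he
  have h2 : e * (L.l ^ j * e') * e⁻¹ * (L.l ^ j * e')⁻¹ = e * (L.l ^ j * e⁻¹ * (L.l ^ j)⁻¹) := by
    have : e' * e⁻¹ * e'⁻¹ = e⁻¹ := by
      rw [F.E_comm he' (inv_mem he)]; group
    calc e * (L.l ^ j * e') * e⁻¹ * (L.l ^ j * e')⁻¹
        = e * (L.l ^ j * (e' * e⁻¹ * e'⁻¹) * (L.l ^ j)⁻¹) := by group
      _ = _ := by rw [this]
  rw [h2]
  have h3 : e⁻¹ = e := inv_eq_of_mul_eq_one_left (F.E_sq he)
  rw [h3, F.E_comm he hN]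
  rw [h3] at h1
  exact h1

include V in
/-- The transfer: a normal subgroup `T1` of `T` with `T1 ∩ E = U`, `T = T1 E`. -/
theorem exists_T1 [Finite G] (hJ : ¬ IsConj F.t S.z) : ∃ T1 : Subgroup G, T1 ≤ F.T ∧
    (∀ c ∈ F.T, ∀ x ∈ T1, c * x * c⁻¹ ∈ T1) ∧ (∀ x ∈ F.E, x ∈ T1 ↔ x ∈ S.U) ∧
    ∀ g ∈ F.T, ∃ p ∈ F.E, g * p⁻¹ ∈ T1 := by
  classical
  obtain ⟨K, hK, h1, h2⟩ := focal_complement (L.Esyl hJ)
  open Cfsg.Agent.Lib.Transfer.AbelianSylow in
  have hcomm : ∀ x (hx : x ∈ F.E), ((⟨x, E_le_T hx⟩ : F.T) ∈ commN (L.Esyl hJ) ↔ x ∈ S.U) := by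
    intro x hx
    constructor
    · intro hm
      have hle : commN (L.Esyl hJ) ≤ S.U.subgroupOf F.T := by
        rw [commN, Subgroup.commutator_le]
        intro e he n hn
        rw [Subgroup.mem_subgroupOf]
        have he' : (e : G) ∈ F.E := Subgroup.mem_subgroupOf.1 he
        have hn1 : ∀ w ∈ F.E, (n : G) * w * (n : G)⁻¹ ∈ F.E := by
          intro w hw
          have := (mem_normalizer_iff.1 hn ⟨w, E_le_T hw⟩).1 (Subgroup.mem_subgroupOf.2 hw)
          simpa using Subgroup.mem_subgroupOf.1 this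
        have := V.comm_mem_U hJ he' (mem_T.1 n.2) hn1
        simpa [commutatorElement_def] using this
      exact Subgroup.mem_subgroupOf.1 (hle hm)
    · intro hU
      have hlT : L.l ∈ F.T := mem_T.2 L.lt
      have hlN : (⟨L.l, hlT⟩ : F.T) ∈ normalizer (((L.Esyl hJ : Sylow 2 F.T) : Subgroup F.T) : Set F.T) := by
        rw [mem_normalizer_iff]
        intro w
        constructor
        · intro hw
          apply Subgroup.mem_subgroupOf.2
          exact L.conj_E (Subgroup.mem_subgroupOf.1 hw)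
        · intro hw
          apply Subgroup.mem_subgroupOf.2
          have h3 := L.inv_conj_E (Subgroup.mem_subgroupOf.1 hw)
          simpa [mul_assoc] using h3
      have hmE : ∀ u (hu : u ∈ S.U), (⟨u, E_le_T (F.U_le_E hu)⟩ : F.T) ∈
          ((L.Esyl hJ : Sylow 2 F.T) : Subgroup F.T) :=
        fun u hu => Subgroup.mem_subgroupOf.2 (F.U_le_E hu)
      have hz' : (⟨S.z, E_le_T (F.U_le_E (Or.inr (Or.inl rfl)))⟩ : F.T) ∈
          commN (L.Esyl hJ) := by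
        have h3 := Subgroup.commutator_mem_commutator (hmE (S.a 4) (Or.inr (Or.inr (Or.inl rfl)))) hlN
        convert h3 using 1
        apply Subtype.ext
        simp only [commutatorElement_def, Subgroup.coe_mul, Subgroup.coe_inv]
        have e1 : (S.a 4)⁻¹ = S.a 4 := S.cl.a_inv 4
        have e2 : S.a 4 * L.l * (S.a 4)⁻¹ * L.l⁻¹ = S.a 4 * (L.l * S.a 4 * L.l⁻¹) := by
          rw [e1]; group
        rw [e2, L.la, ← mul_assoc, ← z_a4, mul_assoc, S.cl.a_sq, mul_one]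
      have hza' : (⟨S.z * S.a 4, E_le_T (F.U_le_E (Or.inr (Or.inr (Or.inr rfl))))⟩ : F.T) ∈
          commN (L.Esyl hJ) := by
        have h3 := Subgroup.commutator_mem_commutator (hmE S.z (Or.inr (Or.inl rfl))) hlN
        convert h3 using 1
        apply Subtype.ext
        simp only [commutatorElement_def, Subgroup.coe_mul, Subgroup.coe_inv]
        have e1 : (S.z)⁻¹ = S.z := S.cl.z_inv
        have e2 : S.z * L.l * (S.z)⁻¹ * L.l⁻¹ = S.z * (L.l * S.z * L.l⁻¹) := by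
          rw [e1]; group
        rw [e2, L.lz]
      rcases hU with rfl | rfl | rfl | rfl
      · exact one_mem _
      · exact hz'
      · have := mul_mem hz' hza'
        convert this using 1
        apply Subtype.ext
        simp only [Subgroup.coe_mul]
        rw [← mul_assoc, S.cl.z_sq, one_mul]
      · exact hza'
  refine ⟨K.map F.T.subtype, map_subtype_le _, ?_, ?_, ?_⟩
  · rintro c hc _ ⟨x, hx, rfl⟩
    exact ⟨⟨c, hc⟩ * x * (⟨c, hc⟩ : F.T)⁻¹, hK.conj_mem x hx ⟨c, hc⟩, by simp⟩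
  · intro x hx
    constructor
    · rintro ⟨y, hy, rfl⟩
      have hy' : (y : G) ∈ F.E := hx
      apply (hcomm y hy').1
      convert (h1 y (Subgroup.mem_subgroupOf.2 hy')).1 hy
    · intro hU
      refine ⟨⟨x, E_le_T hx⟩, ?_, rfl⟩
      exact (h1 _ (Subgroup.mem_subgroupOf.2 hx)).2 ((hcomm x hx).2 hU)
  · intro g hg
    obtain ⟨p, hp, hgp⟩ := h2 ⟨g, hg⟩
    refine ⟨p, Subgroup.mem_subgroupOf.1 hp, ⟨_, hgp, by simp⟩⟩

end VD

end Frame

end Setup

end Cfsg.Agent.Lib.HallJanko
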