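import Cfsg.Agent.Lib.HallJanko.OrderFormula
import Cfsg.Agent.Lib.PSL2.CosetIso
import Mathlib

/-!
# Groups with a self-centralizing four-group with an automorphism of order 3

If `C(z) = {1, z, a, za}` is a four-group and `l` of order dividing 3 permutes `z, a, za`
cyclically, then `|H| = 12` or `H ≃ A₅`.
-/

set_option autoImplicit false

namespace Cfsg.Agent.Lib.HallJanko.V4

open Subgroup

variable {H : Type*} [Group H]

/-- Two involutions whose product has odd order are conjugate by an involution conjugate to them. -/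
theorem exists_swap [Finite H] (x y : H) (hx : x * x = 1) (hy : y * y = 1)
    (hodd : Odd (orderOf (x * y))) :
    ∃ w : H, w * w = 1 ∧ w * x * w⁻¹ = y ∧ IsConj x w := by
  obtain ⟨k, hk⟩ := hodd
  set d := x * y with hd
  have hx' : x⁻¹ = x := inv_eq_of_mul_eq_one_left hx
  have hy' : y⁻¹ = y := inv_eq_of_mul_eq_one_left hy
  have hpow : d ^ (2 * k + 1) = 1 := by rw [← hk, pow_orderOf_eq_one]
  have hdinv : x * d * x⁻¹ = d⁻¹ := by
    rw [hd, mul_inv_rev, hx', hy', ← mul_assoc, hx, one_mul]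
  have h1 : ∀ n : ℕ, x * d ^ n * x = (d ^ n)⁻¹ := by
    intro n
    have := conj_pow (a := x) (b := d) (i := n)
    rw [hdinv, inv_pow, hx'] at this
    exact this.symm
  have h2 : ∀ n : ℕ, x * d ^ n = (d ^ n)⁻¹ * x := fun n => by
    rw [← h1 n, mul_assoc, hx, mul_one]
  have h3 : ∀ n : ℕ, d ^ n * x = x * (d ^ n)⁻¹ := fun n => by
    rw [← h1 n, ← mul_assoc, ← mul_assoc, hx, one_mul]
  have hww : d ^ k * x * (d ^ k * x) = 1 := by
    rw [mul_assoc, ← mul_assoc x, h2 k, mul_assoc, hx, mul_one, mul_inv_cancel]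
  have hwinv : (d ^ k * x)⁻¹ = d ^ k * x := inv_eq_of_mul_eq_one_left hww
  have hdk : d ^ (k + k) = d⁻¹ := by
    apply eq_inv_of_mul_eq_one_left
    rw [← pow_succ, show k + k + 1 = 2 * k + 1 by ring, hpow]
  refine ⟨d ^ k * x, hww, ?_, ?_⟩
  · rw [hwinv]
    calc d ^ k * x * x * (d ^ k * x) = d ^ k * (x * x) * (d ^ k * x) := by group
      _ = d ^ (k + k) * x := by rw [hx, mul_one, pow_add, mul_assoc]
      _ = y := by
        rw [hdk, hd, mul_inv_rev, hx', hy', mul_assoc, hx, mul_one]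
  · rw [isConj_iff]
    refine ⟨d ^ (k * (k + 1)), ?_⟩
    have e : d ^ (k * (k + 1)) * x * (d ^ (k * (k + 1)))⁻¹
        = d ^ (k * (k + 1)) * (d ^ (k * (k + 1)) * x) := by
      rw [mul_assoc, ← h3 (k * (k + 1))]
    rw [e, ← mul_assoc, ← pow_add]
    have e2 : k * (k + 1) + k * (k + 1) = (2 * k + 1) * k + k := by ring
    rw [e2, pow_add, pow_mul, hpow, one_pow, one_mul]

/-- The hypotheses. -/
structure Hyp (z a l : H) : Prop where
  hz : z * z = 1
  ha : a * a = 1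
  hza : z * a = a * z
  hz1 : z ≠ 1
  ha1 : a ≠ 1
  hne : z ≠ a
  hl : l * l * l = 1
  h1 : l * z * l⁻¹ = a
  h2 : l * a * l⁻¹ = z * a
  hC : ∀ x, x * z = z * x → x = 1 ∨ x = z ∨ x = a ∨ x = z * a

namespace Hyp

variable {z a l : H}

/-- The rewriting system. -/
theorem rs (h : Hyp z a l) : (z * z = 1) ∧ (a * a = 1) ∧ (a * z = z * a) ∧ (l * z = a * l) ∧
    (l * a = z * (a * l)) ∧ (l * (l * l) = 1) ∧
    ∀ x, z * (z * x) = x ∧ a * (a * x) = x ∧ a * (z * x) = z * (a * x) ∧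
      l * (z * x) = a * (l * x) ∧ l * (a * x) = z * (a * (l * x)) ∧ l * (l * (l * x)) = x := by
  have e1 : l * z = a * l := by
    have := h.h1
    rwa [mul_inv_eq_iff_eq_mul] at this
  have e2 : l * a = z * (a * l) := by
    have := h.h2
    rwa [mul_inv_eq_iff_eq_mul, mul_assoc] at this
  have e3 : l * (l * l) = 1 := by
    rw [← mul_assoc]
    exact h.hl
  refine ⟨h.hz, h.ha, h.hza.symm, e1, e2, e3, fun x => ⟨?_, ?_, ?_, ?_, ?_, ?_⟩⟩
  · rw [← mul_assoc, h.hz, one_mul]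
  · rw [← mul_assoc, h.ha, one_mul]
  · rw [← mul_assoc, ← h.hza, mul_assoc]
  · rw [← mul_assoc, e1, mul_assoc]
  · rw [← mul_assoc, e2, mul_assoc, mul_assoc]
  · rw [← mul_assoc, ← mul_assoc, h.hl, one_mul]

theorem inv_l (h : Hyp z a l) : l⁻¹ = l * l := by
  apply inv_eq_of_mul_eq_one_left
  exact h.hl

theorem ll_inv (h : Hyp z a l) : (l * l)⁻¹ = l := by
  apply inv_eq_of_mul_eq_one_left
  rw [← mul_assoc]
  exact h.hl

/-- The four-group. -/
def U (h : Hyp z a l) : Subgroup H where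
  carrier := {x | x = 1 ∨ x = z ∨ x = a ∨ x = z * a}
  mul_mem' := by
    have rs := h.rs
    rintro x y (rfl | rfl | rfl | rfl) (rfl | rfl | rfl | rfl) <;>
      simp [mul_assoc, rs]
  one_mem' := Or.inl rfl
  inv_mem' := by
    have rs := h.rs
    have hzi : z⁻¹ = z := inv_eq_of_mul_eq_one_left h.hz
    have hai : a⁻¹ = a := inv_eq_of_mul_eq_one_left h.ha
    rintro x (rfl | rfl | rfl | rfl)
    · simp
    · simp [hzi]
    · simp [hai]
    · simp [hzi, hai, h.hza]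

theorem mem_U (h : Hyp z a l) {x : H} : x ∈ h.U ↔ x = 1 ∨ x = z ∨ x = a ∨ x = z * a := Iff.rfl

theorem U_sq (h : Hyp z a l) {u : H} (hu : u ∈ h.U) : u * u = 1 := by
  have rs := h.rs
  rcases hu with rfl | rfl | rfl | rfl <;> simp [mul_assoc, rs]

theorem U_inv (h : Hyp z a l) {u : H} (hu : u ∈ h.U) : u⁻¹ = u :=
  inv_eq_of_mul_eq_one_left (h.U_sq hu)

theorem U_comm (h : Hyp z a l) {u v : H} (hu : u ∈ h.U) (hv : v ∈ h.U) : u * v = v * u := by
  have rs := h.rs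
  rcases hu with rfl | rfl | rfl | rfl <;> rcases hv with rfl | rfl | rfl | rfl <;>
    simp [mul_assoc, rs]

theorem z_mem (h : Hyp z a l) : z ∈ h.U := Or.inr (Or.inl rfl)
theorem a_mem (h : Hyp z a l) : a ∈ h.U := Or.inr (Or.inr (Or.inl rfl))
theorem za_mem (h : Hyp z a l) : z * a ∈ h.U := Or.inr (Or.inr (Or.inr rfl))

/-- Its normalizer. -/
def N (h : Hyp z a l) : Subgroup H := Subgroup.normalizer (h.U : Set H)

theorem mem_N (h : Hyp z a l) {x : H} : x ∈ h.N ↔ ∀ y, y ∈ h.U ↔ x * y * x⁻¹ ∈ h.U :=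
  Subgroup.mem_normalizer_iff

theorem U_le_N (h : Hyp z a l) : h.U ≤ h.N := by
  intro u hu
  rw [mem_N]
  intro y
  constructor
  · intro hy
    exact h.U.mul_mem (h.U.mul_mem hu hy) (h.U.inv_mem hu)
  · intro hy
    have := h.U.mul_mem (h.U.mul_mem (h.U.inv_mem hu) hy) hu
    simpa [mul_assoc] using this

theorem l_mem_N (h : Hyp z a l) : l ∈ h.N := by
  have rs := h.rs
  rw [mem_N, h.inv_l]
  intro y
  constructor
  · rintro (rfl | rfl | rfl | rfl) <;> simp [mem_U, mul_assoc, rs]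
  · intro hy
    have e : y = (l * l) * (l * y * (l * l)) * l := by
      simp only [mul_assoc, rs, mul_one]
    rw [e]
    generalize l * y * (l * l) = m at hy
    rcases hy with rfl | rfl | rfl | rfl <;> simp [mem_U, mul_assoc, rs]

theorem ll_mem_N (h : Hyp z a l) : l * l ∈ h.N := h.N.mul_mem h.l_mem_N h.l_mem_N

theorem conj_mem_U (h : Hyp z a l) {c y : H} (hc : c ∈ h.N) (hy : y ∈ h.U) : c * y * c⁻¹ ∈ h.U :=
  (h.mem_N.mp hc y).mp hy

theorem of_conj_mem_U (h : Hyp z a l) {c y : H} (hc : c ∈ h.N) (hy : c * y * c⁻¹ ∈ h.U) :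
    y ∈ h.U :=
  (h.mem_N.mp hc y).mpr hy

/-- `C(u) = U` for `u ∈ U`, `u ≠ 1`. -/
theorem C1 (h : Hyp z a l) {u x : H} (hu : u ∈ h.U) (hu1 : u ≠ 1) (hx : x * u = u * x) :
    x ∈ h.U := by
  have key : ∀ c ∈ h.N, u = c * z * c⁻¹ → x ∈ h.U := by
    intro c hc e
    have h1 : (c⁻¹ * x * c) * z = z * (c⁻¹ * x * c) := by
      rw [e] at hx
      have := congrArg (fun t => c⁻¹ * t * c) hx
      simpa [mul_assoc] using this
    have h2 : c⁻¹ * x * c ∈ h.U := h.hC _ h1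
    have h3 : c⁻¹ * x * (c⁻¹)⁻¹ ∈ h.U := by simpa using h2
    exact h.of_conj_mem_U (h.N.inv_mem hc) h3
  rcases hu with rfl | rfl | rfl | rfl
  · exact absurd rfl hu1
  · exact key 1 h.N.one_mem (by simp)
  · exact key l h.l_mem_N h.h1.symm
  · refine key (l * l) h.ll_mem_N ?_
    have rs := h.rs
    rw [h.ll_inv]
    simp [mul_assoc, rs]

theorem l_ne_one (h : Hyp z a l) : l ≠ 1 := by
  rintro rfl
  have := h.h1
  simp at this
  exact h.hne this

theorem l_notMem_U (h : Hyp z a l) : l ∉ h.U := by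
  intro hl
  have h1 := h.U_comm hl h.z_mem
  have h2 := h.h1
  rw [h1] at h2
  simp at h2
  exact h.hne h2

theorem z_ne_one_of (h : Hyp z a l) : z ≠ 1 := h.hz1

/-- TI: an element conjugating a nonidentity element of `U` into `U` normalizes `U`. -/
theorem ti (h : Hyp z a l) {c y : H} (hcy : c * y * c⁻¹ ∈ h.U) (hy : y ∈ h.U) (hy1 : y ≠ 1) :
    c ∈ h.N := by
  rw [mem_N]
  have hu1 : c * y * c⁻¹ ≠ 1 := by
    intro e
    apply hy1
    have := congrArg (fun t => c⁻¹ * t * c) e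
    simpa [mul_assoc] using this
  intro v
  constructor
  · intro hv
    refine h.C1 hcy hu1 ?_
    have := h.U_comm hv hy
    calc c * v * c⁻¹ * (c * y * c⁻¹) = c * (v * y) * c⁻¹ := by group
      _ = c * (y * v) * c⁻¹ := by rw [this]
      _ = c * y * c⁻¹ * (c * v * c⁻¹) := by group
  · intro hv
    refine h.C1 hy hy1 ?_
    have := h.U_comm hv hcy
    have h2 : c * (v * y) * c⁻¹ = c * (y * v) * c⁻¹ := by
      calc c * (v * y) * c⁻¹ = c * v * c⁻¹ * (c * y * c⁻¹) := by group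
        _ = c * y * c⁻¹ * (c * v * c⁻¹) := this
        _ = c * (y * v) * c⁻¹ := by group
    exact mul_left_cancel (mul_right_cancel h2)

theorem N_aux (h : Hyp z a l) {x c : H} (hc : c ∈ h.N) (e : x * z * x⁻¹ = c * z * c⁻¹) :
    ∃ v ∈ h.U, x = v * c := by
  have h1 : (c⁻¹ * x) * z = z * (c⁻¹ * x) := by
    have := congrArg (fun t => c⁻¹ * t * x) e
    simpa [mul_assoc] using this
  have h2 : c⁻¹ * x ∈ h.U := h.hC _ h1
  refine ⟨c * (c⁻¹ * x) * c⁻¹, h.conj_mem_U hc h2, by group⟩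

theorem N_cases (h : Hyp z a l) {x : H} (hx : x ∈ h.N) :
    x ∈ h.U ∨ (∃ v ∈ h.U, x = v * l) ∨ (∃ v ∈ h.U, x = v * (l * l)) := by
  have rs := h.rs
  have h1 := h.conj_mem_U hx h.z_mem
  rcases h1 with h1 | h1 | h1 | h1
  · exfalso
    apply h.hz1
    have := congrArg (fun t => x⁻¹ * t * x) h1
    simpa [mul_assoc] using this
  · left
    exact h.hC x (by rwa [mul_inv_eq_iff_eq_mul] at h1)
  · right
    left
    exact h.N_aux h.l_mem_N (h1.trans h.h1.symm)
  · right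
    right
    refine h.N_aux h.ll_mem_N (h1.trans ?_)
    rw [h.ll_inv]
    simp [mul_assoc, rs]

/-- Elements of `N \ U` have order 3. -/
theorem N1 (h : Hyp z a l) {s : H} (hs : s ∈ h.N) (hs' : s ∉ h.U) : s * s * s = 1 := by
  have rs := h.rs
  rcases h.N_cases hs with h1 | ⟨v, hv, rfl⟩ | ⟨v, hv, rfl⟩
  · exact absurd h1 hs'
  · rcases hv with rfl | rfl | rfl | rfl <;> simp [mul_assoc, rs]
  · rcases hv with rfl | rfl | rfl | rfl <;> simp [mul_assoc, rs]

/-- Involutions of `N` lie in `U`. -/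
theorem inv_mem_U (h : Hyp z a l) {s : H} (hs : s ∈ h.N) (hs2 : s * s = 1) : s ∈ h.U := by
  by_contra hs'
  have := h.N1 hs hs'
  rw [hs2, one_mul] at this
  rw [this] at hs'
  exact hs' h.U.one_mem

/-- Elements of `N \ U` are `U`-conjugate to `l` or `l²`. -/
theorem N2 (h : Hyp z a l) {s : H} (hs : s ∈ h.N) (hs' : s ∉ h.U) :
    ∃ u ∈ h.U, u * s * u⁻¹ = l ∨ u * s * u⁻¹ = l * l := by
  have rs := h.rs
  have hzi : z⁻¹ = z := h.U_inv h.z_mem
  have hai : a⁻¹ = a := h.U_inv h.a_mem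
  rcases h.N_cases hs with h1 | ⟨v, hv, rfl⟩ | ⟨v, hv, rfl⟩
  · exact absurd h1 hs'
  · rcases hv with e | e | e | e
    · exact ⟨1, h.U.one_mem, Or.inl (by simp [e])⟩
    · exact ⟨a, h.a_mem, Or.inl (by simp [e, mul_assoc, rs, hai])⟩
    · exact ⟨z * a, h.za_mem, Or.inl (by simp [e, mul_assoc, rs, hai, hzi])⟩
    · exact ⟨z, h.z_mem, Or.inl (by simp [e, mul_assoc, rs, hzi])⟩
  · rcases hv with e | e | e | e
    · exact ⟨1, h.U.one_mem, Or.inr (by simp [e])⟩
    · exact ⟨z * a, h.za_mem, Or.inr (by simp [e, mul_assoc, rs, hai, hzi])⟩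
    · exact ⟨z, h.z_mem, Or.inr (by simp [e, mul_assoc, rs, hzi])⟩
    · exact ⟨a, h.a_mem, Or.inr (by simp [e, mul_assoc, rs, hai])⟩

/-- `[N, l] ≤ U`. -/
theorem comm_l (h : Hyp z a l) {x : H} (hx : x ∈ h.N) : x * l * x⁻¹ * l⁻¹ ∈ h.U := by
  have key : ∀ v ∈ h.U, ∀ c, c * l = l * c → x = v * c → x * l * x⁻¹ * l⁻¹ ∈ h.U := by
    intro v hv c hc e
    have e2 : x * l * x⁻¹ * l⁻¹ = v * (l * v⁻¹ * l⁻¹) := by
      rw [e]
      have e3 : v * c * l * (v * c)⁻¹ * l⁻¹ = v * (c * l) * c⁻¹ * v⁻¹ * l⁻¹ := by group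
      rw [e3, hc]
      group
    rw [e2]
    exact h.U.mul_mem hv (h.conj_mem_U h.l_mem_N (h.U.inv_mem hv))
  rcases h.N_cases hx with h1 | ⟨v, hv, rfl⟩ | ⟨v, hv, rfl⟩
  · exact key x h1 1 (by simp) (by simp)
  · exact key v hv l rfl rfl
  · exact key v hv (l * l) (by simp [mul_assoc]) rfl

/-- No element of `N` inverts `l`. -/
theorem N4 (h : Hyp z a l) {x : H} (hx : x ∈ h.N) (e : x * l * x⁻¹ = l * l) : False := by
  have := h.comm_l hx
  rw [e, h.inv_l] at this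
  have e2 : l * l * (l * l) = l := by
    have := h.hl
    calc l * l * (l * l) = l * l * l * l := by group
      _ = l := by rw [this, one_mul]
  rw [e2] at this
  exact h.l_notMem_U this

/-- The stabilizer of `V = g U g⁻¹` in `U` is trivial. -/
theorem S1 (h : Hyp z a l) {g u : H} (hg : g ∉ h.N) (hu : u ∈ h.U) (hgu : g⁻¹ * u * g ∈ h.N) :
    u = 1 := by
  by_contra hu1
  have h2 : (g⁻¹ * u * g) * (g⁻¹ * u * g) = 1 := by
    have := h.U_sq hu
    calc (g⁻¹ * u * g) * (g⁻¹ * u * g) = g⁻¹ * (u * u) * g := by group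
      _ = 1 := by rw [this]; group
  have h3 := h.inv_mem_U hgu h2
  apply hg
  have h4 : g * (g⁻¹ * u * g) * g⁻¹ ∈ h.U := by
    simpa [mul_assoc] using hu
  refine h.ti h4 h3 ?_
  intro e
  apply hu1
  have := congrArg (fun t => g * t * g⁻¹) e
  simpa [mul_assoc] using this

variable [Finite H]

/-- Swapping `U` and `g U g⁻¹` by an involution. -/
theorem swap (h : Hyp z a l) {g x x₁ : H} (hg : g ∉ h.N) (hx : x ∈ h.U) (hx1 : x ≠ 1)
    (hx₁ : x₁ ∈ h.U) (hx₁1 : x₁ ≠ 1) :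
    ∃ w : H, w * w = 1 ∧ w * x * w⁻¹ = g * x₁ * g⁻¹ ∧ IsConj x w ∧ g⁻¹ * w ∈ h.N := by
  obtain ⟨y, hy⟩ : ∃ y, y = g * x₁ * g⁻¹ := ⟨_, rfl⟩
  rw [← hy]
  have hxx := h.U_sq hx
  have hxi : x⁻¹ = x := h.U_inv hx
  have hyy : y * y = 1 := by
    have := h.U_sq hx₁
    calc y * y = g * (x₁ * x₁) * g⁻¹ := by rw [hy]; group
      _ = 1 := by rw [this]; group
  have hyi : y⁻¹ = y := inv_eq_of_mul_eq_one_left hyy
  have hodd : Odd (orderOf (x * y)) := by
    by_contra hne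
    rw [Nat.not_odd_iff_even] at hne
    obtain ⟨t, ht, htt, ht1⟩ := Cfsg.Agent.Lib.HallJanko.exists_invol hne
    have hti : t⁻¹ = t := inv_eq_of_mul_eq_one_left htt
    obtain ⟨k, rfl⟩ := Subgroup.mem_zpowers_iff.mp ht
    have hcx : x * (x * y) ^ k * x⁻¹ = ((x * y) ^ k)⁻¹ := by
      rw [← conj_zpow]
      have : x * (x * y) * x⁻¹ = (x * y)⁻¹ := by
        rw [mul_inv_rev, hxi, hyi, ← mul_assoc, hxx, one_mul]
      rw [this, inv_zpow]
    have hcy : y * (x * y) ^ k * y⁻¹ = ((x * y) ^ k)⁻¹ := by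
      rw [← conj_zpow]
      have : y * (x * y) * y⁻¹ = (x * y)⁻¹ := by
        rw [mul_inv_rev, hxi, hyi, mul_assoc, mul_assoc x, hyy, mul_one]
      rw [this, inv_zpow]
    rw [hti] at hcx hcy
    have c1 : (x * y) ^ k * x = x * (x * y) ^ k := (mul_inv_eq_iff_eq_mul.mp hcx).symm
    have c2 : (x * y) ^ k * y = y * (x * y) ^ k := (mul_inv_eq_iff_eq_mul.mp hcy).symm
    have t1 : (x * y) ^ k ∈ h.U := h.C1 hx hx1 c1
    have t2 : g⁻¹ * (x * y) ^ k * g ∈ h.U := by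
      refine h.C1 hx₁ hx₁1 ?_
      have e1 : (x * y) ^ k * (g * x₁ * g⁻¹) = (g * x₁ * g⁻¹) * (x * y) ^ k := by
        rw [← hy]
        exact c2
      have := congrArg (fun t => g⁻¹ * t * g) e1
      simpa [mul_assoc] using this
    apply hg
    have t3 : g * (g⁻¹ * (x * y) ^ k * g) * g⁻¹ ∈ h.U := by
      simpa [mul_assoc] using t1
    refine h.ti t3 t2 ?_
    intro e
    apply ht1
    have := congrArg (fun t => g * t * g⁻¹) e
    simpa [mul_assoc] using this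
  obtain ⟨w, hw1, hw2, hw3⟩ := exists_swap x y hxx hyy hodd
  refine ⟨w, hw1, hw2, hw3, ?_⟩
  have h5 : (g⁻¹ * w) * x * (g⁻¹ * w)⁻¹ ∈ h.U := by
    have : (g⁻¹ * w) * x * (g⁻¹ * w)⁻¹ = g⁻¹ * (w * x * w⁻¹) * g := by group
    rw [this, hw2, hy]
    simpa [mul_assoc] using hx₁
  exact h.ti h5 hx hx1

/-- A nontrivial stabilizer. -/
theorem S3 (h : Hyp z a l) {g : H} (hg : g ∉ h.N) :
    ∃ s ∈ h.N, s ∉ h.U ∧ g⁻¹ * s * g ∈ h.N := by
  obtain ⟨w₁, h11, h12, -, h14⟩ := h.swap hg h.z_mem h.hz1 h.z_mem h.hz1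
  obtain ⟨w₂, h21, h22, -, h24⟩ := h.swap hg h.z_mem h.hz1 h.a_mem h.ha1
  have hi1 : w₁⁻¹ = w₁ := inv_eq_of_mul_eq_one_left h11
  have hi2 : w₂⁻¹ = w₂ := inv_eq_of_mul_eq_one_left h21
  have hsN : w₂ * w₁ ∈ h.N := by
    have := h.N.mul_mem (h.N.inv_mem h24) h14
    have e : (g⁻¹ * w₂)⁻¹ * (g⁻¹ * w₁) = w₂⁻¹ * w₁ := by group
    rwa [e, hi2] at this
  have hsg : g⁻¹ * (w₂ * w₁) * g ∈ h.N := by
    have := h.N.mul_mem h24 (h.N.inv_mem h14)
    have e : g⁻¹ * w₂ * (g⁻¹ * w₁)⁻¹ = g⁻¹ * w₂ * w₁⁻¹ * g := by group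
    rw [e, hi1] at this
    simpa [mul_assoc] using this
  refine ⟨w₂ * w₁, hsN, ?_, hsg⟩
  intro hU
  have h1 := h.S1 hg hU hsg
  have e : w₂ = w₁ := by
    have : w₂ = w₁⁻¹ := eq_inv_of_mul_eq_one_left h1
    rwa [hi1] at this
  rw [e, h12] at h22
  apply h.hne
  have := congrArg (fun t => g⁻¹ * t * g) h22
  simpa [mul_assoc] using this

/-- Every `U`-orbit on the other points contains a point fixed by `l`. -/
theorem S4 (h : Hyp z a l) {g : H} (hg : g ∉ h.N) :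
    ∃ u ∈ h.U, (u * g)⁻¹ * l * (u * g) ∈ h.N := by
  obtain ⟨s, hs, hs', hsg⟩ := h.S3 hg
  obtain ⟨u, hu, e | e⟩ := h.N2 hs hs'
  · refine ⟨u, hu, ?_⟩
    have e1 : (u * g)⁻¹ * l * (u * g) = g⁻¹ * s * g := by
      rw [← e]
      group
    rw [e1]
    exact hsg
  · refine ⟨u, hu, ?_⟩
    have e1 : (u * g)⁻¹ * (l * l) * (u * g) = g⁻¹ * s * g := by
      rw [← e]
      group
    have e2 : (u * g)⁻¹ * l * (u * g)
        = ((u * g)⁻¹ * (l * l) * (u * g)) * ((u * g)⁻¹ * (l * l) * (u * g)) := by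
      have : l * l * (l * l) = l := by
        have := h.hl
        calc l * l * (l * l) = l * l * l * l := by group
          _ = l := by rw [this, one_mul]
      calc (u * g)⁻¹ * l * (u * g) = (u * g)⁻¹ * (l * l * (l * l)) * (u * g) := by rw [this]
        _ = _ := by group
    rw [e2, e1]
    exact h.N.mul_mem hsg hsg

theorem no_comm (h : Hyp z a l) {w : H} (hw : IsConj z w) (e : w * l = l * w) : False := by
  obtain ⟨c, rfl⟩ := isConj_iff.mp hw
  have h1 : (c⁻¹ * l * c) * z = z * (c⁻¹ * l * c) := by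
    have := congrArg (fun t => c⁻¹ * t * c) e
    simpa [mul_assoc] using this.symm
  have h2 : c⁻¹ * l * c ∈ h.U := h.hC _ h1
  have h3 := h.U_sq h2
  have h4 : l * l = 1 := by
    have := congrArg (fun t => c * t * c⁻¹) h3
    simpa [mul_assoc] using this
  have h5 := h.hl
  rw [h4, one_mul] at h5
  exact h.l_ne_one h5

/-- The swapping involution of `U` and a point fixed by `l` inverts `l`. -/
theorem invert (h : Hyp z a l) {g : H} (hg : g ∉ h.N) (hf : g⁻¹ * l * g ∈ h.N) :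
    ∃ w : H, w * w = 1 ∧ g⁻¹ * w ∈ h.N ∧ w * l * w⁻¹ = l * l := by
  obtain ⟨w, h1, -, h3, h4⟩ := h.swap hg h.z_mem h.hz1 h.z_mem h.hz1
  refine ⟨w, h1, h4, ?_⟩
  have hi : w⁻¹ = w := inv_eq_of_mul_eq_one_left h1
  set n := g⁻¹ * w with hn
  have hgw : w = g * n := by rw [hn]; group
  have htN : w * l * w⁻¹ ∈ h.N := by
    have e : w * l * w⁻¹ = n⁻¹ * (g⁻¹ * l * g) * n := by
      have : n⁻¹ * (g⁻¹ * l * g) * n = (g * n)⁻¹ * l * (g * n) := by group
      rw [this, ← hgw, hi]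
    rw [e]
    exact h.N.mul_mem (h.N.mul_mem (h.N.inv_mem h4) hf) h4
  have htg : g⁻¹ * (w * l * w⁻¹) * g ∈ h.N := by
    have e : g⁻¹ * (w * l * w⁻¹) * g = n * l * n⁻¹ := by
      rw [hgw]
      group
    rw [e]
    exact h.N.mul_mem (h.N.mul_mem h4 h.l_mem_N) (h.N.inv_mem h4)
  have key : ∀ v ∈ h.U, ∀ c, g⁻¹ * c * g ∈ h.N → w * l * w⁻¹ = v * c → v = 1 := by
    intro v hv c hc e
    refine h.S1 hg hv ?_
    have e2 : v = w * l * w⁻¹ * c⁻¹ := by rw [e]; group
    have e3 : g⁻¹ * v * g = (g⁻¹ * (w * l * w⁻¹) * g) * (g⁻¹ * c * g)⁻¹ := by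
      rw [e2]
      group
    rw [e3]
    exact h.N.mul_mem htg (h.N.inv_mem hc)
  have hll : g⁻¹ * (l * l) * g ∈ h.N := by
    have := h.N.mul_mem hf hf
    have e : g⁻¹ * l * g * (g⁻¹ * l * g) = g⁻¹ * (l * l) * g := by group
    rwa [e] at this
  rcases h.N_cases htN with h5 | ⟨v, hv, e⟩ | ⟨v, hv, e⟩
  · exfalso
    have := h.S1 hg h5 htg
    apply h.l_ne_one
    have h6 := congrArg (fun t => w⁻¹ * t * w) this
    simpa [mul_assoc] using h6
  · exfalso
    have hv1 := key v hv l hf e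
    rw [hv1, one_mul] at e
    exact h.no_comm h3 ((mul_inv_eq_iff_eq_mul.mp e))
  · have hv1 := key v hv (l * l) hll e
    rw [hv1, one_mul] at e
    exact e

/-- `l` fixes at most one further point. -/
theorem fix_unique (h : Hyp z a l) {g₁ g₂ : H} (hg₁ : g₁ ∉ h.N) (hg₂ : g₂ ∉ h.N)
    (hf₁ : g₁⁻¹ * l * g₁ ∈ h.N) (hf₂ : g₂⁻¹ * l * g₂ ∈ h.N) : g₁⁻¹ * g₂ ∈ h.N := by
  obtain ⟨w₁, a1, a2, a3⟩ := h.invert hg₁ hf₁
  obtain ⟨w₂, b1, b2, b3⟩ := h.invert hg₂ hf₂
  have hi1 : w₁⁻¹ = w₁ := inv_eq_of_mul_eq_one_left a1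
  have hi2 : w₂⁻¹ = w₂ := inv_eq_of_mul_eq_one_left b1
  rw [hi1] at a3
  rw [hi2] at b3
  have hl' : l * l * l = 1 := h.hl
  have c1 : w₁ * l = l * l * w₁ := by
    rw [← a3, mul_assoc, a1, mul_one]
  have c2 : w₂ * l = l * l * w₂ := by
    rw [← b3, mul_assoc, b1, mul_one]
  have hcomm : (w₁ * w₂) * l = l * (w₁ * w₂) := by
    calc w₁ * w₂ * l = w₁ * (w₂ * l) := by group
      _ = w₁ * (l * l * w₂) := by rw [c2]
      _ = (w₁ * l) * l * w₂ := by group
      _ = (l * l * w₁) * l * w₂ := by rw [c1]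
      _ = l * l * (w₁ * l) * w₂ := by group
      _ = l * l * (l * l * w₁) * w₂ := by rw [c1]
      _ = (l * l * l) * (l * w₁) * w₂ := by group
      _ = l * (w₁ * w₂) := by rw [hl']; group
  by_cases hd : w₁ * w₂ ∈ h.N
  · have e : g₁⁻¹ * g₂ = (g₁⁻¹ * w₁) * (w₁ * w₂) * (g₂⁻¹ * w₂)⁻¹ := by
      calc g₁⁻¹ * g₂ = g₁⁻¹ * (w₁ * w₁) * (w₂ * w₂⁻¹) * g₂ := by rw [a1]; group
        _ = _ := by group
    rw [e]
    exact h.N.mul_mem (h.N.mul_mem a2 hd) (h.N.inv_mem b2)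
  · exfalso
    have hf₃ : (w₁ * w₂)⁻¹ * l * (w₁ * w₂) ∈ h.N := by
      have : (w₁ * w₂)⁻¹ * l * (w₁ * w₂) = l := by
        rw [mul_assoc, ← hcomm]
        group
      rw [this]
      exact h.l_mem_N
    obtain ⟨w₃, d1, d2, d3⟩ := h.invert hd hf₃
    refine h.N4 d2 ?_
    have e1 : (w₁ * w₂)⁻¹ * (l * l) * (w₁ * w₂) = l * l := by
      have h3 : (l * l) * (w₁ * w₂) = (w₁ * w₂) * (l * l) := by
        calc (l * l) * (w₁ * w₂) = l * (l * (w₁ * w₂)) := by group
          _ = l * ((w₁ * w₂) * l) := by rw [hcomm]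
          _ = (l * (w₁ * w₂)) * l := by group
          _ = ((w₁ * w₂) * l) * l := by rw [hcomm]
          _ = (w₁ * w₂) * (l * l) := by group
      rw [mul_assoc, h3]
      group
    rw [← e1, ← d3]
    group

theorem card_U (h : Hyp z a l) : Nat.card h.U = 4 := by
  classical
  have e : (h.U : Set H) = ↑({1, z, a, z * a} : Finset H) := by
    ext x
    simp [mem_U]
  have h1 : Nat.card h.U = Set.ncard (h.U : Set H) := Nat.card_coe_set_eq _
  rw [h1, e, Set.ncard_coe_finset]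
  have h2 : z * a ≠ 1 := fun e => h.hne (by
    have := eq_inv_of_mul_eq_one_left e
    rwa [h.U_inv h.a_mem] at this)
  have h3 : z * a ≠ z := fun e => h.ha1 (by simpa using e)
  have h4 : z * a ≠ a := fun e => h.hz1 (by simpa using e)
  rw [Finset.card_insert_of_notMem, Finset.card_insert_of_notMem, Finset.card_insert_of_notMem,
    Finset.card_singleton]
  · simp [h4.symm]
  · simp [h.hne, h3.symm]
  · simp [h.hz1.symm, h.ha1.symm, h2.symm]

theorem card_N (h : Hyp z a l) : Nat.card h.N = 12 := by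
  classical
  let c : Fin 3 → H := ![1, l, l * l]
  have hc : ∀ i, c i ∈ h.N := by
    intro i
    fin_cases i
    · exact h.N.one_mem
    · exact h.l_mem_N
    · exact h.ll_mem_N
  let f : h.U × Fin 3 → h.N := fun p => ⟨p.1.1 * c p.2, h.N.mul_mem (h.U_le_N p.1.2) (hc p.2)⟩
  have hll : l * l ∉ h.U := by
    intro hU
    have := h.U_sq hU
    apply h.l_notMem_U
    have e2 : l * l * (l * l) = l := by
      calc l * l * (l * l) = l * l * l * l := by group
        _ = l := by rw [h.hl, one_mul]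
    have hm := h.U.mul_mem hU hU
    rw [e2] at hm
    exact hm
  have b1 : ∀ x ∈ h.U, ∀ y ∈ h.U, x * l ≠ y := by
    intro x hx y hy e
    apply h.l_notMem_U
    have : l = x⁻¹ * y := by rw [← e]; group
    have hm := h.U.mul_mem (h.U.inv_mem hx) hy
    rw [← this] at hm
    exact hm
  have b2 : ∀ x ∈ h.U, ∀ y ∈ h.U, x * (l * l) ≠ y := by
    intro x hx y hy e
    apply hll
    have : l * l = x⁻¹ * y := by rw [← e]; group
    have hm := h.U.mul_mem (h.U.inv_mem hx) hy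
    rw [← this] at hm
    exact hm
  have b3 : ∀ x ∈ h.U, ∀ y ∈ h.U, x * l ≠ y * (l * l) := by
    intro x hx y hy e
    apply h.l_notMem_U
    have : l = y⁻¹ * x := by
      have e2 : x * l * l⁻¹ = y * (l * l) * l⁻¹ := by rw [e]
      simp only [mul_inv_cancel_right] at e2
      rw [e2]
      simp [mul_assoc]
    have hm := h.U.mul_mem (h.U.inv_mem hy) hx
    rw [← this] at hm
    exact hm
  have hinj : Function.Injective f := by
    rintro ⟨⟨v, hv⟩, i⟩ ⟨⟨v', hv'⟩, j⟩ e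
    have e' : v * c i = v' * c j := congrArg Subtype.val e
    fin_cases i <;> fin_cases j <;> simp [c] at e'
    · simp [e']
    · exact absurd e'.symm (b1 v' hv' v hv)
    · exact absurd e'.symm (b2 v' hv' v hv)
    · exact absurd e' (b1 v hv v' hv')
    · simp [e']
    · exact absurd e' (b3 v hv v' hv')
    · exact absurd e' (b2 v hv v' hv')
    · exact absurd e'.symm (b3 v' hv' v hv)
    · simp [e']
  have hsurj : Function.Surjective f := by
    rintro ⟨x, hx⟩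
    rcases h.N_cases hx with h1 | ⟨v, hv, e⟩ | ⟨v, hv, e⟩
    · exact ⟨(⟨x, h1⟩, 0), by ext; simp [f, c]⟩
    · exact ⟨(⟨v, hv⟩, 1), by ext; simp [f, c, e]⟩
    · exact ⟨(⟨v, hv⟩, 2), by ext; simp [f, c, e]⟩
  have h1 := Nat.card_congr (Equiv.ofBijective f ⟨hinj, hsurj⟩)
  rw [← h1, Nat.card_prod, h.card_U]
  simp

/-- The classification. -/
theorem main (h : Hyp z a l) :
    Nat.card H = 12 ∨ (Nat.card H = 60 ∧ Nonempty (H ≃* alternatingGroup (Fin 5))) := by
  by_cases hall : ∀ g, g ∈ h.N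
  · left
    have : h.N = ⊤ := eq_top_iff.mpr (fun g _ => hall g)
    rw [← h.card_N, this, Subgroup.card_top]
  · right
    push Not at hall
    obtain ⟨g, hg⟩ := hall
    obtain ⟨u, hu, hf⟩ := h.S4 hg
    obtain ⟨g₀, hg₀def⟩ : ∃ g₀, g₀ = u * g := ⟨_, rfl⟩
    rw [← hg₀def] at hf
    have hg₀ : g₀ ∉ h.N := fun hh => hg (by
      have := h.N.mul_mem (h.N.inv_mem (h.U_le_N hu)) hh
      rw [hg₀def] at this
      simpa using this)
    have hidx : h.N.index = 5 := by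
      classical
      let f : Option h.U → H ⧸ h.N := fun o =>
        match o with
        | none => ((1 : H) : H ⧸ h.N)
        | some v => ((v.1 * g₀ : H) : H ⧸ h.N)
      have hne : ∀ v : h.U, ((1 : H) : H ⧸ h.N) ≠ ((v.1 * g₀ : H) : H ⧸ h.N) := by
        intro v e
        rw [QuotientGroup.eq] at e
        apply hg₀
        have := h.N.mul_mem (h.N.inv_mem (h.U_le_N v.2)) e
        simpa using this
      have hinj : Function.Injective f := by
        rintro (_ | v) (_ | v') e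
        · rfl
        · exact absurd e (hne v')
        · exact absurd e.symm (hne v)
        · have e' : ((v.1 * g₀ : H) : H ⧸ h.N) = ((v'.1 * g₀ : H) : H ⧸ h.N) := e
          rw [QuotientGroup.eq] at e'
          have e2 : (v.1 * g₀)⁻¹ * (v'.1 * g₀) = g₀⁻¹ * (v.1⁻¹ * v'.1) * g₀ := by group
          rw [e2] at e'
          have h1 := h.S1 hg₀ (h.U.mul_mem (h.U.inv_mem v.2) v'.2) e'
          have h2 : v.1 = v'.1 := by
            have := mul_left_cancel (a := v.1⁻¹) (b := v.1) (c := v'.1)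
            apply this
            rw [h1]
            simp
          rw [show v = v' from Subtype.ext h2]
      have hsurj : Function.Surjective f := by
        intro q
        obtain ⟨x, rfl⟩ := QuotientGroup.mk_surjective q
        by_cases hx : x ∈ h.N
        · refine ⟨none, ?_⟩
          change ((1 : H) : H ⧸ h.N) = (x : H ⧸ h.N)
          rw [QuotientGroup.eq]
          simpa using hx
        · obtain ⟨v, hv, hfx⟩ := h.S4 hx
          have hvx : v * x ∉ h.N := fun hh => hx (by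
            have := h.N.mul_mem (h.N.inv_mem (h.U_le_N hv)) hh
            simpa using this)
          have h1 := h.fix_unique hg₀ hvx hf hfx
          refine ⟨some ⟨v⁻¹, h.U.inv_mem hv⟩, ?_⟩
          change ((v⁻¹ * g₀ : H) : H ⧸ h.N) = (x : H ⧸ h.N)
          rw [QuotientGroup.eq]
          have e : (v⁻¹ * g₀)⁻¹ * x = g₀⁻¹ * (v * x) := by group
          rw [e]
          exact h1
      have h1 := Nat.card_congr (Equiv.ofBijective f ⟨hinj, hsurj⟩)
      have h2 : Nat.card (Option h.U) = 5 := by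
        rw [Finite.card_option, h.card_U]
      rw [h2] at h1
      exact h1.symm
    have hcard : Nat.card H = 60 := by
      rw [← Subgroup.card_mul_index h.N, h.card_N, hidx]
    refine ⟨hcard, Cfsg.Agent.Lib.PSL2.CosetIso.nonempty_equiv_A5 h.N hidx ?_ hcard⟩
    intro K hK hKN
    rw [eq_bot_iff]
    intro c hc
    rw [mem_bot]
    have key : ∀ y ∈ K, y ∈ h.U → y = 1 := by
      intro y hy hyU
      refine h.S1 hg₀ hyU (hKN ?_)
      have := hK.conj_mem y hy g₀⁻¹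
      simpa using this
    by_contra hc1
    have hcU : c ∉ h.U := fun hU => hc1 (key c hc hU)
    have h1 : z * c * z⁻¹ * c⁻¹ ∈ K := K.mul_mem (hK.conj_mem c hc z) (K.inv_mem hc)
    have h2 : z * c * z⁻¹ * c⁻¹ ∈ h.U := by
      have e : z * c * z⁻¹ * c⁻¹ = z * (c * z⁻¹ * c⁻¹) := by group
      rw [e]
      exact h.U.mul_mem h.z_mem (h.conj_mem_U (hKN hc) (h.U.inv_mem h.z_mem))
    have h3 := key _ h1 h2
    have h4 : z * c * z⁻¹ = c := by
      have := eq_inv_of_mul_eq_one_left h3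
      simpa using this
    have h5 : c * z = z * c := by
      rw [mul_inv_eq_iff_eq_mul] at h4
      exact h4.symm
    exact hcU (h.hC c h5)

end Hyp

/-- **The `V₄` classification** (Task B of the Hall-Janko route). -/
theorem v4_cases [Finite H] (z a l : H) (hz : z * z = 1) (ha : a * a = 1) (hza : z * a = a * z)
    (hz1 : z ≠ 1) (ha1 : a ≠ 1) (hne : z ≠ a) (hl : l * l * l = 1) (h1 : l * z * l⁻¹ = a)
    (h2 : l * a * l⁻¹ = z * a)
    (hC : ∀ x, x * z = z * x → x = 1 ∨ x = z ∨ x = a ∨ x = z * a) :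
    Nat.card H = 12 ∨ (Nat.card H = 60 ∧ Nonempty (H ≃* alternatingGroup (Fin 5))) :=
  Hyp.main ⟨hz, ha, hza, hz1, ha1, hne, hl, h1, h2, hC⟩

end Cfsg.Agent.Lib.HallJanko.V4
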