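import Mathlib
import Cfsg.Agent.Lib.HallJanko.TStruct
import Cfsg.Agent.Lib.HallJanko.V4
import Cfsg.Agent.Lib.HallJanko.CentA5

/-!
# Hall-Janko type groups: the structure of `T = C(t)`

`T = V T1`, `T1 ∩ V = 1`, and `|T1| = 12` or `T1 ≃ A₅`, in which case `V` centralizes `T1`.
-/

set_option autoImplicit false
set_option linter.unusedSimpArgs false
set_option linter.unusedSectionVars false
set_option linter.unusedVariables false
set_option synthInstance.maxHeartbeats 400000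
set_option synthInstance.maxSize 4000
set_option maxRecDepth 100000

namespace Cfsg.Agent.Lib.HallJanko

open Equiv Subgroup

variable {G : Type*} [Group G]

/-- `cent_A5` for a subgroup of `G` normalized by `s`. -/
theorem cent_A5_G [Finite G] (H : Subgroup G) (θ : H ≃* alternatingGroup (Fin 5)) (z a s : G)
    (hzH : z ∈ H) (haH : a ∈ H) (hz : z * z = 1) (ha : a * a = 1) (hza : z * a = a * z)
    (hz1 : z ≠ 1) (ha1 : a ≠ 1) (hne : z ≠ a) (hsz : s * z = z * s) (hsa : s * a = a * s)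
    (hs : ∀ x ∈ H, s * x * s⁻¹ ∈ H) :
    ∃ u : G, (u = 1 ∨ u = z ∨ u = a ∨ u = z * a) ∧ ∀ h ∈ H, s * h * s⁻¹ = u * h * u⁻¹ := by
  have hsN : s ∈ normalizer (H : Set G) := Setup.mem_normalizer_of_maps hs
  let N := normalizer (H : Set G)
  have hle : H ≤ N := Subgroup.le_normalizer
  have hn : (H.subgroupOf N).Normal := Subgroup.normal_in_normalizer
  let e : (H.subgroupOf N) ≃* alternatingGroup (Fin 5) := (subgroupOfEquivOfLe hle).trans θ
  obtain ⟨u, hu, h⟩ := CentA5.cent_A5 (H.subgroupOf N) e ⟨z, hle hzH⟩ ⟨a, hle haH⟩ ⟨s, hsN⟩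
    (Subgroup.mem_subgroupOf.2 hzH) (Subgroup.mem_subgroupOf.2 haH)
    (Subtype.ext hz) (Subtype.ext ha) (Subtype.ext hza)
    (fun h => hz1 (congrArg Subtype.val h)) (fun h => ha1 (congrArg Subtype.val h))
    (fun h => hne (congrArg Subtype.val h)) (Subtype.ext hsz) (Subtype.ext hsa)
  refine ⟨u.1, ?_, ?_⟩
  · rcases hu with rfl | rfl | rfl | rfl
    · exact Or.inl rfl
    · exact Or.inr (Or.inl rfl)
    · exact Or.inr (Or.inr (Or.inl rfl))
    · exact Or.inr (Or.inr (Or.inr rfl))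
  · intro x hx
    have := h ⟨x, hle hx⟩ (Subgroup.mem_subgroupOf.2 hx)
    exact congrArg Subtype.val this

namespace Setup

variable {S : Setup G}

namespace Frame

variable {F : Frame S}

/-- The normal subgroup `T1` of `T`. -/
structure T1D {L : F.EllD} (V : VD L) where
  T1 : Subgroup G
  le : T1 ≤ F.T
  conj : ∀ c ∈ F.T, ∀ x ∈ T1, c * x * c⁻¹ ∈ T1
  meet : ∀ x ∈ F.E, x ∈ T1 ↔ x ∈ S.U
  cover : ∀ g ∈ F.T, ∃ p ∈ F.E, g * p⁻¹ ∈ T1

namespace T1D

variable {L : F.EllD} {V : VD L} (D : T1D V)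

theorem U_le : S.U ≤ D.T1 := fun _ hu => (D.meet _ (F.U_le_E hu)).2 hu

theorem z_mem : S.z ∈ D.T1 := D.U_le (Or.inr (Or.inl rfl))
theorem a4_mem : S.a 4 ∈ D.T1 := D.U_le (Or.inr (Or.inr (Or.inl rfl)))

theorem sq_mem {g : G} (hg : g ∈ F.T) : g * g ∈ D.T1 := by
  obtain ⟨p, hp, h⟩ := D.cover g hg
  have hpT := E_le_T hp
  have e : g * g = (g * p⁻¹) * (p * (g * p⁻¹) * p⁻¹) * (p * p) := by group
  rw [e, F.E_sq hp, mul_one]
  exact mul_mem h (D.conj p hpT _ h)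

theorem l_mem : L.l ∈ D.T1 := by
  have hlT : L.l ∈ F.T := mem_T.2 L.lt
  have h := D.sq_mem (mul_mem hlT hlT)
  have e : L.l * L.l * (L.l * L.l) = L.l := by
    calc L.l * L.l * (L.l * L.l) = (L.l * L.l * L.l) * L.l := by group
      _ = L.l := by rw [L.cube, one_mul]
  rwa [e] at h

/-- `T = V T1`. -/
theorem form {g : G} (hg : g ∈ F.T) : ∃ v ∈ V.VV, ∃ x ∈ D.T1, g = v * x := by
  obtain ⟨p, hp, h⟩ := D.cover g hg
  obtain ⟨u, hu, v, hv, rfl⟩ := V.E_form' hp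
  have hvT : v ∈ F.T := E_le_T (V.VV_le_E hv)
  refine ⟨v, hv, v⁻¹ * ((g * (u * v)⁻¹) * u) * v, ?_, ?_⟩
  · have := D.conj v⁻¹ (inv_mem hvT) _ (mul_mem h (D.U_le hu))
    simpa using this
  · group

theorem VV_inter {v : G} (hv : v ∈ V.VV) (hx : v ∈ D.T1) : v = 1 := by
  by_contra h1
  exact V.not_U_of_VV hv h1 ((D.meet v (V.VV_le_E hv)).1 hx)

theorem form_unique {v v' x x' : G} (hv : v ∈ V.VV) (hv' : v' ∈ V.VV) (hx : x ∈ D.T1)
    (hx' : x' ∈ D.T1) (h : v * x = v' * x') : v = v' ∧ x = x' := by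
  have h1 : v'⁻¹ * v = x' * x⁻¹ := by
    calc v'⁻¹ * v = v'⁻¹ * (v * x) * x⁻¹ := by group
      _ = v'⁻¹ * (v' * x') * x⁻¹ := by rw [h]
      _ = x' * x⁻¹ := by group
  have h2 : v'⁻¹ * v = 1 := D.VV_inter (mul_mem (inv_mem hv') hv) (h1 ▸ mul_mem hx' (inv_mem hx))
  have h3 : v = v' := by
    rw [inv_mul_eq_one] at h2
    exact h2.symm
  refine ⟨h3, ?_⟩
  rw [h3] at h
  exact (mul_left_cancel h)

theorem card_T [Finite G] : Nat.card F.T = 4 * Nat.card D.T1 := by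
  have hb : Function.Bijective (fun p : V.VV × D.T1 => (⟨p.1.1 * p.2.1,
      mul_mem (E_le_T (V.VV_le_E p.1.2)) (D.le p.2.2)⟩ : F.T)) := by
    constructor
    · rintro ⟨⟨v, hv⟩, ⟨x, hx⟩⟩ ⟨⟨v', hv'⟩, ⟨x', hx'⟩⟩ h
      have := congrArg Subtype.val h
      obtain ⟨h1, h2⟩ := D.form_unique hv hv' hx hx' this
      subst h1; subst h2; rfl
    · rintro ⟨g, hg⟩
      obtain ⟨v, hv, x, hx, rfl⟩ := D.form hg
      exact ⟨(⟨v, hv⟩, ⟨x, hx⟩), rfl⟩
  rw [← Nat.card_congr (Equiv.ofBijective _ hb), Nat.card_prod, V.card_VV]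

theorem cent_U {x : G} (hx : x ∈ D.T1) (hz : x * S.z = S.z * x) : x ∈ S.U :=
  (D.meet x (F.mem_E.2 ⟨hz, mem_T.1 (D.le hx)⟩)).1 hx

/-- The two cases. -/
theorem cases [Finite G] : Nat.card D.T1 = 12 ∨
    (Nat.card D.T1 = 60 ∧ Nonempty (D.T1 ≃* alternatingGroup (Fin 5))) := by
  refine V4.v4_cases (⟨S.z, D.z_mem⟩ : D.T1) ⟨S.a 4, D.a4_mem⟩ ⟨L.l, D.l_mem⟩
    (Subtype.ext S.cl.z_sq) (Subtype.ext (S.cl.a_sq 4)) (Subtype.ext z_a4)
    (fun h => S.cl.z_ne (congrArg Subtype.val h)) (fun h => a4_ne_one (congrArg Subtype.val h))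
    (fun h => a4_ne_z (congrArg Subtype.val h)) (Subtype.ext L.cube) (Subtype.ext L.lz)
    (Subtype.ext L.la) ?_
  rintro ⟨x, hx⟩ h
  have h1 : x * S.z = S.z * x := congrArg Subtype.val h
  rcases D.cent_U hx h1 with h2 | h2 | h2 | h2
  · left; exact Subtype.ext h2
  · right; left; exact Subtype.ext h2
  · right; right; left; exact Subtype.ext h2
  · right; right; right; exact Subtype.ext h2

end T1D

end Frame

end Setup

end Cfsg.Agent.Lib.HallJanko
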