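import Mathlib
import Cfsg.Agent.Lib.HallJanko.T1Struct
import Cfsg.Agent.Lib.HallJanko.OrderFormula

/-!
# Hall-Janko type groups: every involution is conjugate to `z` or to `t`
-/

set_option autoImplicit false
set_option linter.unusedSimpArgs false
set_option linter.unusedSectionVars false
set_option linter.unusedVariables false
set_option synthInstance.maxHeartbeats 400000
set_option synthInstance.maxSize 4000
set_option maxRecDepth 100000

namespace Cfsg.Agent.Lib.HallJanko

open Equiv Subgroup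

variable {G : Type*} [Group G]

theorem q_center : ∀ w : QW, (∀ i, qmul w (qa i) = qmul (qa i) w) → w = qone ∨ w = qz := by decide

namespace Setup

variable {S : Setup G}

/-- An element of `C(z)` centralizing `Q` is `1` or `z`. -/
theorem center_Q {c : G} (hc : c * S.z = S.z * c) (h : ∀ i, c * S.a i = S.a i * c) :
    c = 1 ∨ c = S.z := by
  have hA : Acts S.z S.a c 1 := fun i => Or.inl (by
    simp only [Perm.coe_one, id_eq]
    exact mul_inv_eq_iff_eq_mul.mpr (h i))
  have hQ := S.ker c hc hA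
  obtain ⟨w, rfl⟩ := (S.Q_mem c).1 hQ
  have h1 : ∀ i, qmul w (qa i) = qmul (qa i) w := fun i => S.cl.ev_injective (by
    rw [← S.cl.ev_mul, ← S.cl.ev_mul, S.cl.ev_qa]
    exact h i)
  rcases q_center w h1 with rfl | rfl
  · left; exact S.cl.ev_one
  · right; exact S.cl.ev_qz

variable (S) in
/-- `Q` has order `32`. -/
theorem card_Q : Nat.card S.Q = 32 := by
  classical
  have hb : Function.Bijective (fun w : QW => (⟨ev S.z S.a w, S.mem_Q w⟩ : S.Q)) := by
    constructor
    · intro w w' h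
      exact S.cl.ev_injective (congrArg Subtype.val h)
    · rintro ⟨x, hx⟩
      obtain ⟨w, rfl⟩ := (S.Q_mem x).1 hx
      exact ⟨w, rfl⟩
  rw [← Nat.card_congr (Equiv.ofBijective _ hb), Nat.card_eq_fintype_card]
  rfl

variable (S) in
theorem isPGroup_Q : IsPGroup 2 S.Q := by
  apply IsPGroup.of_card (n := 5)
  rw [S.card_Q]
  norm_num

/-- A Sylow `2`-subgroup of `G` centralizes `z`. -/
theorem exists_sylow_le_C [Finite G] : ∃ M : Sylow 2 G, (M : Subgroup G) ≤ centralizer ({S.z} : Set G) := by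
  classical
  let C := centralizer ({S.z} : Set G)
  obtain ⟨S₀⟩ : Nonempty (Sylow 2 C) := inferInstance
  let M₀ := (S₀ : Subgroup C).map C.subtype
  have hM₀ : IsPGroup 2 M₀ := S₀.isPGroup'.map _
  have hMC : M₀ ≤ C := map_subtype_le _
  have hzC : ∀ x, x ∈ C ↔ x * S.z = S.z * x := fun x => mem_centralizer_singleton_iff
  -- `Q ≤ M₀`
  have hQ : ∀ q ∈ S.Q, q ∈ M₀ := by
    intro q hq
    have hN : (S.Q.subgroupOf C).Normal := by
      constructor
      intro n hn g
      rw [Subgroup.mem_subgroupOf] at hn ⊢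
      exact S.conj_mem_Q ((hzC _).1 g.2) hn
    have hp : IsPGroup 2 (S.Q.subgroupOf C) :=
      (S.isPGroup_Q).comap_of_injective C.subtype C.subtype_injective |>.to_le (le_refl _)
    have hsup := (S₀.isPGroup').to_sup_of_normal_right hp
    have h2 := S₀.is_maximal' hsup le_sup_left
    have h3 : (⟨q, (hzC q).2 (S.comm_z_of_mem_Q hq)⟩ : C) ∈ (S₀ : Subgroup C) := by
      have : (⟨q, (hzC q).2 (S.comm_z_of_mem_Q hq)⟩ : C) ∈ (S₀ : Subgroup C) ⊔ S.Q.subgroupOf C :=
        (le_sup_right : S.Q.subgroupOf C ≤ _) (Subgroup.mem_subgroupOf.2 hq)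
      rwa [h2] at this
    exact ⟨_, h3, rfl⟩
  obtain ⟨R, hR⟩ := hM₀.exists_le_sylow
  have hRM : (R : Subgroup G) = M₀ := by
    by_contra hne
    obtain ⟨x, hx, hx1, hx2⟩ := exists_normalizer_step M₀ R R.isPGroup' (lt_of_le_of_ne hR (Ne.symm hne))
    have hxN : x ∈ normalizer (M₀ : Set G) := mem_normalizer_of_maps hx2
    have hz0 : S.z ∈ M₀ := hQ _ S.z_mem_Q
    have hz1 : x * S.z * x⁻¹ ∈ M₀ := hx2 _ hz0
    have hz2 : x * S.z * x⁻¹ * S.z = S.z * (x * S.z * x⁻¹) := (hzC _).1 (hMC hz1)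
    have hz3 : ∀ i, x * S.z * x⁻¹ * S.a i = S.a i * (x * S.z * x⁻¹) := by
      intro i
      have h1 : x⁻¹ * S.a i * x ∈ M₀ := by
        have := (mem_normalizer_iff.1 (inv_mem hxN) (S.a i)).1 (hQ _ (S.a_mem_Q i))
        simpa using this
      have h2 : x⁻¹ * S.a i * x * S.z = S.z * (x⁻¹ * S.a i * x) := (hzC _).1 (hMC h1)
      have h3 : S.a i = x * (x⁻¹ * S.a i * x) * x⁻¹ := by group
      rw [h3]
      calc x * S.z * x⁻¹ * (x * (x⁻¹ * S.a i * x) * x⁻¹)
          = x * (S.z * (x⁻¹ * S.a i * x)) * x⁻¹ := by group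
        _ = x * ((x⁻¹ * S.a i * x) * S.z) * x⁻¹ := by rw [h2]
        _ = _ := by group
    have hz4 : x * S.z = S.z * x := by
      have hz5 : x * S.z * x⁻¹ ≠ 1 := by
        intro h
        apply S.cl.z_ne
        have : x * S.z = x := by
          calc x * S.z = (x * S.z * x⁻¹) * x := by group
            _ = x := by rw [h, one_mul]
        simpa using this
      rcases center_Q hz2 hz3 with h | h
      · exact absurd h hz5
      · calc x * S.z = (x * S.z * x⁻¹) * x := by group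
          _ = S.z * x := by rw [h]
    -- `x ∈ S₀`
    have hp : IsPGroup 2 ((R : Subgroup G).subgroupOf C) :=
      (R.isPGroup').comap_of_injective C.subtype C.subtype_injective |>.to_le (le_refl _)
    have hle : (S₀ : Subgroup C) ≤ (R : Subgroup G).subgroupOf C := by
      intro y hy
      exact Subgroup.mem_subgroupOf.2 (hR ⟨y, hy, rfl⟩)
    have h2 := S₀.is_maximal' hp hle
    have h3 : (⟨x, (hzC x).2 hz4⟩ : C) ∈ (R : Subgroup G).subgroupOf C :=
      Subgroup.mem_subgroupOf.2 hx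
    rw [h2] at h3
    exact hx1 ⟨_, h3, rfl⟩
  exact ⟨R, by rw [hRM]; exact hMC⟩

/-- Every involution is conjugate into `C(z)`. -/
theorem exists_conj_into_C [Finite G] {w : G} (hw : w * w = 1) :
    ∃ g : G, g * w * g⁻¹ * S.z = S.z * (g * w * g⁻¹) := by
  classical
  obtain ⟨M, hM⟩ := S.exists_sylow_le_C (G := G)
  have hp : IsPGroup 2 (zpowers w) := by
    rintro ⟨x, k, rfl⟩
    refine ⟨1, Subtype.ext ?_⟩
    have h2 : w ^ (2 : ℤ) = 1 := by
      rw [show (2 : ℤ) = ((2 : ℕ) : ℤ) by rfl, zpow_natCast, pow_two, hw]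
    show ((w ^ k : G)) ^ 2 ^ 1 = 1
    rw [pow_one, ← zpow_natCast, ← zpow_mul, mul_comm, zpow_mul]
    simp only [Nat.cast_ofNat]
    rw [h2, one_zpow]
  obtain ⟨R, hR⟩ := hp.exists_le_sylow
  obtain ⟨g, hg⟩ := MulAction.exists_smul_eq G R M
  refine ⟨g, mem_centralizer_singleton_iff.1 (hM ?_)⟩
  rw [← hg]
  exact Subgroup.mem_map_of_mem _ (hR (mem_zpowers w))

namespace Frame

variable (F : Frame S)

/-- Every involution is conjugate to `z` or `t`. -/
theorem all_inv [Finite G] {w : G} (hw : w * w = 1) (h1 : w ≠ 1) : IsConj w S.z ∨ IsConj w F.t := by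
  obtain ⟨g, hg⟩ := S.exists_conj_into_C hw
  have e : IsConj w (g * w * g⁻¹) := isConj_iff.2 ⟨g, rfl⟩
  have h2 : g * w * g⁻¹ * (g * w * g⁻¹) = 1 := conj_sq hw
  have h3 : g * w * g⁻¹ ≠ 1 := by
    intro h
    apply h1
    have : g * w = g := by
      calc g * w = (g * w * g⁻¹) * g := by group
        _ = g := by rw [h, one_mul]
    simpa using this
  by_cases hq : g * w * g⁻¹ ∈ S.Q
  · left
    exact e.trans (isConj_of_mem_Q hq h2 h3).symm
  · right
    obtain ⟨c, -, hc⟩ := (IsInv.of_IsT F.ht).conj_of (τ' := g * w * g⁻¹) ⟨hg, h2, hq⟩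
    exact e.trans (isConj_iff.2 ⟨c, hc⟩).symm

end Frame

end Setup

end Cfsg.Agent.Lib.HallJanko
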