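import Mathlib
import Cfsg.Agent.Lib.HallJanko.AllInv
import Cfsg.Agent.Lib.Basic.ConjCount

/-!
# Hall-Janko type groups: the number `n(z) = 960` of Thompson's order formula
-/

set_option autoImplicit false
set_option linter.unusedSimpArgs false
set_option linter.unusedSectionVars false
set_option linter.unusedVariables false
set_option synthInstance.maxHeartbeats 400000
set_option synthInstance.maxSize 4000
set_option maxRecDepth 100000

namespace Cfsg.Agent.Lib.HallJanko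

open Equiv Subgroup

variable {G : Type*} [Group G]

/-- Two involutions invert their product; so they commute with an involution in `⟨u v⟩`. -/
theorem comm_of_mem_zpowers {u v w : G} (hu : u * u = 1) (hv : v * v = 1) (hw : w * w = 1)
    (h : w ∈ zpowers (u * v)) : u * w = w * u ∧ v * w = w * v := by
  obtain ⟨k, rfl⟩ := mem_zpowers_iff.1 h
  have hu' : u⁻¹ = u := inv_eq_of_mul_eq_one_left hu
  have hv' : v⁻¹ = v := inv_eq_of_mul_eq_one_left hv
  have hinv : ((u * v) ^ k)⁻¹ = (u * v) ^ k := inv_eq_of_mul_eq_one_left hw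
  have h1 : u * (u * v) * u⁻¹ = (u * v)⁻¹ := by
    rw [mul_inv_rev, hu', hv', ← mul_assoc, hu, one_mul]
  have h2 : v * (u * v) * v⁻¹ = (u * v)⁻¹ := by
    rw [mul_inv_rev, hu', hv', mul_assoc, mul_assoc, hv, mul_one]
  constructor
  · have := conj_zpow (a := u) (b := u * v) (i := k)
    rw [h1, inv_zpow, hinv] at this
    exact (eq_mul_inv_iff_mul_eq.mp this).symm
  · have := conj_zpow (a := v) (b := u * v) (i := k)
    rw [h2, inv_zpow, hinv] at this
    exact (eq_mul_inv_iff_mul_eq.mp this).symm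

theorem eq_of_mem_zpowers_of_sq {g x : G} (hg : g * g = 1) (h : x ∈ zpowers g) : x = 1 ∨ x = g := by
  obtain ⟨k, rfl⟩ := mem_zpowers_iff.1 h
  have h2 : g ^ (2 : ℤ) = 1 := by
    rw [show (2 : ℤ) = ((2 : ℕ) : ℤ) by rfl, zpow_natCast, pow_two, hg]
  rcases Int.even_or_odd' k with ⟨m, rfl | rfl⟩
  · left; rw [zpow_mul, h2, one_zpow]
  · right; rw [zpow_add, zpow_mul, h2, one_zpow, one_mul, zpow_one]

theorem sq_of_isConj {a b : G} (h : IsConj a b) (hb : b * b = 1) : a * a = 1 := by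
  obtain ⟨c, rfl⟩ := isConj_iff.1 h
  have : c * a * c⁻¹ * (c * a * c⁻¹) = c * (a * a) * c⁻¹ := by group
  rw [this] at hb
  have h2 : c * (a * a) = c := by
    calc c * (a * a) = c * (a * a) * c⁻¹ * c := by group
      _ = c := by rw [hb, one_mul]
  simpa using h2

theorem q_pair : ∀ w₁ w₂ : QW, qmul w₁ w₁ = qone → qmul w₂ w₂ = qone → w₁ ≠ w₂ →
    w₁ ≠ qone → w₁ ≠ qz → w₂ ≠ qone → w₂ ≠ qz →
    qmul w₁ w₂ = qz ∨ qmul (qmul w₁ w₂) (qmul w₁ w₂) = qz := by decide

theorem qw_count : ∀ e e' : Bool,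
    (Finset.univ.filter (fun w : QW => qmul w w = qone ∧ tw e e' w ≠ w)).card = 8 := by decide

namespace Setup

variable {S : Setup G}

namespace Frame

variable (F : Frame S)

/-- The condition on a pair in `n(z)`. -/
theorem pred_z_iff [Finite G] (hJ : ¬ IsConj F.t S.z) (u v : G) :
    (IsConj u S.z ∧ IsConj v F.t ∧ S.z ∈ zpowers (u * v)) ↔
      S.IsInv v ∧ (u ∈ S.Q ∧ u * u = 1 ∧ u * v ≠ v * u) := by
  constructor
  · rintro ⟨h1, h2, h3⟩
    have hu := sq_of_isConj h1 S.cl.z_sq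
    have hv := sq_of_isConj h2 F.t_sq
    obtain ⟨hc1, hc2⟩ := comm_of_mem_zpowers hu hv S.cl.z_sq h3
    have huz : u * S.z = S.z * u := hc1
    have hvz : v * S.z = S.z * v := hc2
    have huQ : u ∈ S.Q := F.mem_Q_of_conj hJ huz hu h1
    have hvQ : v ∉ S.Q := by
      obtain ⟨c, hc⟩ := isConj_iff.1 h2.symm
      rw [← hc]
      exact F.conj_not_Q hJ c
    refine ⟨⟨hvz, hv, hvQ⟩, huQ, hu, ?_⟩
    intro hcomm
    have hsq : u * v * (u * v) = 1 := by
      calc u * v * (u * v) = u * (v * u) * v := by group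
        _ = u * (u * v) * v := by rw [hcomm]
        _ = (u * u) * (v * v) := by group
        _ = 1 := by rw [hu, hv, one_mul]
    rcases eq_of_mem_zpowers_of_sq hsq h3 with h | h
    · exact S.cl.z_ne h
    · apply hvQ
      have : v = u⁻¹ * S.z := by rw [h]; group
      rw [this]
      exact mul_mem (inv_mem huQ) S.z_mem_Q
  · rintro ⟨hv, huQ, hu, hne⟩
    have hu1 : u ≠ 1 := by
      rintro rfl
      simp at hne
    have huz : u ≠ S.z := by
      rintro rfl
      exact hne hv.comm.symm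
    refine ⟨(isConj_of_mem_Q huQ hu hu1).symm, ?_, ?_⟩
    · obtain ⟨c, -, hc⟩ := (IsInv.of_IsT F.ht).conj_of hv
      exact (isConj_iff.2 ⟨c, hc⟩).symm
    · have hu' : v * u * v⁻¹ ∈ S.Q := S.conj_mem_Q hv.comm huQ
      have hvinv : v⁻¹ = v := inv_eq_of_mul_eq_one_left hv.sq
      have hu'2 : v * u * v⁻¹ * (v * u * v⁻¹) = 1 := conj_sq hu
      have hne1 : u ≠ v * u * v⁻¹ := by
        intro h
        apply hne
        calc u * v = (v * u * v⁻¹) * v := by rw [← h]
          _ = v * u := by group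
      have hu'1 : v * u * v⁻¹ ≠ 1 := by
        intro h
        apply hu1
        have : v * u = v := by
          calc v * u = v * u * v⁻¹ * v := by group
            _ = v := by rw [h, one_mul]
        simpa using this
      have hu'z : v * u * v⁻¹ ≠ S.z := by
        intro h
        apply huz
        have e : v⁻¹ * S.z * v = S.z := by
          rw [mul_assoc, ← hv.comm, ← mul_assoc, inv_mul_cancel, one_mul]
        rw [← e, ← h]
        group
      obtain ⟨w₁, rfl⟩ := (S.Q_mem u).1 huQ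
      obtain ⟨w₂, hw₂⟩ := (S.Q_mem _).1 hu'
      rw [hw₂] at hne1 hu'1 hu'z hu'2
      have h1 : qmul w₁ w₁ = qone := S.cl.ev_injective (by rw [← S.cl.ev_mul, hu, S.cl.ev_one])
      have h2 : qmul w₂ w₂ = qone := S.cl.ev_injective (by rw [← S.cl.ev_mul, hu'2, S.cl.ev_one])
      have h3 : w₁ ≠ w₂ := fun h => hne1 (by rw [h])
      have h4 : w₁ ≠ qone := fun h => hu1 (by rw [h, S.cl.ev_one])
      have h5 : w₁ ≠ qz := fun h => huz (by rw [h, S.cl.ev_qz])
      have h6 : w₂ ≠ qone := fun h => hu'1 (by rw [h, S.cl.ev_one])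
      have h7 : w₂ ≠ qz := fun h => hu'z (by rw [h, S.cl.ev_qz])
      have hsq : (ev S.z S.a w₁ * v) * (ev S.z S.a w₁ * v) = ev S.z S.a (qmul w₁ w₂) := by
        rw [← S.cl.ev_mul, ← hw₂]
        calc (ev S.z S.a w₁ * v) * (ev S.z S.a w₁ * v)
            = ev S.z S.a w₁ * (v * ev S.z S.a w₁ * v⁻¹) * (v * v) := by group
          _ = _ := by rw [hv.sq, mul_one]
      rcases q_pair w₁ w₂ h1 h2 h3 h4 h5 h6 h7 with h | h
      · have : S.z = (ev S.z S.a w₁ * v) * (ev S.z S.a w₁ * v) := by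
          rw [hsq, h, S.cl.ev_qz]
        have hm : (ev S.z S.a w₁ * v) ∈ zpowers (ev S.z S.a w₁ * v) := mem_zpowers _
        have hm2 := mul_mem hm hm
        rwa [← this] at hm2
      · have : S.z = ((ev S.z S.a w₁ * v) * (ev S.z S.a w₁ * v)) * ((ev S.z S.a w₁ * v) * (ev S.z S.a w₁ * v)) := by
          rw [hsq, S.cl.ev_mul, h, S.cl.ev_qz]
        have hm : (ev S.z S.a w₁ * v) ∈ zpowers (ev S.z S.a w₁ * v) := mem_zpowers _
        have hm2 := mul_mem (mul_mem hm hm) (mul_mem hm hm)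
        rwa [← this] at hm2

/-- The pairs for `t` itself. -/
theorem card_R_t : Nat.card {u : G // u ∈ S.Q ∧ u * u = 1 ∧ u * F.t ≠ F.t * u} = 8 := by
  classical
  obtain ⟨e, e', ht⟩ := F.ht.table
  have hb : ∀ w : QW, (ev S.z S.a w * ev S.z S.a w = 1 ∧ ev S.z S.a w * F.t ≠ F.t * ev S.z S.a w) ↔
      (qmul w w = qone ∧ tw e e' w ≠ w) := by
    intro w
    have h1 : ev S.z S.a w * ev S.z S.a w = 1 ↔ qmul w w = qone := by
      rw [← S.cl.ev_eq_one_iff, ← S.cl.ev_mul]
    have h2 : ev S.z S.a w * F.t = F.t * ev S.z S.a w ↔ tw e e' w = w := by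
      constructor
      · intro h
        apply S.cl.ev_injective
        rw [← ht, h.symm]
        group
      · intro h
        have h3 := ht w
        rw [h] at h3
        exact (mul_inv_eq_iff_eq_mul.mp h3).symm
    rw [h1, Ne, h2]
  have hbij : Function.Bijective (fun w : {w : QW // qmul w w = qone ∧ tw e e' w ≠ w} =>
      (⟨ev S.z S.a w.1, S.mem_Q w.1, (hb w.1).2 w.2⟩ :
        {u : G // u ∈ S.Q ∧ u * u = 1 ∧ u * F.t ≠ F.t * u})) := by
    constructor
    · intro w w' h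
      exact Subtype.ext (S.cl.ev_injective (congrArg Subtype.val h))
    · rintro ⟨u, hu, h⟩
      obtain ⟨w, rfl⟩ := (S.Q_mem u).1 hu
      exact ⟨⟨w, (hb w).1 h⟩, rfl⟩
  rw [← Nat.card_congr (Equiv.ofBijective _ hbij), Nat.card_eq_fintype_card, Fintype.card_subtype]
  exact qw_count e e'

include F in
/-- The same for every involution of `C(z)` outside `Q`. -/
theorem card_R [Finite G] {τ : G} (hτ : S.IsInv τ) :
    Nat.card {u : G // u ∈ S.Q ∧ u * u = 1 ∧ u * τ ≠ τ * u} = 8 := by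
  obtain ⟨c, hc, e⟩ := (IsInv.of_IsT F.ht).conj_of hτ
  rw [← F.card_R_t]
  symm
  refine Nat.card_congr (Equiv.subtypeEquiv (MulAut.conj c).toEquiv ?_)
  intro u
  simp only [MulEquiv.toEquiv_eq_coe, MulEquiv.coe_toEquiv, MulAut.conj_apply]
  rw [← e]
  have hinv : c⁻¹ * S.z = S.z * c⁻¹ := (show Commute c S.z from hc).inv_left
  constructor
  · rintro ⟨h1, h2, h3⟩
    refine ⟨S.conj_mem_Q hc h1, conj_sq h2, ?_⟩
    intro h
    apply h3
    have e2 : c * u * c⁻¹ * (c * F.t * c⁻¹) = c * (u * F.t) * c⁻¹ := by group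
    have e3 : c * F.t * c⁻¹ * (c * u * c⁻¹) = c * (F.t * u) * c⁻¹ := by group
    rw [e2, e3] at h
    exact mul_left_cancel (mul_right_cancel h)
  · rintro ⟨h1, h2, h3⟩
    have h1' : u ∈ S.Q := by
      have := S.conj_mem_Q hinv h1
      have e4 : c⁻¹ * (c * u * c⁻¹) * c⁻¹⁻¹ = u := by group
      rwa [e4] at this
    refine ⟨h1', ?_, ?_⟩
    · have := conj_sq (g := c⁻¹) h2
      have e4 : c⁻¹ * (c * u * c⁻¹) * c⁻¹⁻¹ = u := by group
      rwa [e4] at this
    · intro h
      apply h3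
      have e2 : c * u * c⁻¹ * (c * F.t * c⁻¹) = c * (u * F.t) * c⁻¹ := by group
      have e3 : c * F.t * c⁻¹ * (c * u * c⁻¹) = c * (F.t * u) * c⁻¹ := by group
      rw [e2, e3, h]

include F in
/-- The number of involutions of `C(z)` outside `Q`. -/
theorem card_IsInv [Finite G] : Nat.card {v : G // S.IsInv v} = 120 := by
  classical
  let C := centralizer ({S.z} : Set G)
  have htC : F.t ∈ C := mem_centralizer_singleton_iff.2 F.t_z
  have h := Cfsg.Agent.Lib.Basic.ConjCount.card_isConj_mul_card_centralizer (G := C) ⟨F.t, htC⟩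
  have h1 : Nat.card C = 1920 := S.card_C
  have h2 : Nat.card (centralizer ({(⟨F.t, htC⟩ : C)} : Set C)) = 16 := by
    rw [← F.card_E]
    refine Nat.card_congr (Equiv.ofBijective (fun x => ⟨x.1.1, ?_⟩) ⟨?_, ?_⟩)
    · have hx := x.2
      rw [mem_centralizer_singleton_iff] at hx
      exact F.mem_E.2 ⟨mem_centralizer_singleton_iff.1 x.1.2, congrArg Subtype.val hx⟩
    · intro x y hxy
      have hxy' := congrArg Subtype.val hxy
      exact Subtype.ext (Subtype.ext hxy')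
    · rintro ⟨x, hx⟩
      have hx' := F.mem_E.1 hx
      refine ⟨⟨⟨x, mem_centralizer_singleton_iff.2 hx'.1⟩, ?_⟩, rfl⟩
      rw [mem_centralizer_singleton_iff]
      exact Subtype.ext hx'.2
  have h3 : Nat.card {v : G // S.IsInv v} = Nat.card {y : C // IsConj (⟨F.t, htC⟩ : C) y} := by
    symm
    refine Nat.card_congr (Equiv.ofBijective (fun y => ⟨y.1.1, ?_⟩) ⟨?_, ?_⟩)
    · obtain ⟨c, hc⟩ := isConj_iff.1 y.2
      have hc' : (c : G) * F.t * (c : G)⁻¹ = y.1.1 := congrArg Subtype.val hc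
      have hcz : (c : G) * S.z = S.z * c := mem_centralizer_singleton_iff.1 c.2
      refine ⟨mem_centralizer_singleton_iff.1 y.1.2, ?_, ?_⟩
      · rw [← hc']; exact conj_sq F.t_sq
      · intro hq
        rw [← hc'] at hq
        apply F.t_not_Q
        have := S.conj_mem_Q (show (c : G)⁻¹ * S.z = S.z * (c : G)⁻¹ from
          (show Commute (c : G) S.z from hcz).inv_left) hq
        have e4 : (c : G)⁻¹ * ((c : G) * F.t * (c : G)⁻¹) * (c : G)⁻¹⁻¹ = F.t := by group
        rwa [e4] at this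
    · intro x y hxy
      have hxy' := congrArg Subtype.val hxy
      exact Subtype.ext (Subtype.ext hxy')
    · rintro ⟨v, hv⟩
      obtain ⟨c, hc, e⟩ := (IsInv.of_IsT F.ht).conj_of hv
      refine ⟨⟨⟨v, mem_centralizer_singleton_iff.2 hv.comm⟩, ?_⟩, rfl⟩
      exact isConj_iff.2 ⟨⟨c, mem_centralizer_singleton_iff.2 hc⟩, Subtype.ext e⟩
  rw [h1, h2, ← h3] at h
  omega

/-- `n(z) = 960`. -/
theorem nn_z [Finite G] (hJ : ¬ IsConj F.t S.z) : nn S.z F.t S.z = 960 := by
  classical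
  unfold nn
  have e1 := Nat.card_congr (Equiv.subtypeEquivRight (fun p : G × G => F.pred_z_iff hJ p.1 p.2))
  rw [e1]
  let φ : {p : G × G // S.IsInv p.2 ∧ (p.1 ∈ S.Q ∧ p.1 * p.1 = 1 ∧ p.1 * p.2 ≠ p.2 * p.1)} ≃
      Σ v : {v : G // S.IsInv v}, {u : G // u ∈ S.Q ∧ u * u = 1 ∧ u * v.1 ≠ v.1 * u} :=
    { toFun := fun p => ⟨⟨p.1.2, p.2.1⟩, ⟨p.1.1, p.2.2⟩⟩
      invFun := fun q => ⟨(q.2.1, q.1.1), q.1.2, q.2.2⟩
      left_inv := by rintro ⟨⟨u, v⟩, h⟩; rfl
      right_inv := by rintro ⟨⟨v, hv⟩, ⟨u, hu⟩⟩; rfl }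
  rw [Nat.card_congr φ]
  letI : Fintype {v : G // S.IsInv v} := Fintype.ofFinite _
  rw [Nat.card_sigma]
  have h : ∀ v : {v : G // S.IsInv v},
      Nat.card {u : G // u ∈ S.Q ∧ u * u = 1 ∧ u * v.1 ≠ v.1 * u} = 8 := fun v => F.card_R v.2
  simp only [h, Finset.sum_const, Finset.card_univ, smul_eq_mul]
  rw [← Nat.card_eq_fintype_card, F.card_IsInv]

end Frame

end Setup

end Cfsg.Agent.Lib.HallJanko
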