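import Mathlib
import Cfsg.Agent.Lib.HallJanko.NZ
import Cfsg.Agent.Lib.HallJanko.A5Count

/-!
# Hall-Janko type groups: the number `n(t)` of Thompson's order formula

`n(t) = 3` if `|T1| = 12` and `n(t) = 195` if `T1 ≃ A₅`.
-/

set_option autoImplicit false
set_option linter.unusedSimpArgs false
set_option linter.unusedSectionVars false
set_option linter.unusedVariables false
set_option synthInstance.maxHeartbeats 400000
set_option synthInstance.maxSize 4000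
set_option maxRecDepth 100000

namespace Cfsg.Agent.Lib.HallJanko

open Equiv Subgroup

variable {G : Type*} [Group G]

/-- An involution is conjugate into any Sylow `2`-subgroup. -/
theorem exists_conj_mem_sylow {X : Type*} [Group X] [Finite X] (P : Sylow 2 X) {x : X}
    (hx : x * x = 1) : ∃ c : X, c * x * c⁻¹ ∈ (P : Subgroup X) := by
  classical
  have hp : IsPGroup 2 (zpowers x) := by
    rintro ⟨y, k, rfl⟩
    refine ⟨1, Subtype.ext ?_⟩
    have h2 : x ^ (2 : ℤ) = 1 := by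
      rw [show (2 : ℤ) = ((2 : ℕ) : ℤ) by rfl, zpow_natCast, pow_two, hx]
    show ((x ^ k : X)) ^ 2 ^ 1 = 1
    rw [pow_one, ← zpow_natCast, ← zpow_mul, mul_comm, zpow_mul]
    simp only [Nat.cast_ofNat]
    rw [h2, one_zpow]
  obtain ⟨R, hR⟩ := hp.exists_le_sylow
  obtain ⟨g, hg⟩ := MulAction.exists_smul_eq X R P
  refine ⟨g, ?_⟩
  rw [← hg]
  exact Subgroup.mem_map_of_mem _ (hR (mem_zpowers x))

namespace Setup

variable {S : Setup G}

namespace Frame

variable {F : Frame S}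

theorem conj_t_of_E [Finite G] {x : G} (hx : x ∈ F.E) (hU : x ∉ S.U) : IsConj x F.t := by
  obtain ⟨c, -, hc⟩ := (IsInv.of_IsT F.ht).conj_of (F.isInv_of_E hx hU)
  exact (isConj_iff.2 ⟨c, hc⟩).symm

theorem conj_z_of_U {u : G} (hu : u ∈ S.U) (h1 : u ≠ 1) : IsConj u S.z :=
  (isConj_of_mem_Q (U_le_Q hu) (U_sq hu) h1).symm

namespace EllD

variable (L : F.EllD)

theorem pow_conj_inj {i j : ℕ} (hi : i < 3) (hj : j < 3)
    (h : L.l ^ i * S.z * (L.l ^ i)⁻¹ = L.l ^ j * S.z * (L.l ^ j)⁻¹) : i = j := by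
  have e0 : L.l ^ 0 * S.z * (L.l ^ 0)⁻¹ = S.z := by simp
  have e1 : L.l ^ 1 * S.z * (L.l ^ 1)⁻¹ = S.a 4 := by simp [L.lz]
  have e2 : L.l ^ 2 * S.z * (L.l ^ 2)⁻¹ = S.z * S.a 4 := by
    rw [pow_two]
    calc L.l * L.l * S.z * (L.l * L.l)⁻¹ = L.l * (L.l * S.z * L.l⁻¹) * L.l⁻¹ := by group
      _ = _ := by rw [L.lz, L.la]
  have n1 : S.z ≠ S.a 4 := a4_ne_z
  have n2 : S.z ≠ S.z * S.a 4 := fun h => a4_ne_one (S := S) (mul_eq_left.mp h.symm)
  have n3 : S.a 4 ≠ S.z * S.a 4 := fun h => S.cl.z_ne (mul_eq_right.mp h.symm)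
  interval_cases i <;> interval_cases j <;> first
    | rfl
    | (exfalso; simp only [e0, e1, e2] at h; first | exact n1 h | exact n2 h | exact n3 h | exact n1 h.symm | exact n2 h.symm | exact n3 h.symm)

end EllD

namespace T1D

variable {L : F.EllD} {V : VD L} (D : T1D V)

/-- If `|T1| = 12` then `T = E ⟨l⟩`. -/
theorem T_form_12 [Finite G] (h12 : Nat.card D.T1 = 12) {g : G} (hg : g ∈ F.T) :
    ∃ j : ℕ, ∃ e ∈ F.E, g = L.l ^ j * e := by
  have hlT : L.l ∈ F.T := mem_T.2 L.lt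
  let f : Fin 3 × F.E → F.T := fun p =>
    ⟨L.l ^ p.1.1 * p.2.1, mul_mem (pow_mem hlT _) (E_le_T p.2.2)⟩
  have hinj : Function.Injective f := by
    rintro ⟨i, e⟩ ⟨j, e'⟩ h
    have h1 : L.l ^ i.1 * e.1 = L.l ^ j.1 * e'.1 := congrArg Subtype.val h
    have hcz : ∀ (m : ℕ) (x : F.E), (L.l ^ m * x.1) * S.z * (L.l ^ m * x.1)⁻¹ =
        L.l ^ m * S.z * (L.l ^ m)⁻¹ := by
      intro m x
      have h2 : x.1 * S.z = S.z * x.1 := (F.mem_E.1 x.2).1
      calc (L.l ^ m * x.1) * S.z * (L.l ^ m * x.1)⁻¹ = L.l ^ m * (x.1 * S.z) * x.1⁻¹ * (L.l ^ m)⁻¹ := by group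
        _ = L.l ^ m * (S.z * x.1) * x.1⁻¹ * (L.l ^ m)⁻¹ := by rw [h2]
        _ = _ := by group
    have h3 : L.l ^ i.1 * S.z * (L.l ^ i.1)⁻¹ = L.l ^ j.1 * S.z * (L.l ^ j.1)⁻¹ := by
      rw [← hcz i.1 e, ← hcz j.1 e', h1]
    have h4 : i.1 = j.1 := L.pow_conj_inj i.2 j.2 h3
    have h5 : i = j := Fin.ext h4
    subst h5
    have h6 := mul_left_cancel h1
    rw [Subtype.ext h6]
  have hcard : Nat.card F.T ≤ Nat.card (Fin 3 × F.E) := by
    rw [D.card_T, h12, Nat.card_prod, F.card_E, Nat.card_eq_fintype_card, Fintype.card_fin]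
  obtain ⟨⟨j, e⟩, he⟩ := (hinj.bijective_of_nat_card_le hcard).2 ⟨g, hg⟩
  exact ⟨j.1, e.1, e.2, (congrArg Subtype.val he).symm⟩

/-- If `|T1| = 12` then every involution of `T` lies in `E`. -/
theorem inv_mem_E_12 [Finite G] (h12 : Nat.card D.T1 = 12) {g : G} (hg : g ∈ F.T) (h2 : g * g = 1) :
    g ∈ F.E := by
  obtain ⟨j, e, he, rfl⟩ := D.T_form_12 h12 hg
  have hN : (L.l ^ j)⁻¹ * e * L.l ^ j ∈ F.E := by
    have := (mem_normalizer_iff.1 (inv_mem (pow_mem L.mem_NE j)) e).1 he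
    simpa using this
  have h3 : L.l ^ (j * 2) = (((L.l ^ j)⁻¹ * e * L.l ^ j) * e)⁻¹ := by
    rw [mul_two, pow_add]
    apply eq_inv_of_mul_eq_one_left
    calc L.l ^ j * L.l ^ j * ((L.l ^ j)⁻¹ * e * L.l ^ j * e) = L.l ^ j * e * (L.l ^ j * e) := by group
      _ = 1 := h2
  have h4 : L.l ^ (j * 2) * S.z = S.z * L.l ^ (j * 2) := by
    rw [h3]
    exact (F.mem_E.1 (inv_mem (mul_mem hN he))).1
  have h5 := L.comm_z_pow h4
  have h6 : 3 ∣ j := by
    rcases (Nat.Prime.dvd_mul Nat.prime_three).1 h5 with h | h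
    · exact h
    · omega
  obtain ⟨q, rfl⟩ := h6
  rw [L.pow_three_mul, one_mul]
  exact he

theorem card_U_ne : Nat.card {u : G // u ∈ S.U ∧ u ≠ 1} = 3 := by
  classical
  have n1 : S.z ≠ S.a 4 := a4_ne_z
  have n2 : S.z ≠ S.z * S.a 4 := fun h => a4_ne_one (S := S) (mul_eq_left.mp h.symm)
  have n3 : S.a 4 ≠ S.z * S.a 4 := fun h => S.cl.z_ne (mul_eq_right.mp h.symm)
  have hz1 : S.z ≠ 1 := S.cl.z_ne
  have ha1 : S.a 4 ≠ 1 := a4_ne_one
  have hza1 : S.z * S.a 4 ≠ 1 := by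
    intro h
    apply n1
    have := eq_inv_of_mul_eq_one_left h
    rw [this, S.cl.a_inv]
  have e : {u : G // u ∈ S.U ∧ u ≠ 1} ≃ {u : G // u ∈ ({S.z, S.a 4, S.z * S.a 4} : Finset G)} := by
    refine Equiv.subtypeEquivRight ?_
    intro u
    simp only [Finset.mem_insert, Finset.mem_singleton]
    constructor
    · rintro ⟨h | h | h | h, h1⟩
      · exact absurd h h1
      · exact Or.inl h
      · exact Or.inr (Or.inl h)
      · exact Or.inr (Or.inr h)
    · rintro (h | h | h)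
      · exact ⟨Or.inr (Or.inl h), h ▸ hz1⟩
      · exact ⟨Or.inr (Or.inr (Or.inl h)), h ▸ ha1⟩
      · exact ⟨Or.inr (Or.inr (Or.inr h)), h ▸ hza1⟩
  rw [Nat.card_congr e, Nat.card_eq_fintype_card, Fintype.card_coe, Finset.card_insert_of_notMem,
    Finset.card_insert_of_notMem, Finset.card_singleton]
  · simpa using n3
  · simp [n1, n2]

/-- `n(t) = 3` if `|T1| = 12`. -/
theorem nn_t_12 [Finite G] (hJ : ¬ IsConj F.t S.z) (h12 : Nat.card D.T1 = 12) :
    nn S.z F.t F.t = 3 := by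
  classical
  unfold nn
  rw [← card_U_ne (S := S)]
  symm
  have htU : F.t ∉ S.U := fun h => F.t_not_Q (U_le_Q h)
  have hm : ∀ u : {u : G // u ∈ S.U ∧ u ≠ 1}, IsConj u.1 S.z ∧ IsConj (u.1 * F.t) F.t ∧
      F.t ∈ zpowers (u.1 * (u.1 * F.t)) := by
    rintro ⟨u, hu, h1⟩
    refine ⟨conj_z_of_U hu h1, conj_t_of_E (mul_mem (F.U_le_E hu) F.t_mem_E) ?_, ?_⟩
    · intro h
      apply htU
      have := mul_mem (inv_mem hu) h
      simpa using this
    · have : u * (u * F.t) = F.t := by rw [← mul_assoc, U_sq hu, one_mul]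
      show F.t ∈ zpowers (u * (u * F.t))
      rw [this]
      exact mem_zpowers _
  refine Nat.card_congr (Equiv.ofBijective (fun u => ⟨(u.1, u.1 * F.t), hm u⟩) ⟨?_, ?_⟩)
  · intro u u' h
    have := congrArg (fun p => p.1.1) h
    exact Subtype.ext this
  · rintro ⟨⟨a, b⟩, h1, h2, h3⟩
    simp only at h1 h2 h3
    have ha := sq_of_isConj h1 S.cl.z_sq
    have hb := sq_of_isConj h2 F.t_sq
    obtain ⟨hc1, hc2⟩ := comm_of_mem_zpowers ha hb F.t_sq h3
    have haE := D.inv_mem_E_12 h12 (mem_T.2 hc1) ha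
    have hbE := D.inv_mem_E_12 h12 (mem_T.2 hc2) hb
    have haU : a ∈ S.U := by
      by_contra hU
      exact hJ ((conj_t_of_E haE hU).symm.trans h1)
    have ha1 : a ≠ 1 := by
      rintro rfl
      exact S.cl.z_ne (isConj_one_right.1 h1)
    have ht1 : F.t ≠ 1 := F.t_ne_one
    have hab : a * b * (a * b) = 1 := F.E_sq (mul_mem haE hbE)
    rcases eq_of_mem_zpowers_of_sq hab h3 with h | h
    · exact absurd h ht1
    · refine ⟨⟨a, haU, ha1⟩, ?_⟩
      apply Subtype.ext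
      show (a, a * F.t) = (a, b)
      rw [h, ← mul_assoc, ha, one_mul]

section A5

variable (θ : D.T1 ≃* alternatingGroup (Fin 5))

include θ

theorem card_T1_60 [Finite G] : Nat.card D.T1 = 60 := by
  rw [Nat.card_congr θ.toEquiv, Nat.card_eq_fintype_card]
  rfl

/-- `V` centralizes `T1`: the automorphism of `A₅` induced by `v` centralizes `U` and `l`. -/
theorem cent_VV [Finite G] {v x : G} (hv : v ∈ V.VV) (hx : x ∈ D.T1) : v * x = x * v := by
  have hvE := V.VV_le_E hv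
  have hvT := E_le_T hvE
  obtain ⟨u, hu, h⟩ := cent_A5_G D.T1 θ S.z (S.a 4) v D.z_mem D.a4_mem S.cl.z_sq (S.cl.a_sq 4) z_a4
    S.cl.z_ne a4_ne_one a4_ne_z (F.mem_E.1 hvE).1 (F.a4_comm_of_E hvE) (fun y hy => D.conj v hvT y hy)
  have hl : u * L.l * u⁻¹ = L.l := by
    rw [← h _ D.l_mem]
    exact mul_inv_eq_iff_eq_mul.mpr (V.l_VV hv).symm
  have hu1 : u = 1 := by
    have hc : L.l * u * L.l⁻¹ = u := by
      have h2 : u * L.l = L.l * u := by
        calc u * L.l = u * L.l * u⁻¹ * u := by group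
          _ = L.l * u := by rw [hl]
      rw [← h2]; group
    rcases hu with h | h | h | h
    · exact h
    · exfalso; rw [h, L.lz] at hc; exact a4_ne_z hc.symm
    · exfalso; rw [h, L.la] at hc; exact S.cl.z_ne (mul_eq_right.mp hc)
    · exfalso; rw [h, L.lza] at hc
      exact a4_ne_one (S := S) (mul_eq_left.mp hc.symm)
  have h3 := h x hx
  rw [hu1] at h3
  simp only [one_mul, inv_one, mul_one] at h3
  exact mul_inv_eq_iff_eq_mul.mp h3

/-- An involution of `T1` is conjugate in `T1` into `U`. -/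
theorem inv_conj_U [Finite G] {x : G} (hx : x ∈ D.T1) (h2 : x * x = 1) :
    ∃ c ∈ D.T1, c * x * c⁻¹ ∈ S.U := by
  classical
  have hle : S.U ≤ D.T1 := D.U_le
  have hc : Nat.card (S.U.subgroupOf D.T1) = 4 := by
    rw [Nat.card_congr (Subgroup.subgroupOfEquivOfLe hle).toEquiv, card_U]
  have hp : IsPGroup 2 (S.U.subgroupOf D.T1) := by
    apply IsPGroup.of_card (n := 2)
    rw [hc]
    norm_num
  have hi : (S.U.subgroupOf D.T1).index = 15 := by
    have := Subgroup.card_mul_index (S.U.subgroupOf D.T1)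
    rw [hc, D.card_T1_60 θ] at this
    omega
  let P : Sylow 2 D.T1 := hp.toSylow (by rw [hi]; norm_num)
  obtain ⟨c, hc'⟩ := exists_conj_mem_sylow P (x := ⟨x, hx⟩) (Subtype.ext h2)
  refine ⟨c.1, c.2, ?_⟩
  exact Subgroup.mem_subgroupOf.1 hc'

/-- An involution of `T1` is conjugate to `z`. -/
theorem I_of_T1 [Finite G] {x : G} (hx : x ∈ D.T1) (h2 : x * x = 1) (h1 : x ≠ 1) : IsConj x S.z := by
  obtain ⟨c, hc, h⟩ := D.inv_conj_U θ hx h2
  have h3 : c * x * c⁻¹ ≠ 1 := by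
    intro h4
    apply h1
    have : c * x = c := by
      calc c * x = (c * x * c⁻¹) * c := by group
        _ = c := by rw [h4, one_mul]
    simpa using this
  exact (isConj_iff.2 ⟨c, rfl⟩).trans (conj_z_of_U h h3)

/-- A product of a nontrivial element of `V` with an element of `T1` of order dividing `2` is
conjugate to `t`. -/
theorem J_of_T1 [Finite G] {v x : G} (hv : v ∈ V.VV) (hv1 : v ≠ 1) (hx : x ∈ D.T1) (h2 : x * x = 1) :
    IsConj (v * x) F.t := by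
  obtain ⟨c, hc, h⟩ := D.inv_conj_U θ hx h2
  have hvE := V.VV_le_E hv
  have hvU := V.not_U_of_VV hv hv1
  have h3 : c * (v * x) * c⁻¹ = v * (c * x * c⁻¹) := by
    have h4 : c * v = v * c := (D.cent_VV θ hv hc).symm
    calc c * (v * x) * c⁻¹ = (c * v) * x * c⁻¹ := by group
      _ = (v * c) * x * c⁻¹ := by rw [h4]
      _ = _ := by group
  have h5 : v * (c * x * c⁻¹) ∈ F.E := mul_mem hvE (F.U_le_E h)
  have h6 : v * (c * x * c⁻¹) ∉ S.U := by
    intro h7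
    apply hvU
    have := mul_mem h7 (inv_mem h)
    rwa [mul_inv_cancel_right] at this
  have e : IsConj (v * x) (c * (v * x) * c⁻¹) := isConj_iff.2 ⟨c, rfl⟩
  rw [h3] at e
  exact e.trans (conj_t_of_E h5 h6)

/-- The form of a pair in `n(t)`. -/
theorem pred_t_form [Finite G] (hJ : ¬ IsConj F.t S.z) {u v : G} (h1 : IsConj u S.z)
    (h2 : IsConj v F.t) (h3 : F.t ∈ zpowers (u * v)) :
    u ∈ D.T1 ∧ u * u = 1 ∧ u ≠ 1 ∧ ∃ x' ∈ D.T1, v = F.t * x' ∧ x' * x' = 1 ∧ x' ≠ 1 ∧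
      Odd (orderOf (u * x')) := by
  have hu := sq_of_isConj h1 S.cl.z_sq
  have hv := sq_of_isConj h2 F.t_sq
  obtain ⟨hc1, hc2⟩ := comm_of_mem_zpowers hu hv F.t_sq h3
  obtain ⟨lam, hlam, x, hx, rfl⟩ := D.form (mem_T.2 hc1)
  obtain ⟨mu, hmu, x', hx', rfl⟩ := D.form (mem_T.2 hc2)
  have hlx := D.cent_VV θ hlam hx
  have hmx' := D.cent_VV θ hmu hx'
  have hmx := D.cent_VV θ hmu hx
  have sq_of : ∀ {w y : G}, w ∈ V.VV → y ∈ D.T1 → w * y = y * w → w * y * (w * y) = 1 → y * y = 1 := by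
    intro w y hw hy hwy h
    have h4 : w * y * (w * y) = (w * w) * (y * y) := by
      calc w * y * (w * y) = w * (y * w) * y := by group
        _ = w * (w * y) * y := by rw [← hwy]
        _ = _ := by group
    rw [h4, V.VV_sq hw, one_mul] at h
    exact h
  have hxx := sq_of hlam hx hlx hu
  have hx'x' := sq_of hmu hx' hmx' hv
  have hlam1 : lam = 1 := by
    by_contra hne
    exact hJ ((D.J_of_T1 θ hlam hne hx hxx).symm.trans h1)
  subst hlam1
  rw [one_mul] at h1 h3 hu hc1 ⊢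
  have hx1 : x ≠ 1 := by
    rintro rfl
    exact S.cl.z_ne (isConj_one_right.1 h1)
  have hmu1 : mu ≠ 1 := by
    rintro rfl
    rw [one_mul] at h2
    by_cases h : x' = 1
    · subst h
      exact F.t_ne_one (isConj_one_right.1 h2)
    · exact hJ (h2.symm.trans (D.I_of_T1 θ hx' hx'x' h))
  have e1 : x * (mu * x') = mu * (x * x') := by
    rw [← mul_assoc, ← hmx, mul_assoc]
  rw [e1] at h3
  have hw : x * x' ∈ D.T1 := mul_mem hx hx'
  have hcm : Commute mu (x * x') := D.cent_VV θ hmu hw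
  obtain ⟨k, hk⟩ := mem_zpowers_iff.1 h3
  rw [hcm.mul_zpow] at hk
  have hmk : mu ^ k ∈ V.VV := zpow_mem hmu k
  have hwk : (x * x') ^ k ∈ D.T1 := zpow_mem hw k
  have htV : F.t ∈ V.VV := Or.inr (Or.inl rfl)
  obtain ⟨hf1, hf2⟩ := D.form_unique hmk htV hwk (one_mem _) (by rw [hk, mul_one])
  have hm2 : mu ^ (2 : ℤ) = 1 := by
    rw [show (2 : ℤ) = ((2 : ℕ) : ℤ) by rfl, zpow_natCast, pow_two, V.VV_sq hmu]
  have hkodd : Odd k := by
    rcases Int.even_or_odd' k with ⟨m, rfl | rfl⟩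
    · exfalso
      rw [zpow_mul, hm2, one_zpow] at hf1
      exact F.t_ne_one hf1.symm
    · exact ⟨m, rfl⟩
  have hmut : mu = F.t := by
    obtain ⟨m, rfl⟩ := hkodd
    rwa [zpow_add, zpow_mul, hm2, one_zpow, one_mul, zpow_one] at hf1
  have hodd : Odd (orderOf (x * x')) := by
    have hdvd : (orderOf (x * x') : ℤ) ∣ k := orderOf_dvd_iff_zpow_eq_one.2 hf2
    obtain ⟨c, hc⟩ := hdvd
    rw [hc, Int.odd_mul] at hkodd
    exact (Int.odd_coe_nat _).1 hkodd.1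
  refine ⟨hx, hxx, hx1, x', hx', by rw [hmut], hx'x', ?_, hodd⟩
  rintro rfl
  rw [mul_one] at hodd
  have h5 : orderOf x ∣ 2 := orderOf_dvd_of_pow_eq_one (by rw [pow_two, hxx])
  have h6 : Nat.Coprime (orderOf x) 2 := Nat.coprime_two_right.2 hodd
  have h7 : orderOf x = 1 := Nat.Coprime.eq_one_of_dvd h6 h5
  exact hx1 (orderOf_eq_one_iff.1 h7)

/-- The converse. -/
theorem pred_t_of [Finite G] {x x' : G} (hx : x ∈ D.T1) (hx' : x' ∈ D.T1) (h2 : x * x = 1)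
    (h2' : x' * x' = 1) (h1 : x ≠ 1) (hodd : Odd (orderOf (x * x'))) :
    IsConj x S.z ∧ IsConj (F.t * x') F.t ∧ F.t ∈ zpowers (x * (F.t * x')) := by
  have htV : F.t ∈ V.VV := Or.inr (Or.inl rfl)
  refine ⟨D.I_of_T1 θ hx h2 h1, D.J_of_T1 θ htV F.t_ne_one hx' h2', ?_⟩
  have e1 : x * (F.t * x') = F.t * (x * x') := by
    rw [← mul_assoc, ← D.cent_VV θ htV hx, mul_assoc]
  rw [e1]
  have hcm : Commute F.t (x * x') := D.cent_VV θ htV (mul_mem hx hx')
  obtain ⟨m, hm⟩ := hodd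
  have h3 : (F.t * (x * x')) ^ orderOf (x * x') = F.t := by
    rw [hcm.mul_pow, pow_orderOf_eq_one, mul_one, hm, pow_succ, pow_mul, pow_two, F.t_sq, one_pow,
      one_mul]
  have h4 := pow_mem (mem_zpowers (F.t * (x * x'))) (orderOf (x * x'))
  rwa [h3] at h4

/-- `n(t) = 195` if `T1 ≃ A₅`. -/
theorem nn_t_60 [Finite G] (hJ : ¬ IsConj F.t S.z) : nn S.z F.t F.t = 195 := by
  classical
  rw [← oddPairs_A5, ← oddPairs_congr θ]
  unfold nn oddPairs
  symm
  have hm : ∀ q : {q : D.T1 × D.T1 // q.1 * q.1 = 1 ∧ q.2 * q.2 = 1 ∧ q.1 ≠ 1 ∧ q.2 ≠ 1 ∧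
      Odd (orderOf (q.1 * q.2))}, IsConj q.1.1.1 S.z ∧ IsConj (F.t * q.1.2.1) F.t ∧
      F.t ∈ zpowers (q.1.1.1 * (F.t * q.1.2.1)) := by
    rintro ⟨⟨a, b⟩, h1, h2, h3, h4, h5⟩
    refine D.pred_t_of θ a.2 b.2 (congrArg Subtype.val h1) (congrArg Subtype.val h2)
      (fun h => h3 (Subtype.ext h)) ?_
    have : orderOf ((a : G) * b) = orderOf (a * b) := Subgroup.orderOf_coe (a * b)
    rw [this]
    exact h5
  refine Nat.card_congr (Equiv.ofBijective
    (fun q => ⟨(q.1.1.1, F.t * q.1.2.1), hm q⟩) ⟨?_, ?_⟩)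
  · rintro ⟨⟨a, b⟩, h⟩ ⟨⟨a', b'⟩, h'⟩ heq
    have h1 := congrArg Subtype.val heq
    simp only [Prod.mk.injEq, mul_right_inj] at h1
    exact Subtype.ext (Prod.ext (Subtype.ext h1.1) (Subtype.ext h1.2))
  · rintro ⟨⟨u, v⟩, h1, h2, h3⟩
    simp only at h1 h2 h3
    obtain ⟨hu, huu, hu1, x', hx', rfl, hxx, hx1, hodd⟩ := D.pred_t_form θ hJ h1 h2 h3
    refine ⟨⟨(⟨u, hu⟩, ⟨x', hx'⟩), Subtype.ext huu, Subtype.ext hxx,
      fun h => hu1 (congrArg Subtype.val h), fun h => hx1 (congrArg Subtype.val h), ?_⟩, rfl⟩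
    have : orderOf (u * x') = orderOf ((⟨u, hu⟩ : D.T1) * ⟨x', hx'⟩) :=
      Subgroup.orderOf_coe ((⟨u, hu⟩ : D.T1) * ⟨x', hx'⟩)
    rw [← this]
    exact hodd

end A5

end T1D

end Frame

end Setup

end Cfsg.Agent.Lib.HallJanko
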