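import Mathlib
import Cfsg.Agent.Lib.HallJanko.NT

/-!
# Hall-Janko type groups: the order of `G`

Thompson's order formula gives `|G| = 604800` or `|G| = 51840`, and the latter is impossible.
-/

set_option autoImplicit false
set_option linter.unusedSimpArgs false
set_option linter.unusedSectionVars false
set_option linter.unusedVariables false
set_option synthInstance.maxHeartbeats 400000
set_option synthInstance.maxSize 4000
set_option maxRecDepth 100000

namespace Cfsg.Agent.Lib.HallJanko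

open Equiv Subgroup

variable {G : Type*} [Group G]

theorem qw_inv_count : (Finset.univ.filter (fun w : QW => qmul w w = qone ∧ w ≠ qone)).card = 11 := by
  decide

theorem qw_sq : ∀ w : QW, qmul w w = qone ∨ qmul w w = qz := by decide

theorem perm5_no_fix : ∀ σ : Perm (Fin 5), σ ^ 5 = 1 → σ ≠ 1 → ∀ i, σ i ≠ i := by decide

namespace Setup

variable {S : Setup G}

/-- The number of involutions of `Q`. -/
theorem card_inv_Q : Nat.card {w : G // w ∈ S.Q ∧ w * w = 1 ∧ w ≠ 1} = 11 := by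
  classical
  have hbij : Function.Bijective (fun w : {w : QW // qmul w w = qone ∧ w ≠ qone} =>
      (⟨ev S.z S.a w.1, S.mem_Q w.1, by
          rw [S.cl.ev_mul, w.2.1, S.cl.ev_one], by
          rw [Ne, S.cl.ev_eq_one_iff]; exact w.2.2⟩ :
        {w : G // w ∈ S.Q ∧ w * w = 1 ∧ w ≠ 1})) := by
    constructor
    · intro w w' h
      exact Subtype.ext (S.cl.ev_injective (congrArg Subtype.val h))
    · rintro ⟨u, hu, h1, h2⟩
      obtain ⟨w, rfl⟩ := (S.Q_mem u).1 hu
      refine ⟨⟨w, ?_, ?_⟩, rfl⟩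
      · apply S.cl.ev_injective
        rw [← S.cl.ev_mul, h1, S.cl.ev_one]
      · intro h
        apply h2
        rw [h, S.cl.ev_one]
  rw [← Nat.card_congr (Equiv.ofBijective _ hbij), Nat.card_eq_fintype_card, Fintype.card_subtype]
  exact qw_inv_count

/-- Signed generators with different indices anticommute. -/
theorem anti_signed {b b' : G} {i j : Fin 5} (hb : b = S.a i ∨ b = S.z * S.a i)
    (hb' : b' = S.a j ∨ b' = S.z * S.a j) (hij : i ≠ j) : b * b' = S.z * (b' * b) := by
  have h := S.cl.anti i j hij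
  have hz : ∀ k, S.z * S.a k = S.a k * S.z := fun k => (S.cl.a_z k).symm
  rcases hb with rfl | rfl <;> rcases hb' with rfl | rfl
  · exact h
  · calc S.a i * (S.z * S.a j) = S.z * (S.a i * S.a j) := by
          rw [← mul_assoc, S.cl.a_z i, mul_assoc]
      _ = S.z * (S.z * (S.a j * S.a i)) := by rw [h]
      _ = S.z * (S.z * S.a j * S.a i) := by simp only [mul_assoc]
  · calc S.z * S.a i * S.a j = S.z * (S.a i * S.a j) := by rw [mul_assoc]
      _ = S.z * (S.z * (S.a j * S.a i)) := by rw [h]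
      _ = S.z * (S.a j * (S.z * S.a i)) := by
          rw [← mul_assoc (S.a j) S.z, S.cl.a_z j, mul_assoc]
  · calc S.z * S.a i * (S.z * S.a j) = S.z * (S.a i * S.z) * S.a j := by simp only [mul_assoc]
      _ = S.z * (S.z * S.a i) * S.a j := by rw [S.cl.a_z i]
      _ = S.a i * S.a j := by rw [← mul_assoc, S.cl.z_sq, one_mul]
      _ = S.z * (S.a j * S.a i) := h
      _ = S.z * (S.z * S.a j * (S.z * S.a i)) := by
          have : S.z * S.a j * (S.z * S.a i) = S.a j * S.a i := by
            calc S.z * S.a j * (S.z * S.a i) = S.z * (S.a j * S.z) * S.a i := by simp only [mul_assoc]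
              _ = S.z * (S.z * S.a j) * S.a i := by rw [S.cl.a_z j]
              _ = _ := by rw [← mul_assoc, S.cl.z_sq, one_mul]
          rw [this]

namespace Frame

variable {F : Frame S}

/-- A group of order `51840` does not occur. -/
theorem no_51840 [Finite G] (hJ : ¬ IsConj F.t S.z) (h : Nat.card G = 51840) : False := by
  classical
  let _ : Fintype G := Fintype.ofFinite G
  -- the class of `z`
  have h27 : Nat.card {w : G // IsConj w S.z} = 27 := by
    have h1 := Cfsg.Agent.Lib.Basic.ConjCount.card_isConj_mul_card_centralizer S.z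
    rw [S.card_C, h] at h1
    have h2 : Nat.card {w : G // IsConj w S.z} = Nat.card {y : G // IsConj S.z y} :=
      Nat.card_congr (Equiv.subtypeEquivRight fun w => isConj_comm)
    rw [h2]
    omega
  have h11 : Nat.card {w : G // IsConj w S.z ∧ w * S.z = S.z * w} = 11 := by
    rw [← card_inv_Q (S := S)]
    refine Nat.card_congr (Equiv.subtypeEquivRight fun w => ?_)
    constructor
    · rintro ⟨h1, h2⟩
      have h3 := sq_of_isConj h1 S.cl.z_sq
      refine ⟨F.mem_Q_of_conj hJ h2 h3 h1, h3, ?_⟩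
      rintro rfl
      exact S.cl.z_ne (isConj_one_right.1 h1)
    · rintro ⟨h1, h2, h3⟩
      exact ⟨(isConj_of_mem_Q h1 h2 h3).symm, S.comm_z_of_mem_Q h1⟩
  have h16 : Nat.card {w : G // IsConj w S.z ∧ ¬ w * S.z = S.z * w} = 16 := by
    have h1 := Finset.card_filter_add_card_filter_not (s := Finset.univ.filter (fun w : G => IsConj w S.z))
      (fun w : G => w * S.z = S.z * w)
    rw [Finset.filter_filter, Finset.filter_filter] at h1
    simp only [Nat.card_eq_fintype_card, Fintype.card_subtype] at h27 h11 ⊢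
    omega
  -- an element of order `5`
  have hC : Nat.card (centralizer ({S.z} : Set G)) = 1920 := S.card_C
  have : Fact (Nat.Prime 5) := ⟨by norm_num⟩
  obtain ⟨f₀, hf₀⟩ := exists_prime_orderOf_dvd_card' (G := centralizer ({S.z} : Set G)) 5 (by rw [hC]; norm_num)
  set f : G := f₀.1 with hfdef
  have hfz : f * S.z = S.z * f := mem_centralizer_singleton_iff.1 f₀.2
  have hf5 : orderOf f = 5 := by rw [hfdef, Subgroup.orderOf_coe, hf₀]
  have hf5' : f ^ 5 = 1 := by rw [← hf5]; exact pow_orderOf_eq_one f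
  obtain ⟨σ, hσ, ha⟩ := S.acts f hfz
  have hσ5 : σ ^ 5 = 1 := by
    have h1 := S.cl.acts_pow hfz ha 5
    rw [hf5'] at h1
    exact S.cl.acts_unique h1 S.cl.acts_one_one
  have hσ1 : σ ≠ 1 := by
    rintro rfl
    have h1 := S.ker f hfz ha
    have h2 : orderOf (⟨f, h1⟩ : S.Q) ∣ Nat.card S.Q := orderOf_dvd_natCard _
    rw [S.card_Q, ← Subgroup.orderOf_coe] at h2
    simp only at h2
    rw [hf5] at h2
    omega
  have hfix := perm5_no_fix σ hσ5 hσ1
  -- a fixed point of `f`
  let X := {w : G // IsConj w S.z ∧ ¬ w * S.z = S.z * w}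
  have hconjX : ∀ c : G, c * S.z = S.z * c → ∀ w : X, c * w.1 * c⁻¹ ∈
      {w : G | IsConj w S.z ∧ ¬ w * S.z = S.z * w} := by
    intro c hc w
    refine ⟨(isConj_iff.2 ⟨c⁻¹, by group⟩ : IsConj (c * w.1 * c⁻¹) w.1).trans w.2.1, ?_⟩
    intro h1
    apply w.2.2
    have hci : c⁻¹ * S.z = S.z * c⁻¹ := (show Commute c S.z from hc).inv_left
    have h2 := conj_comm hci h1
    have e : c⁻¹ * (c * w.1 * c⁻¹) * c⁻¹⁻¹ = w.1 := by group
    rwa [e] at h2
  let φ : Function.End X := fun w => ⟨f * w.1 * f⁻¹, hconjX f hfz w⟩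
  have hφ : φ ^ 5 ^ 1 = 1 := by
    have hpow : ∀ (n : ℕ) (w : X), ((φ ^ n) w).1 = f ^ n * w.1 * (f ^ n)⁻¹ := by
      intro n w
      induction n with
      | zero =>
        rw [pow_zero]
        show w.1 = _
        simp
      | succ n ih =>
        rw [pow_succ']
        show f * ((φ ^ n) w).1 * f⁻¹ = _
        rw [ih, pow_succ']
        group
    funext w
    apply Subtype.ext
    rw [hpow, pow_one, hf5']
    show _ = w.1
    simp
  have hmod := Equiv.Perm.card_fixedPoints_modEq hφ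
  have hX : Fintype.card X = 16 := by
    rw [← Nat.card_eq_fintype_card]; exact h16
  have hne : Nonempty (Function.fixedPoints φ) := by
    by_contra hemp
    rw [not_nonempty_iff] at hemp
    rw [hX, Fintype.card_eq_zero] at hmod
    revert hmod
    decide
  obtain ⟨⟨⟨w₀, hw₀⟩, hw⟩⟩ := hne
  have hfw : f * w₀ * f⁻¹ = w₀ := congrArg Subtype.val hw
  -- pigeonhole for `Q`
  let ψ : S.Q → X := fun q => ⟨q.1 * w₀ * q.1⁻¹, hconjX q.1 (S.comm_z_of_mem_Q q.2) ⟨w₀, hw₀⟩⟩
  have hlt : Nat.card X < Nat.card S.Q := by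
    rw [S.card_Q]
    have : Nat.card X = 16 := h16
    omega
  obtain ⟨q, q', hqq, hψ⟩ : ∃ q q' : S.Q, q ≠ q' ∧ ψ q = ψ q' := by
    by_contra hcon
    push_neg at hcon
    have hinj : Function.Injective ψ := fun q q' h => by_contra (fun hn => hcon q q' hn h)
    have := Nat.card_le_card_of_injective ψ hinj
    omega
  have hψ' : q.1 * w₀ * q.1⁻¹ = q'.1 * w₀ * q'.1⁻¹ := congrArg Subtype.val hψ
  set b : G := q'.1⁻¹ * q.1 with hb
  have hbQ : b ∈ S.Q := mul_mem (inv_mem q'.2) q.2
  have hb1 : b ≠ 1 := by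
    intro h1
    apply hqq
    apply Subtype.ext
    have := inv_mul_eq_one.1 h1
    exact this.symm
  have hbw : b * w₀ = w₀ * b := by
    rw [hb]
    calc q'.1⁻¹ * q.1 * w₀ = q'.1⁻¹ * (q.1 * w₀ * q.1⁻¹) * q.1 := by group
      _ = q'.1⁻¹ * (q'.1 * w₀ * q'.1⁻¹) * q.1 := by rw [hψ']
      _ = _ := by group
  have hbz : b ≠ S.z := by
    intro h1
    rw [h1] at hbw
    exact hw₀.2 hbw.symm
  have hbb : b * b = 1 := by
    obtain ⟨u, hu⟩ := (S.Q_mem b).1 hbQ
    rcases qw_sq u with h1 | h1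
    · rw [hu, S.cl.ev_mul, h1, S.cl.ev_one]
    · exfalso
      have h2 : b * b = S.z := by rw [hu, S.cl.ev_mul, h1, S.cl.ev_qz]
      apply hw₀.2
      have hbb2 : (b * b) * w₀ = w₀ * (b * b) := by
        rw [mul_assoc, hbw, ← mul_assoc, hbw, mul_assoc]
      rw [h2] at hbb2
      exact hbb2.symm
  obtain ⟨i, hi⟩ : ∃ i, b = S.a i ∨ b = S.z * S.a i := by
    rcases S.inv_cases hbQ hbb with h1 | h1 | ⟨i, h1 | h1⟩
    · exact absurd h1 hb1
    · exact absurd h1 hbz
    · exact ⟨i, Or.inl h1⟩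
    · exact ⟨i, Or.inr h1⟩
  have hb' : f * b * f⁻¹ = S.a (σ i) ∨ f * b * f⁻¹ = S.z * S.a (σ i) := by
    have hzf : f * S.z * f⁻¹ = S.z := by rw [hfz]; group
    rcases hi with h1 | h1 <;> rcases ha i with h2 | h2
    · left; rw [h1, h2]
    · right; rw [h1, h2]
    · right
      rw [h1]
      calc f * (S.z * S.a i) * f⁻¹ = (f * S.z * f⁻¹) * (f * S.a i * f⁻¹) := by group
        _ = _ := by rw [hzf, h2]
    · left
      rw [h1]
      calc f * (S.z * S.a i) * f⁻¹ = (f * S.z * f⁻¹) * (f * S.a i * f⁻¹) := by group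
        _ = _ := by rw [hzf, h2, ← mul_assoc, S.cl.z_sq, one_mul]
  have hanti := anti_signed hi hb' (hfix i).symm
  have hb'w : (f * b * f⁻¹) * w₀ = w₀ * (f * b * f⁻¹) := by
    have := conj_comm (g := f) (x := b) (w := w₀) (mul_inv_eq_iff_eq_mul.mp hfw) hbw
    exact this
  -- `z = [b, b']` commutes with `w`
  apply hw₀.2
  set b' := f * b * f⁻¹ with hb'def
  have hz : S.z = b * b' * (b' * b)⁻¹ := by
    rw [hanti]; group
  have hinv : (b' * b)⁻¹ * w₀ = w₀ * (b' * b)⁻¹ := by
    have : (b' * b) * w₀ = w₀ * (b' * b) := by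
      rw [mul_assoc, hbw, ← mul_assoc, hb'w, mul_assoc]
    exact (show Commute (b' * b) w₀ from this).inv_left
  have h1 : (b * b') * w₀ = w₀ * (b * b') := by
    rw [mul_assoc, hb'w, ← mul_assoc, hbw, mul_assoc]
  have h2 : (b * b' * (b' * b)⁻¹) * w₀ = w₀ * (b * b' * (b' * b)⁻¹) := by
    rw [mul_assoc, hinv, ← mul_assoc, h1, mul_assoc]
  rw [← hz] at h2
  exact h2.symm

namespace T1D

variable {L : F.EllD} {V : VD L} (D : T1D V)

/-- `|G| = 604800`, `T1 ≃ A₅`. -/
theorem order [Finite G] (hJ : ¬ IsConj F.t S.z) : Nat.card D.T1 = 60 ∧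
    Nonempty (D.T1 ≃* alternatingGroup (Fin 5)) ∧ Nat.card G = 604800 := by
  have hall : ∀ w : G, w * w = 1 → w ≠ 1 → IsConj w S.z ∨ IsConj w F.t :=
    fun w h1 h2 => F.all_inv h1 h2
  have hform := order_formula S.z F.t S.cl.z_sq S.cl.z_ne F.t_sq F.t_ne_one
    (fun h => hJ h.symm) hall
  rw [F.nn_z hJ, S.card_C] at hform
  have hT := D.card_T
  rcases D.cases with h12 | ⟨h60, ⟨θ⟩⟩
  · exfalso
    rw [D.nn_t_12 hJ h12, hT, h12] at hform
    exact no_51840 hJ hform
  · refine ⟨h60, ⟨θ⟩, ?_⟩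
    rw [D.nn_t_60 θ hJ, hT, h60] at hform
    exact hform

end T1D

end Frame

end Setup

end Cfsg.Agent.Lib.HallJanko
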