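import Mathlib
import Cfsg.Agent.S0288
import Cfsg.Agent.S0290

/-!
# `Ω⁻₄(2) ≃ A₅`

The isometry group of the elliptic quadratic form on `𝔽₂⁴` has order `120` (S0288) and acts faithfully on
the five nonzero singular vectors (S0290 counts them), so it is `S₅`; its commutator subgroup is `A₅`.
-/

set_option autoImplicit false

namespace Cfsg.Agent.Lib.HallJanko

open Subgroup Matrix

/-- Index type of the elliptic form in dimension 4. -/
abbrev OmIdx := (Fin 1 ⊕ Fin 1) ⊕ Fin 2

/-- The elliptic form on `𝔽₂⁴`. -/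
abbrev OmQ : (OmIdx → ZMod 2) → ZMod 2 := Cfsg.quadFormMinus 1 (ZMod 2) 1 1

/-- The five nonzero singular vectors. -/
abbrev OmSing := {v : OmIdx → ZMod 2 // v ≠ 0 ∧ OmQ v = 0}

theorem om_hab : ∀ z₁ z₂ : ZMod 2, z₁ ^ 2 + 1 * z₁ * z₂ + 1 * z₂ ^ 2 = 0 → z₁ = 0 ∧ z₂ = 0 := by
  decide

theorem card_omIso : Nat.card (Cfsg.isometryGroup (ZMod 2) OmQ) = 120 := by
  have h := Cfsg.Agent.S0288.result (F := ZMod 2) (q := 2) (by simp [ZMod.card]) 2 (by norm_num) 1 1 om_hab
  simpa using h

theorem card_omSing : Nat.card OmSing = 5 := by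
  have h := Cfsg.Agent.S0290.result (F := ZMod 2) (q := 2) (by simp [ZMod.card]) 2 (by norm_num) 1 1 om_hab
  have h6 : Nat.card {v : OmIdx → ZMod 2 // OmQ v = 0} = 6 := by simpa using h
  classical
  have hz : OmQ 0 = 0 := by simp [OmQ, Cfsg.quadFormMinus]
  let e : {v : OmIdx → ZMod 2 // OmQ v = 0} ≃ Option OmSing :=
    { toFun := fun v => if h0 : v.1 = 0 then none else some ⟨v.1, h0, v.2⟩
      invFun := fun o => match o with
        | none => ⟨0, hz⟩
        | some v => ⟨v.1, v.2.2⟩
      left_inv := by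
        rintro ⟨v, hv⟩
        by_cases h0 : v = 0
        · subst h0; simp
        · simp [h0]
      right_inv := by
        rintro (_ | ⟨v, hv, hq⟩)
        · simp
        · simp [hv] }
  have := Nat.card_congr e
  rw [h6, Finite.card_option] at this
  omega

/-- The action of an isometry on the singular vectors. -/
noncomputable def omFun (g : Cfsg.isometryGroup (ZMod 2) OmQ) (v : OmSing) : OmSing :=
  ⟨(g.1 : Matrix OmIdx OmIdx (ZMod 2)) *ᵥ v.1, by
    intro h0
    apply v.2.1
    have := congrArg (fun w => ((g⁻¹).1 : Matrix OmIdx OmIdx (ZMod 2)) *ᵥ w) h0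
    simp only [Matrix.mulVec_mulVec, Matrix.mulVec_zero] at this
    simpa using this, by
    have h := g.2 v.1 v.1
    have h' : OmQ ((g.1 : Matrix OmIdx OmIdx (ZMod 2)) *ᵥ v.1) = OmQ v.1 := h
    rw [h', v.2.2]⟩

theorem omFun_val (g : Cfsg.isometryGroup (ZMod 2) OmQ) (v : OmSing) :
    (omFun g v).1 = (g.1 : Matrix OmIdx OmIdx (ZMod 2)) *ᵥ v.1 := rfl

theorem omFun_mul (g h : Cfsg.isometryGroup (ZMod 2) OmQ) (v : OmSing) :
    omFun (g * h) v = omFun g (omFun h v) := by
  apply Subtype.ext
  simp [omFun_val, Matrix.mulVec_mulVec]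

theorem omFun_one (v : OmSing) : omFun 1 v = v := by
  apply Subtype.ext
  simp [omFun_val]

/-- The permutation action on singular vectors. -/
noncomputable def omAct : Cfsg.isometryGroup (ZMod 2) OmQ →* Equiv.Perm OmSing :=
  MonoidHom.mk'
    (fun g =>
      { toFun := omFun g
        invFun := omFun g⁻¹
        left_inv := fun v => by rw [← omFun_mul]; simp [omFun_one]
        right_inv := fun v => by rw [← omFun_mul]; simp [omFun_one] })
    (fun g h => Equiv.ext fun v => omFun_mul g h v)

/-- A vector from its four coordinates. -/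
def omVec (x y a b : ZMod 2) : OmIdx → ZMod 2 :=
  Sum.elim (Sum.elim (fun _ => x) (fun _ => y)) ![a, b]

theorem omQ_omVec (x y a b : ZMod 2) : OmQ (omVec x y a b) = x * y + (a ^ 2 + 1 * a * b + 1 * b ^ 2) := by
  simp [OmQ, Cfsg.quadFormMinus, omVec]

theorem omAct_injective : Function.Injective omAct := by
  rw [injective_iff_map_eq_one]
  intro g hg
  have key : ∀ (x y a b : ZMod 2), (x, y, a, b) ≠ (0, 0, 0, 0) →
      x * y + (a ^ 2 + 1 * a * b + 1 * b ^ 2) = 0 →
      (g.1 : Matrix OmIdx OmIdx (ZMod 2)) *ᵥ omVec x y a b = omVec x y a b := by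
    intro x y a b hne hq
    have hv : omVec x y a b ≠ 0 := by
      intro h0
      apply hne
      have h1 := congrFun h0 (.inl (.inl 0))
      have h2 := congrFun h0 (.inl (.inr 0))
      have h3 := congrFun h0 (.inr 0)
      have h4 := congrFun h0 (.inr 1)
      simp [omVec] at h1 h2 h3 h4
      simp [h1, h2, h3, h4]
    have := congrArg (fun p : Equiv.Perm OmSing => (p ⟨omVec x y a b, hv, by rw [omQ_omVec]; exact hq⟩).1) hg
    exact this
  have e1 := key 1 0 0 0 (by decide) (by decide)
  have e2 := key 0 1 0 0 (by decide) (by decide)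
  have u1 := key 1 1 1 0 (by decide) (by decide)
  have u2 := key 1 1 0 1 (by decide) (by decide)
  have add : ∀ (x y a b x' y' a' b' : ZMod 2), omVec (x + x') (y + y') (a + a') (b + b') = omVec x y a b + omVec x' y' a' b' := by
    intro x y a b x' y' a' b'
    funext i
    rcases i with (i | i) | i
    · simp [omVec]
    · simp [omVec]
    · fin_cases i <;> simp [omVec]
  have e3 : (g.1 : Matrix OmIdx OmIdx (ZMod 2)) *ᵥ omVec 0 0 1 0 = omVec 0 0 1 0 := by
    have h1 : omVec 0 0 1 0 = omVec 1 1 1 0 + (omVec 1 0 0 0 + omVec 0 1 0 0) := by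
      rw [← add, ← add]; congr 1
    rw [h1, Matrix.mulVec_add, Matrix.mulVec_add, u1, e1, e2]
  have e4 : (g.1 : Matrix OmIdx OmIdx (ZMod 2)) *ᵥ omVec 0 0 0 1 = omVec 0 0 0 1 := by
    have h1 : omVec 0 0 0 1 = omVec 1 1 0 1 + (omVec 1 0 0 0 + omVec 0 1 0 0) := by
      rw [← add, ← add]; congr 1
    rw [h1, Matrix.mulVec_add, Matrix.mulVec_add, u2, e1, e2]
  have hs : ∀ j : OmIdx, (g.1 : Matrix OmIdx OmIdx (ZMod 2)) *ᵥ Pi.single j 1 = Pi.single j 1 := by
    intro j
    have sj : ∀ (x y a b : ZMod 2) (j : OmIdx), omVec x y a b = Pi.single j 1 →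
        (g.1 : Matrix OmIdx OmIdx (ZMod 2)) *ᵥ omVec x y a b = omVec x y a b →
        (g.1 : Matrix OmIdx OmIdx (ZMod 2)) *ᵥ Pi.single j 1 = Pi.single j 1 := by
      intro x y a b j h1 h2
      rwa [h1] at h2
    have h0 : ∀ i : Fin 1, i = 0 := fun i => Subsingleton.elim _ _
    rcases j with (i | i) | i
    · obtain rfl := h0 i
      refine sj 1 0 0 0 _ ?_ e1
      funext k
      rcases k with (k | k) | k
      · obtain rfl := h0 k; simp [omVec]
      · simp [omVec]
      · fin_cases k <;> simp [omVec]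
    · obtain rfl := h0 i
      refine sj 0 1 0 0 _ ?_ e2
      funext k
      rcases k with (k | k) | k
      · simp [omVec]
      · obtain rfl := h0 k; simp [omVec]
      · fin_cases k <;> simp [omVec]
    · fin_cases i
      · refine sj 0 0 1 0 _ ?_ e3
        funext k
        rcases k with (k | k) | k
        · simp [omVec]
        · simp [omVec]
        · fin_cases k <;> simp [omVec]
      · refine sj 0 0 0 1 _ ?_ e4
        funext k
        rcases k with (k | k) | k
        · simp [omVec]
        · simp [omVec]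
        · fin_cases k <;> simp [omVec]
  apply Subtype.ext
  apply Units.ext
  apply Matrix.ext
  intro i j
  have := congrFun (hs j) i
  simpa [Matrix.mulVec_single_one, Matrix.one_apply, Pi.single_apply, eq_comm] using this

theorem omAct_bijective : Function.Bijective omAct := by
  have : Finite OmSing := inferInstance
  refine (Nat.bijective_iff_injective_and_card omAct).2 ⟨omAct_injective, ?_⟩
  rw [card_omIso, Nat.card_perm, card_omSing]
  rfl

/-- `Ω⁻₄(2) ≃ A₅`. -/
theorem omega_equiv :
    Nonempty (↥(Cfsg.Omega (ZMod 2) (Cfsg.quadFormMinus 1 (ZMod 2) 1 1)) ≃* alternatingGroup (Fin 5)) := by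
  have : Fintype OmSing := Fintype.ofFinite _
  have ec : OmSing ≃ Fin 5 := Finite.equivFinOfCardEq card_omSing
  let E : Cfsg.isometryGroup (ZMod 2) OmQ ≃* Equiv.Perm (Fin 5) :=
    (MulEquiv.ofBijective omAct omAct_bijective).trans ec.permCongrHom
  have hm : (commutator (Cfsg.isometryGroup (ZMod 2) OmQ)).map E.toMonoidHom = alternatingGroup (Fin 5) := by
    rw [← alternatingGroup.commutator_perm_eq (by simp), commutator_def, commutator_def,
      Subgroup.map_commutator]
    have : (⊤ : Subgroup (Cfsg.isometryGroup (ZMod 2) OmQ)).map E.toMonoidHom = ⊤ :=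
      Subgroup.map_top_of_surjective _ E.surjective
    rw [this]
  exact ⟨(E.subgroupMap _).trans (MulEquiv.subgroupCongr hm)⟩

end Cfsg.Agent.Lib.HallJanko
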