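import Mathlib
import Cfsg.Prelude.Def_Local
import Cfsg.Prelude.Def_Transfer
import Cfsg.Prelude.Def_Classical
import Cfsg.Agent.Lib.Components.FStar
import Cfsg.Agent.Lib.HallJanko.Setup
import Cfsg.Agent.Lib.HallJanko.Omega

/-!
# Hall-Janko type groups: from the hypotheses to the local setup
-/

set_option autoImplicit false
set_option linter.unusedSimpArgs false
set_option linter.unusedSectionVars false
set_option linter.unusedVariables false
set_option maxRecDepth 100000

namespace Cfsg.Agent.Lib.HallJanko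

namespace Reduce

open Equiv Subgroup

variable {G : Type*} [Group G]

/-- Fixed points of conjugation by an element of order `5` on an invariant subgroup. -/
theorem card_modEq_fixed (A : Subgroup G) [Finite A] (f : G) (hf : f ^ 5 = 1)
    (hA : ∀ x ∈ A, f * x * f⁻¹ ∈ A) :
    Nat.card A ≡ Nat.card {x : A // f * (x : G) * f⁻¹ = x} [MOD 5] := by
  classical
  haveI := Fintype.ofFinite A
  let φ : Function.End A := fun x => ⟨f * x * f⁻¹, hA x x.2⟩
  have hφ : ∀ (n : ℕ) (x : A), (((φ ^ n : Function.End A) x : A) : G) = f ^ n * x * (f ^ n)⁻¹ := by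
    intro n
    induction n with
    | zero =>
      intro x
      rw [pow_zero, pow_zero]
      simp only [inv_one, one_mul, mul_one]
      rfl
    | succ n ih =>
      intro x
      rw [pow_succ']
      change f * (((φ ^ n : Function.End A) x : A) : G) * f⁻¹ = _
      rw [ih x]
      group
  have h5 : φ ^ 5 ^ 1 = 1 := by
    funext x
    apply Subtype.ext
    rw [pow_one, hφ, hf]
    simp only [inv_one, one_mul, mul_one]
    rfl
  haveI : Fact (Nat.Prime 5) := ⟨by norm_num⟩
  have key := Equiv.Perm.card_fixedPoints_modEq (f := φ) (p := 5) (n := 1) h5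
  rw [Nat.card_eq_fintype_card]
  refine key.trans ?_
  have e : Function.fixedPoints φ ≃ {x : A // f * (x : G) * f⁻¹ = x} :=
    Equiv.subtypeEquivRight (fun x => by
      simp only [Function.mem_fixedPoints, Function.IsFixedPt, φ]
      exact ⟨fun h => congrArg Subtype.val h, fun h => Subtype.ext h⟩)
  rw [← Nat.card_eq_fintype_card, Nat.card_congr e]

/-- An invariant subgroup of a group of order `32` containing `z`, on which an element of order `5`
fixes only `1, z`, has order `2` or `32`. -/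
theorem card_two_or (A : Subgroup G) [Finite A] (f z : G) (hf : f ^ 5 = 1)
    (hA : ∀ x ∈ A, f * x * f⁻¹ ∈ A) (hz1 : z ≠ 1) (hzA : z ∈ A) (hfz : f * z * f⁻¹ = z)
    (hfix : ∀ x ∈ A, f * x * f⁻¹ = x → x = 1 ∨ x = z) (hd : Nat.card A ∣ 32) :
    Nat.card A = 2 ∨ Nat.card A = 32 := by
  have h1 := card_modEq_fixed A f hf hA
  have h2 : Nat.card {x : A // f * (x : G) * f⁻¹ = x} = 2 := by
    rw [Nat.card_eq_two_iff]
    refine ⟨⟨1, by simp⟩, ⟨⟨z, hzA⟩, hfz⟩, ?_, ?_⟩
    · intro h
      have := congrArg (fun x : {x : A // f * (x : G) * f⁻¹ = x} => ((x.1 : A) : G)) h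
      exact hz1 this.symm
    · ext ⟨⟨u, hu⟩, hfu⟩
      simp only [Set.mem_insert_iff, Set.mem_singleton_iff, Set.mem_univ, iff_true]
      rcases hfix u hu hfu with rfl | rfl
      · left; rfl
      · right; rfl
  rw [h2] at h1
  have : Nat.card A ∈ Nat.divisors 32 := by simp [hd]
  have hdiv : Nat.divisors 32 = {1, 2, 4, 8, 16, 32} := by decide
  rw [hdiv] at this
  simp only [Finset.mem_insert, Finset.mem_singleton] at this
  rcases this with h | h | h | h | h | h <;> rw [h] at h1 ⊢ <;>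
    first | (exact absurd h1 (by decide)) | simp

/-- Signs of the pentagon: the commutator of neighbours and the commutator of non-neighbours
coincide, since the product of all five elements is central. -/
theorem sign_eq {a0 a1 a2 a3 a4 s1 s2 w : G} (h0 : a0 * a0 = 1) (h1 : a1 * a1 = 1)
    (h2 : a2 * a2 = 1) (h3 : a3 * a3 = 1) (h4 : a4 * a4 = 1)
    (hs1 : s1 * s1 = 1) (hs10 : a0 * s1 = s1 * a0) (hs11 : a1 * s1 = s1 * a1)
    (hs12 : a2 * s1 = s1 * a2) (hs13 : a3 * s1 = s1 * a3) (hs14 : a4 * s1 = s1 * a4)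
    (hs20 : a0 * s2 = s2 * a0) (hs21 : a1 * s2 = s2 * a1) (hs22 : a2 * s2 = s2 * a2)
    (hs2s1 : s1 * s2 = s2 * s1)
    (h10 : a1 * a0 = s1 * (a0 * a1)) (h21 : a2 * a1 = s1 * (a1 * a2))
    (h20 : a2 * a0 = s2 * (a0 * a2)) (h34 : a3 * a4 = s1 * (a4 * a3))
    (hw : w = a0 * a1 * a2 * a3 * a4) (hwc : (a4 * a3) * w = w * (a4 * a3)) (hww : w * w = 1) :
    s1 = s2 := by
  -- the square of `a₀a₁a₂`
  have hX : (a0 * a1 * a2) * (a0 * a1 * a2) = s2 := by
    calc (a0 * a1 * a2) * (a0 * a1 * a2) = a0 * a1 * (a2 * a0) * a1 * a2 := by group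
      _ = a0 * a1 * (s2 * (a0 * a2)) * a1 * a2 := by rw [h20]
      _ = a0 * (a1 * s2) * a0 * a2 * a1 * a2 := by group
      _ = a0 * (s2 * a1) * a0 * a2 * a1 * a2 := by rw [hs21]
      _ = (a0 * s2) * (a1 * a0) * a2 * a1 * a2 := by group
      _ = (s2 * a0) * (s1 * (a0 * a1)) * a2 * a1 * a2 := by rw [hs20, h10]
      _ = s2 * (a0 * s1) * a0 * a1 * a2 * a1 * a2 := by group
      _ = s2 * (s1 * a0) * a0 * a1 * a2 * a1 * a2 := by rw [hs10]
      _ = s2 * s1 * (a0 * a0) * a1 * (a2 * a1) * a2 := by group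
      _ = s2 * s1 * 1 * a1 * (s1 * (a1 * a2)) * a2 := by rw [h0, h21]
      _ = s2 * s1 * (a1 * s1) * a1 * (a2 * a2) := by group
      _ = s2 * s1 * (s1 * a1) * a1 * 1 := by rw [hs11, h2]
      _ = s2 * (s1 * s1) * (a1 * a1) := by group
      _ = s2 := by rw [hs1, h1]; group
  -- the square of `a₄a₃`
  have hY : (a4 * a3) * (a4 * a3) = s1 := by
    calc (a4 * a3) * (a4 * a3) = a4 * (a3 * a4) * a3 := by group
      _ = a4 * (s1 * (a4 * a3)) * a3 := by rw [h34]
      _ = (a4 * s1) * a4 * (a3 * a3) := by group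
      _ = (s1 * a4) * a4 * 1 := by rw [hs14, h3]
      _ = s1 * (a4 * a4) := by group
      _ = s1 := by rw [h4]; group
  have hXY : a0 * a1 * a2 = w * (a4 * a3) := by
    rw [hw]
    calc a0 * a1 * a2 = a0 * a1 * a2 * (a3 * (a4 * a4) * a3) := by rw [h4]; simp [h3]
      _ = _ := by group
  have : (a0 * a1 * a2) * (a0 * a1 * a2) = (a4 * a3) * (a4 * a3) := by
    rw [hXY]
    calc w * (a4 * a3) * (w * (a4 * a3)) = w * ((a4 * a3) * w) * (a4 * a3) := by group
      _ = w * (w * (a4 * a3)) * (a4 * a3) := by rw [hwc]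
      _ = (w * w) * ((a4 * a3) * (a4 * a3)) := by group
      _ = _ := by rw [hww, one_mul]
  rw [hX, hY] at this
  exact this.symm

/-- The core: five pairwise anticommuting involutions from an element of order `5`. -/
theorem cliff_of_five {z f a0 : G} {Q0 : Subgroup G} [Finite Q0]
    (hz : z * z = 1) (hz1 : z ≠ 1) (hzQ : z ∈ Q0) (hzc : ∀ x ∈ Q0, x * z = z * x)
    (hcard : Nat.card Q0 = 32)
    (hcomm : ∀ x ∈ Q0, ∀ y ∈ Q0, x * y = y * x ∨ x * y = z * (y * x))
    (hnab : ∃ x ∈ Q0, ∃ y ∈ Q0, x * y ≠ y * x)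
    (hf5 : f ^ 5 = 1) (hfz : f * z = z * f) (hfQ : ∀ x ∈ Q0, f * x * f⁻¹ ∈ Q0)
    (hfnc : ∃ x ∈ Q0, f * x * f⁻¹ ≠ x)
    (ha0 : a0 ∈ Q0) (ha0sq : a0 * a0 = 1) (ha01 : a0 ≠ 1) (ha0z : a0 ≠ z) :
    ∃ a : Fin 5 → G, Cliff z a ∧ (∀ i, a i ∈ Q0) ∧ a 0 = a0 ∧ a 1 = f * a0 * f⁻¹ := by
  classical
  have hfz' : f * z * f⁻¹ = z := by rw [hfz]; group
  -- the fixed points of `f`
  have hfix : ∀ x ∈ Q0, f * x * f⁻¹ = x → x = 1 ∨ x = z := by
    let T : Subgroup G := Q0 ⊓ Subgroup.centralizer ({f} : Set G)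
    have hTmem : ∀ x, x ∈ T ↔ x ∈ Q0 ∧ f * x * f⁻¹ = x := by
      intro x
      simp only [T, Subgroup.mem_inf, Subgroup.mem_centralizer_iff, Set.mem_singleton_iff,
        forall_eq]
      constructor
      · rintro ⟨h1, h2⟩
        exact ⟨h1, by rw [h2]; group⟩
      · rintro ⟨h1, h2⟩
        refine ⟨h1, ?_⟩
        calc f * x = (f * x * f⁻¹) * f := by group
          _ = x * f := by rw [h2]
    have hTle : T ≤ Q0 := inf_le_left
    haveI : Finite T := Finite.of_injective _ (Subgroup.inclusion_injective hTle)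
    have hd : Nat.card T ∣ 32 := hcard ▸ Subgroup.card_dvd_of_le hTle
    have hm := card_modEq_fixed Q0 f hf5 hfQ
    have he : Nat.card {x : Q0 // f * (x : G) * f⁻¹ = x} = Nat.card T := by
      apply Nat.card_congr
      exact
        { toFun := fun x => ⟨x.1.1, (hTmem _).2 ⟨x.1.2, x.2⟩⟩
          invFun := fun x => ⟨⟨x.1, ((hTmem _).1 x.2).1⟩, ((hTmem _).1 x.2).2⟩
          left_inv := fun x => rfl
          right_inv := fun x => rfl }
    rw [he, hcard] at hm
    have : Nat.card T ∈ Nat.divisors 32 := by simp [hd]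
    have hdiv : Nat.divisors 32 = {1, 2, 4, 8, 16, 32} := by decide
    rw [hdiv] at this
    simp only [Finset.mem_insert, Finset.mem_singleton] at this
    have hn : Nat.card T = 2 ∨ Nat.card T = 32 := by
      rcases this with h | h | h | h | h | h <;> rw [h] at hm ⊢ <;>
        first | (exact absurd hm (by decide)) | simp
    rcases hn with hn | hn
    · intro x hx hfx
      obtain ⟨y, hy, huniq⟩ := (Nat.card_eq_two_iff' (1 : T)).1 hn
      by_cases hx1 : x = 1
      · exact Or.inl hx1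
      · right
        have h1 := huniq ⟨x, (hTmem x).2 ⟨hx, hfx⟩⟩ (fun h => hx1 (congrArg Subtype.val h))
        have h2 := huniq ⟨z, (hTmem z).2 ⟨hzQ, hfz'⟩⟩ (fun h => hz1 (congrArg Subtype.val h))
        exact congrArg Subtype.val (h1.trans h2.symm)
    · exfalso
      have hTQ : T = Q0 := Subgroup.eq_of_le_of_card_ge hTle (by rw [hn, hcard])
      obtain ⟨x, hx, hne⟩ := hfnc
      exact hne ((hTmem x).1 (hTQ ▸ hx)).2
  -- the pentagon
  let b : ℕ → G := fun i => f ^ i * a0 * (f ^ i)⁻¹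
  have hb0 : b 0 = a0 := by simp [b]
  have hbs : ∀ i, f * b i * f⁻¹ = b (i + 1) := by
    intro i
    simp only [b, pow_succ']
    group
  have hconj : ∀ x y : G, f * (x * y) * f⁻¹ = (f * x * f⁻¹) * (f * y * f⁻¹) := by
    intro x y; group
  have hb5 : ∀ i k, b (i + 5 * k) = b i := by
    intro i k
    have : f ^ (i + 5 * k) = f ^ i := by rw [pow_add, pow_mul, hf5, one_pow, mul_one]
    simp only [b, this]
  have hbmod : ∀ n, b n = b (n % 5) := by
    intro n
    conv_lhs => rw [← Nat.mod_add_div n 5]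
    exact hb5 _ _
  have hbQ : ∀ i, b i ∈ Q0 := by
    intro i
    induction i with
    | zero => rw [hb0]; exact ha0
    | succ n ih => rw [← hbs]; exact hfQ _ ih
  have hbsq : ∀ i, b i * b i = 1 := by
    intro i
    induction i with
    | zero => rw [hb0]; exact ha0sq
    | succ n ih =>
      rw [← hbs, ← hconj, ih]; group
  have hbz : ∀ i, b i ≠ z := by
    intro i
    induction i with
    | zero => rw [hb0]; exact ha0z
    | succ n ih =>
      rw [← hbs]
      intro h
      apply ih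
      have : f * b n * f⁻¹ = f * z * f⁻¹ := by rw [h, hfz']
      simpa using this
  -- the product of all five elements
  let w : G := b 0 * b 1 * b 2 * b 3 * b 4
  have hwQ : w ∈ Q0 := Q0.mul_mem (Q0.mul_mem (Q0.mul_mem (Q0.mul_mem (hbQ _) (hbQ _)) (hbQ _))
    (hbQ _)) (hbQ _)
  have hb50 : b 5 = a0 := by
    have := hb5 0 1
    simpa [hb0] using this
  have hfw : f * w * f⁻¹ = a0 * w * a0 := by
    have h1 : f * w * f⁻¹ = b 1 * b 2 * b 3 * b 4 * b 5 := by
      simp only [w, hconj, hbs]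
    rw [h1, hb50]
    simp only [w, hb0]
    calc b 1 * b 2 * b 3 * b 4 * a0 = (a0 * a0) * b 1 * b 2 * b 3 * b 4 * a0 := by rw [ha0sq]; group
      _ = _ := by group
  have hpowz : ∀ n : ℕ, f ^ n * z * (f ^ n)⁻¹ = z := by
    intro n
    induction n with
    | zero => simp
    | succ n ih =>
      calc f ^ (n + 1) * z * (f ^ (n + 1))⁻¹ = f * (f ^ n * z * (f ^ n)⁻¹) * f⁻¹ := by
            rw [pow_succ']; group
        _ = z := by rw [ih, hfz']
  have hwfix : f * w * f⁻¹ = w := by
    have hcases : f * w * f⁻¹ = w ∨ f * w * f⁻¹ = z * w := by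
      rw [hfw]
      rcases hcomm a0 ha0 w hwQ with h | h
      · left
        rw [h, mul_assoc, ha0sq, mul_one]
      · right
        rw [h]
        calc z * (w * a0) * a0 = z * w * (a0 * a0) := by group
          _ = z * w := by rw [ha0sq, mul_one]
    rcases hcases with h | h
    · exact h
    · exfalso
      have hfz2 : ∀ x : G, f * (z * x) * f⁻¹ = z * (f * x * f⁻¹) := by
        intro x
        rw [hconj, hfz']
      have step : ∀ n : ℕ, f ^ n * w * (f ^ n)⁻¹ = (if n % 2 = 0 then w else z * w) := by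
        intro n
        induction n with
        | zero => simp
        | succ n ih =>
          have : f ^ (n + 1) * w * (f ^ (n + 1))⁻¹ = f * (f ^ n * w * (f ^ n)⁻¹) * f⁻¹ := by
            rw [pow_succ']; group
          rw [this, ih]
          by_cases hn : n % 2 = 0
          · have hn' : ¬ (n + 1) % 2 = 0 := by omega
            rw [if_pos hn, if_neg hn', h]
          · have hn' : (n + 1) % 2 = 0 := by omega
            rw [if_neg hn, if_pos hn', hfz2, h, ← mul_assoc, hz, one_mul]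
      have h5 := step 5
      rw [hf5] at h5
      simp only [inv_one, one_mul, mul_one] at h5
      have h6 : w = z * w := by simpa using h5
      exact hz1 (by simpa using h6.symm)
  have hw12 : w = 1 ∨ w = z := hfix w hwQ hwfix
  have hwc : ∀ x ∈ Q0, x * w = w * x := by
    intro x hx
    rcases hw12 with h | h <;> rw [h]
    · simp
    · exact hzc x hx
  have hww : w * w = 1 := by
    rcases hw12 with h | h <;> rw [h]
    · simp
    · exact hz
  -- the signs
  let s1 : G := if b 1 * b 0 = b 0 * b 1 then 1 else z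
  let s2 : G := if b 2 * b 0 = b 0 * b 2 then 1 else z
  have hs1' : s1 = 1 ∨ s1 = z := by
    by_cases h : b 1 * b 0 = b 0 * b 1 <;> simp [s1, h]
  have hs2' : s2 = 1 ∨ s2 = z := by
    by_cases h : b 2 * b 0 = b 0 * b 2 <;> simp [s2, h]
  have hs1f : f * s1 * f⁻¹ = s1 := by
    rcases hs1' with h | h <;> rw [h]
    · simp
    · exact hfz'
  have hs2f : f * s2 * f⁻¹ = s2 := by
    rcases hs2' with h | h <;> rw [h]
    · simp
    · exact hfz'
  have hs1c : ∀ x ∈ Q0, x * s1 = s1 * x := by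
    intro x hx
    rcases hs1' with h | h <;> rw [h]
    · simp
    · exact hzc x hx
  have hs2c : ∀ x ∈ Q0, x * s2 = s2 * x := by
    intro x hx
    rcases hs2' with h | h <;> rw [h]
    · simp
    · exact hzc x hx
  have hs1s : s1 * s1 = 1 := by
    rcases hs1' with h | h <;> rw [h]
    · simp
    · exact hz
  have hs2s : s2 * s2 = 1 := by
    rcases hs2' with h | h <;> rw [h]
    · simp
    · exact hz
  have h1base : b 1 * b 0 = s1 * (b 0 * b 1) := by
    by_cases h : b 1 * b 0 = b 0 * b 1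
    · simp [s1, h]
    · simp only [s1, if_neg h]
      rcases hcomm _ (hbQ 1) _ (hbQ 0) with h' | h'
      · exact absurd h' h
      · exact h'
  have h2base : b 2 * b 0 = s2 * (b 0 * b 2) := by
    by_cases h : b 2 * b 0 = b 0 * b 2
    · simp [s2, h]
    · simp only [s2, if_neg h]
      rcases hcomm _ (hbQ 2) _ (hbQ 0) with h' | h'
      · exact absurd h' h
      · exact h'
  have hprop : ∀ (s : G), f * s * f⁻¹ = s → ∀ d : ℕ, b d * b 0 = s * (b 0 * b d) →
      ∀ i, b (i + d) * b i = s * (b i * b (i + d)) := by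
    intro s hs d hd i
    induction i with
    | zero => simpa using hd
    | succ n ih =>
      have e : n + 1 + d = (n + d) + 1 := by omega
      rw [e, ← hbs (n + d), ← hbs n, ← hconj, ih, hconj, hconj, hs, hconj]
  have h1all := hprop s1 hs1f 1 h1base
  have h2all := hprop s2 hs2f 2 h2base
  have hss : s1 = s2 := by
    have h34 : b 3 * b 4 = s1 * (b 4 * b 3) := by
      have h' : b 4 * b 3 = s1 * (b 3 * b 4) := h1all 3
      calc b 3 * b 4 = (s1 * s1) * (b 3 * b 4) := by rw [hs1s, one_mul]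
        _ = s1 * (s1 * (b 3 * b 4)) := by rw [mul_assoc]
        _ = s1 * (b 4 * b 3) := by rw [h']
    exact sign_eq (hbsq 0) (hbsq 1) (hbsq 2) (hbsq 3) (hbsq 4) hs1s (hs1c _ (hbQ 0)) (hs1c _ (hbQ 1))
      (hs1c _ (hbQ 2)) (hs1c _ (hbQ 3)) (hs1c _ (hbQ 4)) (hs2c _ (hbQ 0)) (hs2c _ (hbQ 1))
      (hs2c _ (hbQ 2)) (by rcases hs1' with h | h <;> rcases hs2' with h' | h' <;> simp [h, h'])
      h1base (h1all 1) h2base h34 rfl (hwc _ (Q0.mul_mem (hbQ _) (hbQ _))) hww
  set s : G := s1 with hsdef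
  have h2all' : ∀ i, b (i + 2) * b i = s * (b i * b (i + 2)) := by
    rw [hss]; exact h2all
  have hsw : ∀ {x y : G}, x ∈ Q0 → y ∈ Q0 → x * y = s * (y * x) → y * x = s * (x * y) := by
    intro x y hx hy h
    rw [h, ← mul_assoc, hs1s, one_mul]
  -- all pairs
  have hpair0 : ∀ d, d % 5 ≠ 0 → ∀ i, b (i + d) * b i = s * (b i * b (i + d)) := by
    intro d hd i
    have e : b (i + d) = b (i + d % 5) := by
      rw [hbmod (i + d), hbmod (i + d % 5)]
      congr 1
      omega
    rw [e]
    have hlt : d % 5 < 5 := Nat.mod_lt _ (by norm_num)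
    generalize d % 5 = r at hd hlt
    interval_cases r
    · exact absurd rfl hd
    · exact h1all i
    · exact h2all' i
    · have h1 := h2all' (i + 3)
      have e5 : b (i + 3 + 2) = b i := by
        have := hb5 i 1
        rwa [show i + 5 * 1 = i + 3 + 2 from by omega] at this
      rw [e5] at h1
      exact hsw (hbQ _) (hbQ _) h1
    · have h1 := h1all (i + 4)
      have e5 : b (i + 4 + 1) = b i := by
        have := hb5 i 1
        rwa [show i + 5 * 1 = i + 4 + 1 from by omega] at this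
      rw [e5] at h1
      exact hsw (hbQ _) (hbQ _) h1
  have hpair : ∀ i j, i % 5 ≠ j % 5 → b j * b i = s * (b i * b j) := by
    intro i j hij
    have e : b j = b (i + (j + 4 * i)) := by
      have := hb5 j i
      rw [← this]
      congr 1
      omega
    rw [e]
    exact hpair0 _ (by omega) i
  -- the sign is not trivial
  have hsz : s = z := by
    rcases hs1' with h | h
    swap
    · exact h
    exfalso
    have hs1eq : s = 1 := h
    have hcomm' : ∀ i j, b i * b j = b j * b i := by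
      intro i j
      by_cases hij : i % 5 = j % 5
      · rw [hbmod i, hbmod j, hij]
      · have := hpair j i (fun h => hij h.symm)
        rw [hs1eq, one_mul] at this
        exact this
    let k : Set G := {z} ∪ Set.range b
    have hk : ∀ x ∈ k, ∀ y ∈ k, x * y = y * x := by
      rintro x (rfl | ⟨i, rfl⟩) y (rfl | ⟨j, rfl⟩)
      · rfl
      · exact (hzc _ (hbQ j)).symm
      · exact hzc _ (hbQ i)
      · exact hcomm' i j
    let A : Subgroup G := Subgroup.closure k
    have hAQ : A ≤ Q0 := by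
      rw [Subgroup.closure_le]
      rintro x (rfl | ⟨i, rfl⟩)
      · exact hzQ
      · exact hbQ i
    haveI : Finite A := Finite.of_injective _ (Subgroup.inclusion_injective hAQ)
    have hAinv : ∀ x ∈ A, f * x * f⁻¹ ∈ A := by
      intro x hx
      induction hx using Subgroup.closure_induction with
      | mem x hx =>
        rcases hx with rfl | ⟨i, rfl⟩
        · rw [hfz']; exact Subgroup.subset_closure (Or.inl rfl)
        · rw [hbs]; exact Subgroup.subset_closure (Or.inr ⟨_, rfl⟩)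
      | one => simp [A.one_mem]
      | mul x y _ _ hx hy => rw [hconj]; exact A.mul_mem hx hy
      | inv x _ hx =>
        have : f * x⁻¹ * f⁻¹ = (f * x * f⁻¹)⁻¹ := by group
        rw [this]; exact A.inv_mem hx
    have hzA : z ∈ A := Subgroup.subset_closure (Or.inl rfl)
    have ha0A : a0 ∈ A := Subgroup.subset_closure (Or.inr ⟨0, hb0⟩)
    have hcA := card_two_or A f z hf5 hAinv hz1 hzA hfz' (fun x hx => hfix x (hAQ hx))
      (hcard ▸ Subgroup.card_dvd_of_le hAQ)
    rcases hcA with hcA | hcA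
    · obtain ⟨y, hy, huniq⟩ := (Nat.card_eq_two_iff' (1 : A)).1 hcA
      have h1 := huniq ⟨a0, ha0A⟩ (fun h => ha01 (congrArg Subtype.val h))
      have h2 := huniq ⟨z, hzA⟩ (fun h => hz1 (congrArg Subtype.val h))
      exact ha0z (congrArg Subtype.val (h1.trans h2.symm))
    · have hAQe : A = Q0 := Subgroup.eq_of_le_of_card_ge hAQ (by rw [hcA, hcard])
      obtain ⟨x, hx, y, hy, hne⟩ := hnab
      apply hne
      have hxA : x ∈ A := hAQe ▸ hx
      have hyA : y ∈ A := hAQe ▸ hy
      have := (Subgroup.closureCommGroupOfComm hk).mul_comm ⟨x, hxA⟩ ⟨y, hyA⟩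
      exact congrArg Subtype.val this
  rw [hsz] at hpair
  -- the generators
  let a : Fin 5 → G := fun i => if i = 4 then w * b 4 else b i
  have ha4 : a 4 = w * b 4 := by simp [a]
  have ha' : ∀ i : Fin 5, i ≠ 4 → a i = b i := by
    intro i hi; simp [a, hi]
  have hrel : w * b 4 = b 0 * b 1 * b 2 * b 3 := by
    simp only [w]
    rw [mul_assoc (b 0 * b 1 * b 2 * b 3), hbsq, mul_one]
  have hu : ∀ i : Fin 5, ∃ u, (u = 1 ∨ u = w) ∧ a i = u * b i := by
    intro i
    by_cases hi : i = 4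
    · subst hi
      exact ⟨w, Or.inr rfl, ha4⟩
    · exact ⟨1, Or.inl rfl, by rw [ha' i hi, one_mul]⟩
  have haQ : ∀ i, a i ∈ Q0 := by
    intro i
    obtain ⟨u, hu1, hu2⟩ := hu i
    rw [hu2]
    refine Q0.mul_mem ?_ (hbQ _)
    rcases hu1 with rfl | rfl
    · exact Q0.one_mem
    · exact hwQ
  have hucomm : ∀ u, (u = 1 ∨ u = w) → ∀ x ∈ Q0, x * u = u * x := by
    rintro u (rfl | rfl) x hx
    · simp
    · exact hwc x hx
  have hcl : Cliff z a := by
    refine ⟨hz, hz1, ?_, fun i => hzc _ (haQ i), ?_, ?_⟩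
    · intro i
      obtain ⟨u, hu1, hu2⟩ := hu i
      have huu : u * u = 1 := by
        rcases hu1 with rfl | rfl
        · simp
        · exact hww
      rw [hu2]
      calc u * b i * (u * b i) = u * (b i * u) * b i := by group
        _ = u * (u * b i) * b i := by rw [hucomm u hu1 _ (hbQ i)]
        _ = (u * u) * (b i * b i) := by group
        _ = 1 := by rw [huu, hbsq, one_mul]
    · intro i j hij
      obtain ⟨u, hu1, hu2⟩ := hu i
      obtain ⟨v, hv1, hv2⟩ := hu j
      rw [hu2, hv2]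
      have hne : ((j : ℕ)) % 5 ≠ (i : ℕ) % 5 := by
        have h1 := i.2
        have h2 := j.2
        have h3 : (i : ℕ) ≠ j := fun h => hij (Fin.ext h)
        omega
      have hb := hpair (j : ℕ) (i : ℕ) hne
      have hvQ : ∀ x ∈ Q0, x * v = v * x := hucomm v hv1
      have huQ : ∀ x ∈ Q0, x * u = u * x := hucomm u hu1
      have huvz : z * u = u * z := by
        rcases hu1 with rfl | rfl
        · simp
        · exact (hwc z hzQ)
      have hvz : z * v = v * z := by
        rcases hv1 with rfl | rfl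
        · simp
        · exact (hwc z hzQ)
      have huv : u * v = v * u := by
        rcases hu1 with rfl | rfl
        · simp
        · rcases hv1 with rfl | rfl
          · simp
          · rfl
      have hvwv : v ∈ Q0 := by
        rcases hv1 with rfl | rfl
        · exact Q0.one_mem
        · exact hwQ
      calc u * b ↑i * (v * b ↑j) = u * (b ↑i * v) * b ↑j := by group
        _ = u * (v * b ↑i) * b ↑j := by rw [hvQ _ (hbQ _)]
        _ = (u * v) * (b ↑i * b ↑j) := by group
        _ = (u * v) * (z * (b ↑j * b ↑i)) := by rw [hb]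
        _ = (u * (v * z)) * (b ↑j * b ↑i) := by group
        _ = (u * (z * v)) * (b ↑j * b ↑i) := by rw [hvz]
        _ = ((u * z) * v) * (b ↑j * b ↑i) := by group
        _ = ((z * u) * v) * (b ↑j * b ↑i) := by rw [huvz]
        _ = z * (u * v) * (b ↑j * b ↑i) := by group
        _ = z * (v * u) * (b ↑j * b ↑i) := by rw [huv]
        _ = z * (v * (u * b ↑j) * b ↑i) := by group
        _ = z * (v * (b ↑j * u) * b ↑i) := by rw [huQ _ (hbQ _)]
        _ = _ := by group
    · rw [ha4, hrel, ha' 0 (by decide), ha' 1 (by decide), ha' 2 (by decide), ha' 3 (by decide)]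
      rfl
  refine ⟨a, hcl, haQ, ?_, ?_⟩
  · rw [ha' 0 (by decide)]
    exact hb0
  · rw [ha' 1 (by decide)]
    show b 1 = _
    rw [← hbs 0, hb0]

/-- Words whose square is trivial, and conjugates of generators. -/
theorem conj_gen {z : G} {a : Fin 5 → G} (h : Cliff z a) (c : G) (hc : c * z = z * c)
    (hQ : ∀ i, ∃ w, c * a i * c⁻¹ = ev z a w) (i : Fin 5) :
    ∃ j, c * a i * c⁻¹ = a j ∨ c * a i * c⁻¹ = z * a j := by
  obtain ⟨w, hw⟩ := hQ i
  have hsq : qmul w w = qone := by
    apply h.ev_injective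
    rw [← h.ev_mul, ← hw, h.ev_one]
    calc c * a i * c⁻¹ * (c * a i * c⁻¹) = c * (a i * a i) * c⁻¹ := by group
      _ = 1 := by rw [h.a_sq]; group
  have hcz : c * z * c⁻¹ = z := by rw [hc]; group
  rcases q_inv_cases w hsq with rfl | rfl | ⟨j, rfl | rfl⟩
  · exfalso
    rw [h.ev_one] at hw
    have : a i = 1 := by
      have h2 : c⁻¹ * (c * a i * c⁻¹) * c = c⁻¹ * 1 * c := by rw [hw]
      simpa [mul_assoc] using h2
    have h3 : ev z a (qa i) = ev z a qone := by rw [h.ev_qa, h.ev_one, this]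
    have h4 := h.ev_injective h3
    have h5 : ∀ i : Fin 5, qa i ≠ qone := by decide
    exact h5 i h4
  · exfalso
    rw [h.ev_qz] at hw
    have : a i = z := by
      have h2 : c * a i * c⁻¹ = c * z * c⁻¹ := by rw [hw, hcz]
      simpa using h2
    have h3 : ev z a (qa i) = ev z a qz := by rw [h.ev_qa, h.ev_qz, this]
    have h4 := h.ev_injective h3
    have h5 : ∀ i : Fin 5, qa i ≠ qz := by decide
    exact h5 i h4
  · exact ⟨j, Or.inl (by rw [hw, h.ev_qa])⟩
  · exact ⟨j, Or.inr (by rw [hw, ← h.ev_mul, h.ev_qz, h.ev_qa])⟩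

/-- Elements commuting with `z` and normalizing `Q` act on the generators by permutations. -/
theorem exists_acts {z : G} {a : Fin 5 → G} (h : Cliff z a) (c : G) (hc : c * z = z * c)
    (hQ : ∀ i, ∃ w, c * a i * c⁻¹ = ev z a w) : ∃ σ : Perm (Fin 5), Acts z a c σ := by
  choose τ hτ using conj_gen h c hc hQ
  have hinj : Function.Injective τ := by
    intro i j hij
    apply h.a_eq_of
    have hconj : ∀ x y : G, c * x * c⁻¹ = c * y * c⁻¹ → x = y := by
      intro x y hxy
      simpa using hxy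
    have hcz : ∀ x : G, c * (z * x) * c⁻¹ = z * (c * x * c⁻¹) := by
      intro x
      calc c * (z * x) * c⁻¹ = (c * z) * x * c⁻¹ := by group
        _ = (z * c) * x * c⁻¹ := by rw [hc]
        _ = _ := by group
    rcases hτ i with e1 | e1 <;> rcases hτ j with e2 | e2
    · exact Or.inl (hconj _ _ (by rw [e1, e2, hij]))
    · right; left
      apply hconj
      rw [hcz, e1, e2, hij, ← mul_assoc, h.z_sq, one_mul]
    · right; right; left
      apply hconj
      rw [hcz, e1, e2, hij, ← mul_assoc, h.z_sq, one_mul]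
    · right; right; right
      apply hconj
      rw [hcz, hcz, e1, e2, hij]
  exact ⟨Equiv.ofBijective τ (Finite.injective_iff_bijective.1 hinj), fun i => hτ i⟩

end Reduce

open Reduce in
open scoped commutatorElement in
/-- From the hypotheses of the Hall-Janko type to the local setup (version with a variable `C`). -/
theorem exists_setup_aux {G : Type*} [Group G] [Finite G] (z : G) (hz : orderOf z = 2)
    (C : Subgroup G) (hCe : C = Subgroup.centralizer ({z} : Set G))
    (Q : Subgroup C) [hQn : Q.Normal]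
    (hF : Cfsg.generalizedFittingSubgroup C = Q)
    (hQ : Cfsg.IsExtraspecial 2 Q) (hcard : Nat.card Q = 2 ^ 5)
    (e : C ⧸ Q ≃* Cfsg.Omega (ZMod 2) (Cfsg.quadFormMinus 1 (ZMod 2) 1 1))
    (hnwc : ∃ g : G, (∃ hq : g * z * g⁻¹ ∈ C, (⟨g * z * g⁻¹, hq⟩ : C) ∈ Q) ∧ g * z * g⁻¹ ≠ z) :
    ∃ S : Setup G, S.z = z := by
  classical
  have hCmem : ∀ c : G, c ∈ C ↔ c * z = z * c := by
    intro c
    simp only [hCe, Subgroup.mem_centralizer_iff, Set.mem_singleton_iff, forall_eq]
    exact eq_comm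
  have hzz : z * z = 1 := by
    have := pow_orderOf_eq_one z
    rw [hz, pow_two] at this
    exact this
  have hz1 : z ≠ 1 := by
    intro h
    rw [h, orderOf_one] at hz
    omega
  obtain ⟨E⟩ := omega_equiv
  let e' : C ⧸ Q ≃* alternatingGroup (Fin 5) := e.trans E
  have hcardA : Nat.card (alternatingGroup (Fin 5)) = 60 := by
    have := two_mul_nat_card_alternatingGroup (α := Fin 5)
    rw [Nat.card_perm, Nat.card_eq_fintype_card (α := Fin 5), Fintype.card_fin] at this
    have h120 : Nat.factorial 5 = 120 := rfl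
    omega
  have hcardC : Nat.card C = 1920 := by
    rw [Subgroup.card_eq_card_quotient_mul_card_subgroup Q, hcard, Nat.card_congr e'.toEquiv, hcardA]
    norm_num
  -- z in Q
  let zC : C := ⟨z, (hCmem z).2 rfl⟩
  have hzCc : ∀ c : C, c * zC = zC * c := fun c => Subtype.ext ((hCmem c.1).1 c.2)
  have hcen : Subgroup.centralizer ((Q : Subgroup C) : Set C) ≤ Q := by
    have := Cfsg.Agent.Lib.Components.FStar.centralizer_generalizedFitting_le (G := C)
    rwa [hF] at this
  have hzCQ : zC ∈ Q := hcen (Subgroup.mem_centralizer_iff.2 fun x _ => hzCc x)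
  let zQ : Q := ⟨zC, hzCQ⟩
  have hzQ1 : zQ ≠ 1 := fun h => hz1 (congrArg (fun x : Q => ((x : C) : G)) h)
  have hzQc : zQ ∈ Subgroup.center Q := by
    rw [Subgroup.mem_center_iff]
    intro x
    exact Subtype.ext (hzCc x)
  have hcen2 : ∀ u ∈ Subgroup.center Q, u = 1 ∨ u = zQ := by
    intro u hu
    obtain ⟨y, hy, huniq⟩ := (Nat.card_eq_two_iff' (1 : Subgroup.center Q)).1 hQ.2
    by_cases hu1 : u = 1
    · exact Or.inl hu1
    · right
      have h1 := huniq ⟨u, hu⟩ (fun h => hu1 (congrArg Subtype.val h))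
      have h2 := huniq ⟨zQ, hzQc⟩ (fun h => hzQ1 (congrArg Subtype.val h))
      exact congrArg Subtype.val (h1.trans h2.symm)
  -- the subgroup of `G`
  let Q0 : Subgroup G := Q.map C.subtype
  have hQ0mem : ∀ x, x ∈ Q0 ↔ ∃ h : x ∈ C, (⟨x, h⟩ : C) ∈ Q := by
    intro x
    simp only [Q0, Subgroup.mem_map, Subgroup.coe_subtype]
    constructor
    · rintro ⟨c, hc, rfl⟩
      exact ⟨c.2, hc⟩
    · rintro ⟨h, hx⟩
      exact ⟨_, hx, rfl⟩
  have hQ0C : ∀ x ∈ Q0, x * z = z * x := by
    intro x hx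
    obtain ⟨h, _⟩ := (hQ0mem x).1 hx
    exact (hCmem x).1 h
  have hQ0card : Nat.card Q0 = 32 := by
    simp only [Q0]
    rw [Subgroup.card_map_of_injective C.subtype_injective, hcard]
    norm_num
  have hzQ0 : z ∈ Q0 := (hQ0mem z).2 ⟨(hCmem z).2 rfl, hzCQ⟩
  -- commutators
  have hcomm : ∀ x ∈ Q0, ∀ y ∈ Q0, x * y = y * x ∨ x * y = z * (y * x) := by
    intro x hx y hy
    obtain ⟨h1, h1'⟩ := (hQ0mem x).1 hx
    obtain ⟨h2, h2'⟩ := (hQ0mem y).1 hy
    let X : Q := ⟨⟨x, h1⟩, h1'⟩
    let Y : Q := ⟨⟨y, h2⟩, h2'⟩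
    have hm : ⁅X, Y⁆ ∈ commutator Q :=
      Subgroup.commutator_mem_commutator (Subgroup.mem_top _) (Subgroup.mem_top _)
    rw [hQ.1.2.2] at hm
    have hv : (((⁅X, Y⁆ : Q) : C) : G) = x * y * x⁻¹ * y⁻¹ := rfl
    rcases hcen2 _ hm with h | h
    · left
      have h3 : x * y * x⁻¹ * y⁻¹ = 1 := by rw [← hv, h]; rfl
      have h4 : x * y * x⁻¹ = y := by
        rw [mul_inv_eq_one] at h3; exact h3
      calc x * y = (x * y * x⁻¹) * x := by group
        _ = y * x := by rw [h4]
    · right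
      have h3 : x * y * x⁻¹ * y⁻¹ = z := by rw [← hv, h]
      calc x * y = (x * y * x⁻¹ * y⁻¹) * (y * x) := by group
        _ = z * (y * x) := by rw [h3]
  have hnab : ∃ x ∈ Q0, ∃ y ∈ Q0, x * y ≠ y * x := by
    by_contra hcon
    push Not at hcon
    have htop : Subgroup.center Q = ⊤ := by
      rw [eq_top_iff]
      intro x _
      rw [Subgroup.mem_center_iff]
      intro y
      apply Subtype.ext
      apply Subtype.ext
      exact hcon _ ((hQ0mem _).2 ⟨y.1.2, y.2⟩) _ ((hQ0mem _).2 ⟨x.1.2, x.2⟩)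
    have h2 := hQ.2
    rw [htop, Subgroup.card_top, hcard] at h2
    norm_num at h2
  -- the element of order `5`
  haveI : Fact (Nat.Prime 5) := ⟨by norm_num⟩
  obtain ⟨fC, hfC⟩ := exists_prime_orderOf_dvd_card' (G := C) 5 (by rw [hcardC]; norm_num)
  have hf5 : (fC : G) ^ 5 = 1 := by
    have := pow_orderOf_eq_one fC
    rw [hfC] at this
    simpa using congrArg Subtype.val this
  have hfz : (fC : G) * z = z * fC := (hCmem _).1 fC.2
  have hfQ : ∀ x ∈ Q0, (fC : G) * x * (fC : G)⁻¹ ∈ Q0 := by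
    intro x hx
    obtain ⟨h1, h1'⟩ := (hQ0mem x).1 hx
    have := hQn.conj_mem _ h1' fC
    exact (hQ0mem _).2 ⟨_, this⟩
  have hcQ : ∀ c : C, ∀ x ∈ Q0, (c : G) * x * (c : G)⁻¹ ∈ Q0 := by
    intro c x hx
    obtain ⟨h1, h1'⟩ := (hQ0mem x).1 hx
    have := hQn.conj_mem _ h1' c
    exact (hQ0mem _).2 ⟨_, this⟩
  have hfnc : ∃ x ∈ Q0, (fC : G) * x * (fC : G)⁻¹ ≠ x := by
    by_contra hcon
    push Not at hcon
    have hfQ' : fC ∈ Q := by
      apply hcen
      rw [Subgroup.mem_centralizer_iff]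
      intro x hx
      apply Subtype.ext
      have h1 := hcon x ((hQ0mem _).2 ⟨x.2, hx⟩)
      show (x : G) * fC = fC * x
      calc (x : G) * fC = ((fC : G) * x * (fC : G)⁻¹) * fC := by rw [h1]
        _ = _ := by group
    have hd : orderOf (⟨fC, hfQ'⟩ : Q) ∣ Nat.card Q := orderOf_dvd_natCard _
    have ho : orderOf (⟨fC, hfQ'⟩ : Q) = 5 := by
      rw [← hfC]
      exact Subgroup.orderOf_mk fC hfQ'
    rw [ho, hcard] at hd
    norm_num at hd
  -- the first generator
  obtain ⟨g, ⟨hq, hqQ⟩, hgne⟩ := hnwc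
  have ha0Q : g * z * g⁻¹ ∈ Q0 := (hQ0mem _).2 ⟨hq, hqQ⟩
  have ha0sq : (g * z * g⁻¹) * (g * z * g⁻¹) = 1 := by
    calc (g * z * g⁻¹) * (g * z * g⁻¹) = g * (z * z) * g⁻¹ := by group
      _ = 1 := by rw [hzz]; group
  have ha01 : g * z * g⁻¹ ≠ 1 := by
    intro h
    apply hz1
    have : g * z * g⁻¹ = g * 1 * g⁻¹ := by rw [h]; group
    simpa using this
  obtain ⟨a, hcl, haQ, ha0, ha1⟩ := cliff_of_five hzz hz1 hzQ0 hQ0C hQ0card hcomm hnab hf5 hfz hfQ
    hfnc ha0Q ha0sq ha01 hgne
  -- `Q` consists of the words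
  have hQ0ev : ∀ x, x ∈ Q0 ↔ ∃ w, x = ev z a w := by
    have hev_mem : ∀ w, ev z a w ∈ Q0 := by
      rintro ⟨s, b0, b1, b2, b3⟩
      have hpw : ∀ (x : G) (b : Bool), x ∈ Q0 → pw x b ∈ Q0 := by
        intro x b hx
        cases b
        · exact Q0.one_mem
        · exact hx
      exact Q0.mul_mem (Q0.mul_mem (Q0.mul_mem (Q0.mul_mem (hpw _ _ hzQ0) (hpw _ _ (haQ _)))
        (hpw _ _ (haQ _))) (hpw _ _ (haQ _))) (hpw _ _ (haQ _))
    let φ : QW → Q0 := fun w => ⟨ev z a w, hev_mem w⟩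
    have hφinj : Function.Injective φ := fun x y hxy =>
      hcl.ev_injective (congrArg Subtype.val hxy)
    have hφbij : Function.Bijective φ := by
      refine (Nat.bijective_iff_injective_and_card φ).2 ⟨hφinj, ?_⟩
      rw [hQ0card]
      simp
    intro x
    constructor
    · intro hx
      obtain ⟨w, hw⟩ := hφbij.2 ⟨x, hx⟩
      exact ⟨w, (congrArg Subtype.val hw).symm⟩
    · rintro ⟨w, rfl⟩
      exact hev_mem w
  -- the action
  have hact : ∀ c : C, ∃ σ : Equiv.Perm (Fin 5), Acts z a c σ := by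
    intro c
    refine exists_acts hcl c ((hCmem _).1 c.2) fun i => ?_
    exact (hQ0ev _).1 (hcQ c _ (haQ i))
  choose σ hσ using hact
  have hσmul : ∀ c d : C, σ (c * d) = σ c * σ d := by
    intro c d
    exact hcl.acts_unique (hσ (c * d)) (hcl.acts_mul ((hCmem _).1 c.2) (hσ c) (hσ d))
  let π : C →* Equiv.Perm (Fin 5) := MonoidHom.mk' σ hσmul
  have hπ : ∀ c : C, π c = σ c := fun c => rfl
  have hπQ : ∀ x ∈ Q, π x = 1 := by
    intro x hx
    obtain ⟨w, hw⟩ := (hQ0ev x).1 ((hQ0mem _).2 ⟨x.2, hx⟩)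
    rw [hπ]
    refine hcl.acts_unique (hσ x) ?_
    intro i
    rw [Equiv.Perm.one_apply, hw]
    have := q_acts w i
    rcases this with h | h
    · left
      have h2 := congrArg (ev z a) h
      rw [← hcl.ev_mul, ← hcl.ev_mul, ← hcl.ev_inv, hcl.ev_qa] at h2
      exact h2
    · right
      have h2 := congrArg (ev z a) h
      rw [← hcl.ev_mul, ← hcl.ev_mul, ← hcl.ev_mul, ← hcl.ev_inv, hcl.ev_qa, hcl.ev_qz] at h2
      exact h2
  let πb : C ⧸ Q →* Equiv.Perm (Fin 5) := QuotientGroup.lift Q π hπQ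
  let ψ : alternatingGroup (Fin 5) →* Equiv.Perm (Fin 5) := πb.comp e'.symm.toMonoidHom
  have hψe : ∀ c : C, ψ (e' (QuotientGroup.mk c)) = π c := by
    intro c
    simp only [ψ, πb, MonoidHom.comp_apply, MulEquiv.coe_toMonoidHom, MulEquiv.symm_apply_apply]
    rfl
  haveI hsimple : IsSimpleGroup (alternatingGroup (Fin 5)) :=
    alternatingGroup.isSimpleGroup (by simp)
  have hσf : π fC ≠ 1 := by
    intro h
    rw [hπ] at h
    have h0 := hσ fC 0
    rw [h, Equiv.Perm.one_apply] at h0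
    have ha1' : (fC : G) * a 0 * (fC : G)⁻¹ = a 1 := by rw [ha0, ha1]
    rw [ha1'] at h0
    have : (1 : Fin 5) = 0 := hcl.a_eq_of (by
      rcases h0 with h0 | h0
      · exact Or.inl h0
      · exact Or.inr (Or.inl h0))
    exact absurd this (by decide)
  have hψinj : Function.Injective ψ := by
    rcases (ψ.normal_ker).eq_bot_or_eq_top with h | h
    · exact (MonoidHom.ker_eq_bot_iff ψ).1 h
    · exfalso
      apply hσf
      rw [← hψe]
      have : e' (QuotientGroup.mk fC) ∈ ψ.ker := by rw [h]; trivial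
      exact this
  have hrange : ψ.range = alternatingGroup (Fin 5) := by
    apply Equiv.Perm.eq_alternatingGroup_of_index_eq_two
    have h1 := Subgroup.card_mul_index ψ.range
    have h2 : Nat.card ψ.range = 60 := by
      rw [← hcardA]
      exact (Nat.card_congr (MonoidHom.ofInjective hψinj).toEquiv).symm
    rw [h2, Nat.card_perm, Nat.card_eq_fintype_card (α := Fin 5), Fintype.card_fin] at h1
    have h120 : Nat.factorial 5 = 120 := rfl
    omega
  refine ⟨{ z := z, a := a, cl := hcl, Q := Q0, Q_mem := hQ0ev, acts := ?_, sur := ?_, ker := ?_,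
            card_C := ?_, conj_a := ⟨g, ha0Q, hgne⟩ }, rfl⟩
  · intro c hc
    have hcC : c ∈ C := (hCmem c).2 hc
    refine ⟨σ ⟨c, hcC⟩, ?_, hσ ⟨c, hcC⟩⟩
    rw [← hrange, ← hπ, ← hψe]
    exact ⟨_, rfl⟩
  · intro τ hτ
    rw [← hrange] at hτ
    obtain ⟨x, rfl⟩ := hτ
    obtain ⟨y, rfl⟩ := e'.surjective x
    obtain ⟨c, rfl⟩ := QuotientGroup.mk_surjective y
    refine ⟨c, (hCmem _).1 c.2, ?_⟩
    rw [hψe, hπ]
    exact hσ c
  · intro c hc hac
    have hcC : c ∈ C := (hCmem c).2 hc
    have h1 : σ ⟨c, hcC⟩ = 1 := hcl.acts_unique (hσ ⟨c, hcC⟩) hac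
    have h2 : ψ (e' (QuotientGroup.mk ⟨c, hcC⟩)) = ψ 1 := by
      rw [hψe, hπ, h1, map_one]
    have h3 := hψinj h2
    have h4 : (QuotientGroup.mk ⟨c, hcC⟩ : C ⧸ Q) = 1 := by
      apply e'.injective
      rw [h3, map_one]
    rw [QuotientGroup.eq_one_iff] at h4
    exact (hQ0mem c).2 ⟨hcC, h4⟩
  · rw [← hCe]; exact hcardC

/-- From the hypotheses of the Hall-Janko type to the local setup. -/
theorem exists_setup {G : Type*} [Group G] [Finite G] (z : G) (hz : orderOf z = 2)
    (Q : Subgroup (Subgroup.centralizer ({z} : Set G))) [Q.Normal]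
    (hF : Cfsg.generalizedFittingSubgroup (Subgroup.centralizer ({z} : Set G)) = Q)
    (hQ : Cfsg.IsExtraspecial 2 Q) (hcard : Nat.card Q = 2 ^ 5)
    (e : (Subgroup.centralizer ({z} : Set G)) ⧸ Q ≃*
      Cfsg.Omega (ZMod 2) (Cfsg.quadFormMinus 1 (ZMod 2) 1 1))
    (hnwc : ∃ g : G, (∃ hq : g * z * g⁻¹ ∈ Subgroup.centralizer ({z} : Set G),
      (⟨g * z * g⁻¹, hq⟩ : Subgroup.centralizer ({z} : Set G)) ∈ Q) ∧ g * z * g⁻¹ ≠ z) :
    ∃ S : Setup G, S.z = z :=
  exists_setup_aux z hz _ rfl Q hF hQ hcard e hnwc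

end Cfsg.Agent.Lib.HallJanko
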