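import Mathlib
import Cfsg.Agent.Lib.HallJanko.Order
import Cfsg.Agent.Lib.HallJanko.Reduce

/-!
# Hall-Janko type groups: from the hypotheses to the local data and the order
-/

set_option autoImplicit false
set_option linter.unusedSimpArgs false
set_option linter.unusedSectionVars false
set_option linter.unusedVariables false
set_option synthInstance.maxHeartbeats 400000
set_option synthInstance.maxSize 4000
set_option maxRecDepth 100000

namespace Cfsg.Agent.Lib.HallJanko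

open Equiv Subgroup

variable {G : Type*} [Group G]

namespace Setup

variable {S : Setup G}

/-- An involution not conjugate to `z` gives a frame. -/
theorem exists_frame [Finite G] {x : G} (hx : x * x = 1) (hx1 : x ≠ 1) (hxz : ¬ IsConj x S.z) :
    ∃ F : Frame S, ¬ IsConj F.t S.z := by
  obtain ⟨g, hg⟩ := S.exists_conj_into_C hx
  have e : IsConj x (g * x * g⁻¹) := isConj_iff.2 ⟨g, rfl⟩
  have h2 : g * x * g⁻¹ * (g * x * g⁻¹) = 1 := Frame.conj_sq hx
  have h3 : g * x * g⁻¹ ≠ 1 := by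
    intro h
    apply hx1
    have : g * x = g := by
      calc g * x = (g * x * g⁻¹) * g := by group
        _ = g := by rw [h, one_mul]
    simpa using this
  have hq : g * x * g⁻¹ ∉ S.Q := fun hq =>
    hxz (e.trans (isConj_of_mem_Q hq h2 h3).symm)
  obtain ⟨c, hc, ht⟩ := (show S.IsInv (g * x * g⁻¹) from ⟨hg, h2, hq⟩).exists_conj
  obtain ⟨y, hy1, hy2, hy3⟩ := S.exists_y
  refine ⟨⟨_, y, ht, hy1, hy2, hy3⟩, ?_⟩
  intro h
  apply hxz
  have e2 : IsConj (g * x * g⁻¹) (c * (g * x * g⁻¹) * c⁻¹) := isConj_iff.2 ⟨c, rfl⟩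
  exact e.trans (e2.trans h)

/-- The full local data. -/
theorem exists_data [Finite G] (S : Setup G) {x : G} (hx : x * x = 1) (hx1 : x ≠ 1) (hxz : ¬ IsConj x S.z) :
    ∃ (F : Frame S) (L : F.EllD) (V : Frame.VD L) (D : Frame.T1D V), ¬ IsConj F.t S.z := by
  obtain ⟨F, hJ⟩ := exists_frame hx hx1 hxz
  obtain ⟨l, h1, h2, h3, h4⟩ := F.exists_ell hJ
  let L : F.EllD := ⟨l, h1, h2, h3, h4⟩
  obtain ⟨V⟩ := L.exists_VD
  obtain ⟨T1, a, b, c, d⟩ := V.exists_T1 hJ
  exact ⟨F, L, V, ⟨T1, a, b, c, d⟩, hJ⟩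

end Setup

/-- The order of a group of Hall-Janko type. -/
theorem order_of_hyp {G : Type*} [Group G] [Finite G] (z : G) (hz : orderOf z = 2)
    (Q : Subgroup (Subgroup.centralizer ({z} : Set G))) [Q.Normal]
    (hF : Cfsg.generalizedFittingSubgroup (Subgroup.centralizer ({z} : Set G)) = Q)
    (hQ : Cfsg.IsExtraspecial 2 Q) (hcard : Nat.card Q = 2 ^ 5)
    (e : (Subgroup.centralizer ({z} : Set G)) ⧸ Q ≃* Cfsg.Omega (ZMod 2) (Cfsg.quadFormMinus 1 (ZMod 2) 1 1))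
    (hnwc : ∃ g : G, (∃ hq : g * z * g⁻¹ ∈ Subgroup.centralizer ({z} : Set G),
      (⟨g * z * g⁻¹, hq⟩ : Subgroup.centralizer ({z} : Set G)) ∈ Q) ∧ g * z * g⁻¹ ≠ z)
    (hcl : ∃ x y : G, orderOf x = 2 ∧ orderOf y = 2 ∧ ¬ IsConj x y) : Nat.card G = 604800 := by
  obtain ⟨S, rfl⟩ := exists_setup z hz Q hF hQ hcard e hnwc
  obtain ⟨x, y, hx, hy, hxy⟩ := hcl
  have key : ∀ w : G, orderOf w = 2 → w * w = 1 ∧ w ≠ 1 := fun w hw => by
    have h1 : w ^ 2 = 1 := by rw [← hw]; exact pow_orderOf_eq_one w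
    refine ⟨by rwa [pow_two] at h1, ?_⟩
    rintro rfl
    simp at hw
  obtain ⟨w, hw, hw1, hwz⟩ : ∃ w : G, w * w = 1 ∧ w ≠ 1 ∧ ¬ IsConj w S.z := by
    by_cases hxz : IsConj x S.z
    · refine ⟨y, (key y hy).1, (key y hy).2, fun hyz => hxy (hxz.trans hyz.symm)⟩
    · exact ⟨x, (key x hx).1, (key x hx).2, hxz⟩
  obtain ⟨F, L, V, D, hJ⟩ := S.exists_data hw hw1 hwz
  exact (D.order hJ).2.2

end Cfsg.Agent.Lib.HallJanko
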